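import Cfsg.Agent.SR.CaseA2

/-! Subgroups containing a transvection. -/

set_option autoImplicit false

namespace Cfsg.Agent.SR

open Module Cfsg.Agent.Polar Cfsg.Agent.Polar.PQ

variable {F : Type*} [Field F] {V : Type*} [AddCommGroup V] [Module F V] {P : PQ (spFP F) V}
  {H : Subgroup P.Iso}

namespace CA

theorem finrank_pair {x y : V} (h : ∀ a b : F, a • x + b • y = 0 → a = 0 ∧ b = 0) :
    finrank F (Submodule.span F {x, y}) = 2 := by
  have := finrank_span_eq_card (LinearIndependent.pair_iff.2 h)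
  rwa [Matrix.range_cons_cons_empty] at this

theorem ti_pair {x y : V} (h : P.B x y = 0) : TI P (Submodule.span F {x, y}) := ti_span (by
  rintro _ (rfl | rfl) _ (rfl | rfl)
  exacts [sp_B_self _, h, B_swap_zero h, sp_B_self _])

theorem inj4 {α : Type*} {A : Fin 4 → α} {p q r : α → Prop} (h0 : p (A 0)) (h1 : ¬ p (A 1)) (h2 : ¬ p (A 2))
    (h3 : ¬ p (A 3)) (h4 : q (A 1)) (h5 : ¬ q (A 2)) (h6 : ¬ q (A 3)) (h7 : r (A 2)) (h8 : ¬ r (A 3)) :
    Function.Injective fun i => (p (A i), q (A i), r (A i)) := fun i j e => by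
  fin_cases i <;> fin_cases j <;> simp_all

theorem few2 (f2 : Few H 2) {W Z : Submodule F V} (ho : ∀ x ∈ W, ∀ y ∈ Z, P.B x y = 0)
    (hd : ∀ x ∈ W, x ∈ Z → x = 0) (hW : ∀ x ∈ W, x ≠ 0 → x ∈ SS H) (hS : ∀ x ∈ SS H, x ∈ W ∨ x ∈ Z)
    {a c u d b w : V} (ha : a ∈ W) (hc : c ∈ W) (hu : u ∈ W) (hb : b ∈ Z) (hw : w ∈ Z) (hb' : b ∈ SS H)
    (h1 : P.B a c = 0) (h2 : P.B a d = 0) (h3 : P.B c d ≠ 0) (h4 : P.B a u ≠ 0) (h5 : P.B b w ≠ 0) : False := by
  have a0 : a ≠ 0 := fun e => h4 (by simp [e])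
  have mix : ∀ x ∈ W, ∀ y ∈ Z, x + y ∈ SS H → x = 0 ∨ y = 0 := fun x hx y hy h =>
    (hS _ h).symm.imp (fun h => hd x hx ((Z.add_mem_iff_left hy).1 h)) fun h => hd y ((W.add_mem_iff_right hx).1 h) hy
  have ac : ∀ s t : F, s • a + t • c = 0 → s = 0 ∧ t = 0 := fun s t e => by
    obtain rfl : t = 0 := by simpa [h2, h3] using congrArg (P.B · d) e
    simpa [a0] using e
  have au : ∀ s t : F, s • a + t • u = 0 → s = 0 ∧ t = 0 := fun s t e => by
    obtain rfl : t = 0 := by simpa [sp_B_self, h4] using congrArg (P.B a) e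
    simpa [a0] using e
  obtain ⟨κ, hκ, h6⟩ : ∃ κ : F, κ ≠ 0 ∧ P.B a u + κ * P.B b w = 0 :=
    ⟨-P.B a u / P.B b w, by simp [h4, h5], by field_simp; ring⟩
  have bw : ∀ s t : F, s • b + t • κ • w = 0 → s = 0 ∧ t = 0 := fun s t e => by
    obtain rfl : t = 0 := by simpa [sp_B_self, h5, hκ] using congrArg (P.B b) e
    simpa [hb'.1] using e
  have ab := ho a ha b hb
  let A : Fin 4 → Submodule F V := ![Submodule.span F {a, c}, Submodule.span F {a, b},
    Submodule.span F {a, c + b}, Submodule.span F {a + b, u + κ • w}]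
  let p1 : Submodule F V → Prop := fun A => ∀ v ∈ A, v ≠ 0 → v ∈ SS H
  let p2 : Submodule F V → Prop := fun A => A ≤ Submodule.span F (SS H ∩ A)
  let p3 : Submodule F V → Prop := fun A => (SS H ∩ A).Nonempty
  have q1 : p1 (A 0) := fun v hv => hW v (Submodule.span_le.2 (by rintro _ (rfl | rfl) <;> assumption) hv)
  have q2 : ¬ p1 (A 1) := fun h => by
    have h7 : a + b ≠ 0 := fun e => h4 (by simpa [B_swap_zero (ho u hu b hb)] using congrArg (P.B · u) e)
    exact (mix a ha b hb (h _ (add_mem (left_mem_span_pair a b) (right_mem_span_pair a b)) h7)).elim a0 hb'.1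
  have q3 : p2 (A 1) := Submodule.span_mono (by
    rintro _ (rfl | rfl)
    exacts [⟨hW _ ha a0, left_mem_span_pair _ _⟩, ⟨hb', right_mem_span_pair _ _⟩])
  have q4 : ¬ p2 (A 2) := fun h => by
    have h8 : Submodule.span F (SS H ∩ A 2) ≤ P.perp {w} := Submodule.span_le.2 (by
      rintro v ⟨h7, h8⟩
      obtain ⟨s, t, rfl⟩ := Submodule.mem_span_pair.1 h8
      rw [smul_add, ← add_assoc] at h7
      obtain rfl : t = 0 := (mix _ (add_mem (W.smul_mem s ha) (W.smul_mem t hc)) _ (Z.smul_mem t hb) h7).elim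
        (fun e => (ac s t e).2) fun e => by simpa [hb'.1] using e
      simp [mem_perp_singleton, ho a ha w hw])
    simpa [mem_perp_singleton, ho c hc w hw, h5] using h8 (h (right_mem_span_pair a (c + b)))
  have q5 : p3 (A 2) := ⟨a, hW a ha a0, left_mem_span_pair _ _⟩
  have q6 : ¬ p3 (A 3) := fun ⟨v, h7, h8⟩ => by
    obtain ⟨s, t, rfl⟩ := Submodule.mem_span_pair.1 h8
    have h9 := h7.1
    rw [show s • (a + b) + t • (u + κ • w) = (s • a + t • u) + (s • b + t • κ • w) by module] at h7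
    obtain ⟨rfl, rfl⟩ := (mix _ (add_mem (W.smul_mem s ha) (W.smul_mem t hu)) _
      (add_mem (Z.smul_mem s hb) (Z.smul_mem t (Z.smul_mem κ hw))) h7).elim (au s t) (bw s t)
    simp at h9
  have i1 : ∀ A, p1 A → p2 A := fun A h v hv => by
    by_cases e : v = 0
    · simp [e]
    · exact Submodule.subset_span ⟨h v hv e, hv⟩
  have i2 : ¬ p2 (A 3) := fun h => by
    have := h (left_mem_span_pair (a + b) (u + κ • w))
    rw [Set.not_nonempty_iff_eq_empty.1 q6, Submodule.span_empty, Submodule.mem_bot] at this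
    exact h4 (by simpa [B_swap_zero (ho u hu b hb)] using congrArg (P.B · u) this)
  refine f2.inv (fun A => (p1 A, p2 A, p3 A)) (fun g hg A => ?_) A (fun i => ?_) (fun i => ?_)
    (inj4 q1 q2 (mt (i1 _) q4) (mt (i1 _) i2) q3 q4 i2 q5 q6)
  · have h7 := img_inter (T := SS H) (fun g hg v => act_mem hg) hg A
    refine Prod.ext (propext ⟨fun h v hv h0 => ?_, fun h v hv h0 => ?_⟩) (Prod.ext ?_ ?_)
    · simpa using act_mem (inv_mem hg) (h _ (act_mem_act.2 hv) (act_ne_zero g h0))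
    · simpa using act_mem hg (h _ (mem_act.1 hv) (act_ne_zero _ h0))
    · simp only [p2, h7, ← smul_span, act_le_act]
    · simp only [p3, h7, Set.image_nonempty]
  · fin_cases i
    exacts [ti_pair h1, ti_pair ab, ti_pair (by simp [h1, ab]),
      ti_pair (by simpa [ho a ha w hw, B_swap_zero (ho u hu b hb)] using h6)]
  · fin_cases i
    · exact finrank_pair ac
    · refine finrank_pair fun s t e => ?_
      obtain rfl : t = 0 := by simpa [ho a ha w hw, h5] using congrArg (P.B · w) e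
      simpa [a0] using e
    · refine finrank_pair fun s t e => ?_
      obtain rfl : t = 0 := by simpa [ho a ha w hw, ho c hc w hw, h5] using congrArg (P.B · w) e
      simpa [a0] using e
    · refine finrank_pair fun s t e => ?_
      obtain rfl : t = 0 := by simpa [ho a ha w hw, sp_B_self, ab, h4] using congrArg (P.B a) e
      simpa [B_swap_zero (ho u hu b hb), h4] using congrArg (P.B · u) e

theorem no_split [FiniteDimensional F V] (h6 : 6 ≤ finrank F V) (hp : Pt2 H) (hS : Sp H)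
    (tr : ∀ x ∈ SS H, ∀ y ∈ SS H, Cj H (F ∙ x) (F ∙ y)) {e f : V} (h : P.B e f ≠ 0)
    (hL : ∀ v ∈ Submodule.span F {e, f}, v ≠ 0 → v ∈ SS H)
    (hn : ∀ s ∈ SS H, s ∈ Submodule.span F {e, f} ∨ s ∈ P.perp (Submodule.span F {e, f} : Set V)) : False := by
  have e0 : e ≠ 0 := fun e0 => h (by simp [e0])
  have eL := left_mem_span_pair (F := F) e f
  have fL := right_mem_span_pair (F := F) e f
  have nd := pair_nd h
  have hL4 : ∀ y, P.B y e = 0 → P.B y f = 0 → ∀ v ∈ Submodule.span F {e, f}, P.B y v = 0 := fun y h1 h2 v hv => by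
    obtain ⟨a, b, rfl⟩ := Submodule.mem_span_pair.1 hv
    simp [h1, h2]
  generalize Submodule.span F {e, f} = L at *
  have dj : ∀ v ∈ L, v ∈ P.perp (L : Set V) → v = 0 := fun v h1 h2 => by
    by_contra h0
    obtain ⟨y, hy, h3⟩ := nd v h1 h0
    exact h3 (h2 y hy)
  obtain ⟨y, y0, y1, y2⟩ := exists_ne_zero_ker₂ (P.B.flip e) (P.B.flip f) (by omega)
  obtain ⟨e2, he2, h2⟩ := hS y y0
  have m2 := (hn _ he2).resolve_left fun e' => h2 (hL4 y y1 y2 _ e')
  obtain ⟨g, hg, c, hc, ge⟩ := (cj_pt e0).1 (tr e (hL e eL e0) e2 he2)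
  replace m2 : g • e ∈ P.perp (L : Set V) := ge ▸ Submodule.smul_mem _ c m2
  have m3 : ∀ v ∈ L, g • v ∈ P.perp (L : Set V) := fun v hv => by
    by_cases h0 : v = 0
    · simp [h0]
    refine (hn _ (act_mem hg (hL v hv h0))).elim (fun h3 => ?_) id
    by_cases h4 : v + e = 0
    · rw [eq_neg_of_add_eq_zero_left h4, act_neg]; exact neg_mem m2
    have h5 := hn _ (act_mem hg (hL _ (add_mem hv eL) h4))
    rw [smul_add] at h5
    exact h5.elim (fun h5 => absurd (dj _ ((L.add_mem_iff_right h3).1 h5) m2) (act_ne_zero g e0))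
      fun h5 => (Submodule.add_mem_iff_left _ m2).1 h5
  have hn' : ∀ s ∈ SS H, g⁻¹ • s ∈ L ∨ ∀ v ∈ L, P.B s (g • v) = 0 := fun s hs =>
    (hn _ (act_mem (inv_mem hg) hs)).imp_right fun h v hv => by rw [B_act_right]; exact h v hv
  obtain ⟨z, z0, z1⟩ := exists_ne_zero_ker ![P.B.flip e, P.B.flip f, P.B.flip (g • e), P.B.flip (g • f)]
    (by simp; omega)
  obtain ⟨e3, he3, h3⟩ := hS z z0
  have z2 := hL4 z (z1 0) (z1 1)
  have z3 : ∀ s, g⁻¹ • s ∈ L → P.B z s = 0 := fun s hs => by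
    rw [← B_smul_smul g⁻¹]
    exact hL4 _ (by rw [← B_act_right]; exact z1 2) (by rw [← B_act_right]; exact z1 3) _ hs
  have m4 := (hn _ he3).resolve_left fun e' => h3 (z2 _ e')
  have m5 := (hn' _ he3).resolve_left fun e' => h3 (z3 _ e')
  have ns : ∀ v ∈ P.perp (L : Set V), v ≠ 0 → e + v ∉ SS H := fun v hv h0 h1 =>
    (hn _ h1).elim (fun h1 => h0 (dj v ((L.add_mem_iff_right eL).1 h1) hv))
      fun h1 => e0 (dj e eL ((Submodule.add_mem_iff_left _ hv).1 h1))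
  have b1 : P.B (g • e + e3) (g • f) ≠ 0 := by simpa [m5 f fL] using h
  have n1 : e + g • e ≠ 0 := fun e' => h (by simpa [m2 f fL] using congrArg (P.B · f) e')
  have n2 : e + (g • e + e3) ≠ 0 := fun e' => h (by simpa [m2 f fL, m4 f fL] using congrArg (P.B · f) e')
  rcases hp e (e + g • e) (e + (g • e + e3)) e0 n1 n2 with h4 | h4 | h4
  · exact ns _ m2 (act_ne_zero g e0) (of_cj (hL e eL e0) h4)
  · exact ns _ (add_mem m2 m4) (fun e' => b1 (by rw [e', map_zero, LinearMap.zero_apply])) (of_cj (hL e eL e0) h4)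
  obtain ⟨k, hk, d, hd, h5⟩ := (cj_pt n1).1 h4
  rw [smul_add] at h5
  have s1 := act_mem hk (hL e eL e0)
  have s2 := act_mem hk (act_mem hg (hL e eL e0))
  generalize k • e = s at *
  generalize k • g • e = t at *
  have c1 : s ∈ L ∨ t ∈ L := by
    by_contra! hc
    simpa [m2 f fL, m4 f fL, hd, h, (hn s s1).resolve_left hc.1 f fL, (hn t s2).resolve_left hc.2 f fL]
      using congrArg (P.B · f) h5
  have c2 : g⁻¹ • s ∈ L ∨ g⁻¹ • t ∈ L := by
    by_contra! hc
    simpa [B_swap_zero (m3 f fL e eL), m5 f fL, hd, h, (hn' s s1).resolve_left hc.1 f fL,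
      (hn' t s2).resolve_left hc.2 f fL] using congrArg (P.B · (g • f)) h5
  have c3 : ∀ s ∈ SS H, s ∈ L → g⁻¹ • s ∉ L := fun s hs h1 h2 => hs.1 (dj s h1 (by simpa using m3 _ h2))
  have c4 : P.B z (s + t) ≠ 0 := by
    rw [h5]; simpa [z2 e eL, z3 (g • e) (by simpa using eL), hd] using h3
  rcases c1 with c1 | c1 <;> rcases c2 with c2 | c2
  exacts [c3 s s1 c1 c2, c4 (by simp [z2 _ c1, z3 _ c2]), c4 (by simp [z2 _ c1, z3 _ c2]), c3 t s2 c1 c2]

theorem add_of_tt (T : ∀ s ∈ SS H, P.TT H s) {x y : V} (hx : x ∈ SS H) (hy : y ∈ SS H) (h : P.B x y ≠ 0) (μ : F) :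
    x + μ • y ∈ SS H := by
  have := act_mem (show tv P y (μ / P.B x y) ∈ H from T y hy _ (by simp)) hx
  rwa [tv_smul, div_mul_cancel₀ _ h] at this

/-- the largest subspace of the group of vectors -/
def Yf (H : Subgroup P.Iso) (r : V) : Submodule F V where
  carrier := {y | ∀ μ : F, μ • y ∈ YY H r}
  add_mem' ha hb μ := by rw [smul_add]; exact add_mem (ha μ) (hb μ)
  zero_mem' μ := by rw [smul_zero]; exact zero_mem _
  smul_mem' c y hy μ := by rw [smul_smul]; exact hy _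

theorem tt_case [Finite F] [FiniteDimensional F V] (hP : P.ND) (h2 : (2 : F) ≠ 0) (f2 : Few H 2) (hS : Sp H)
    (T : ∀ s ∈ SS H, P.TT H s) {t : V} (t0 : t ≠ 0) (ht : t ∉ SS H) {r c d : V} (hr : r ∈ SS H) (hc : c ∈ SS H)
    (h1 : P.B r c = 0) (h3 : P.B r d = 0) (h4 : P.B c d ≠ 0) (h5 : d ∈ YY H r) : False := by
  obtain ⟨z, hz, hrz⟩ : ∃ z ∈ SS H, P.Hyp r z := by
    obtain ⟨z, hz, h⟩ := hS r hr.1
    exact ⟨_, exists_hyp hz h⟩
  have b1 := hrz.pair
  have b2 : P.B z r = -1 := by rw [sp_swap, b1]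
  have F2 : ∀ y ∈ YY H r, ∀ s ∈ SS H, P.B r s = 0 → P.B y s ≠ 0 → s ∈ Yf H r := fun y hy s hs a1 a2 μ => by
    have := YY_step hy (show tv P s (μ / P.B y s) ∈ H from T s hs _ (by simp)) a1
    rwa [div_mul_cancel₀ _ a2] at this
  have F3 : ∀ y ∈ YY H r, z + y ∈ SS H := fun y hy => by
    have a1 := (mem_YY.1 (neg_mem hy)).1
    have := act_mem (eich_mem_of_vecs _ (T r hr) (neg_mem hy) (sp_eOk a1 (P.B z (-y)))) hz
    simpa [eich_act a1, b2] using this
  have F4 : ∀ s ∈ SS H, P.B s r = 0 → r + s ∈ SS H → s ∈ Yf H r := fun s hs a1 a2 μ => by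
    have := mul_mem (T _ a2 μ (by simp)) (inv_mem (T _ hs μ (by simp)))
    rw [← one_smul F r, sp_transvec_add' a1, mul_inv_cancel_right, one_mul] at this
    exact mem_YY.2 ⟨by simp [a1], _, this⟩
  have rY : r ∈ Yf H r := smul_mem_vecs _
  have y1 : ∀ y ∈ Yf H r, y ∈ YY H r := fun y hy => by simpa using hy 1
  let Z0 : Set V := {s | s ∈ SS H ∧ P.B z s = 0 ∧ ∀ y ∈ YY H r, P.B y s = 0}
  let W := Yf H r ⊔ F ∙ z
  have zW : z ∈ W := Submodule.mem_sup_right (Submodule.mem_span_singleton_self z)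
  have mW : ∀ x ∈ W, ∃ y ∈ Yf H r, ∃ β : F, x = y + β • z := fun x hx => by
    obtain ⟨y, hy, _, hz, rfl⟩ := Submodule.mem_sup.1 hx
    obtain ⟨β, rfl⟩ := Submodule.mem_span_singleton.1 hz
    exact ⟨y, hy, β, rfl⟩
  have ho : ∀ x ∈ W, ∀ y ∈ Submodule.span F Z0, P.B x y = 0 := fun x hx y hy => by
    refine B_swap_zero (Submodule.span_le (p := P.perp {x}) |>.2 (fun s hs => ?_) hy x rfl)
    obtain ⟨y, hy, β, rfl⟩ := mW x hx
    exact mem_perp_singleton.2 (B_swap_zero (by simp [hs.2.1, hs.2.2 y (y1 y hy)]))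
  have hs : ∀ s ∈ SS H, s ∈ W ∨ s ∈ Z0 := fun s hs => by
    have a1 := hyp_decomp (P := P) r z s
    have a2 := mem_perp_pair.1 (hrz.hproj_mem s)
    have a3 := hproj_mem h2 hr hz hrz hs
    generalize P.hproj r z s = s' at *
    generalize P.B s z = α at *
    generalize (spFP F).ε * P.B s r = β at *
    subst a1
    have a4 : s' ∈ Yf H r → α • r + s' + β • z ∈ W := fun h =>
      add_mem (Submodule.mem_sup_left (add_mem (Submodule.smul_mem _ _ rY) h)) (Submodule.smul_mem _ _ zW)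
    by_cases h0 : s' = 0
    · exact Or.inl (a4 (h0 ▸ zero_mem _))
    by_cases a5 : ∃ y ∈ YY H r, P.B y s' ≠ 0
    · obtain ⟨y, hy, a5⟩ := a5
      exact Or.inl (a4 (F2 y hy _ (a3 h0) (B_swap_zero a2.1) a5))
    by_cases hβ : β = 0
    · by_cases hα : α = 0
      · push Not at a5
        exact Or.inr (by simpa [hα, hβ] using ⟨a3 h0, B_swap_zero a2.2, a5⟩)
      refine Or.inl (a4 (((Yf H r).smul_mem_iff (inv_ne_zero hα)).1 (F4 _ (smul_mem (inv_ne_zero hα) (a3 h0))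
        (by simp [a2.1]) ?_)))
      simpa [hβ, hα] using smul_mem (inv_ne_zero hα) hs
    · refine Or.inl (a4 (F4 _ (a3 h0) a2.1 ?_))
      have a6 := add_of_tt T hs hr (by simp [sp_B_self, a2.1, b2, hβ]) (1 - α)
      have a7 := add_of_tt T a6 hz (by simp [sp_B_self, a2.2, b1]) (-β)
      convert a7 using 1
      module
  have nd : ∀ x, (∀ y ∈ W, P.B x y = 0) → (∀ y ∈ Z0, P.B x y = 0) → x = 0 := fun x a1 a2 => by
    by_contra h0
    obtain ⟨s, a3, a4⟩ := hS x h0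
    exact a4 ((hs s a3).elim (a1 s) (a2 s))
  have hW : ∀ x ∈ W, x ≠ 0 → x ∈ SS H := fun x hx h0 => by
    obtain ⟨y, hy, β, rfl⟩ := mW x hx
    by_cases hβ : β = 0
    · rw [hβ, zero_smul, add_zero] at h0 ⊢
      by_cases a1 : P.B y z = 0
      · exact proj_r h2 hr hz (by simp [b1]) (mem_YY.1 (y1 y hy)).1 a1 (α := 0) (β := 1)
          (by simpa using F3 y (y1 y hy)) h0
      · simpa using add_of_tt T (F3 y (y1 y hy)) hz (by simpa [sp_B_self] using a1) (-1)
    · simpa [hβ, add_comm] using smul_mem hβ (F3 _ (hy β⁻¹))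
  obtain ⟨b, hb⟩ : Z0.Nonempty := by
    by_contra hn
    have : P.perp (W : Set V) = ⊥ := eq_bot_iff.2 fun x hx => nd x hx fun y hy => absurd ⟨y, hy⟩ hn
    have a1 := perp_perp hP W
    rw [this] at a1
    exact ht (hW t (a1.le fun y hy => by simp [(Submodule.mem_bot F).1 hy]) t0)
  obtain ⟨w, hw, a1⟩ : ∃ w ∈ Z0, P.B b w ≠ 0 := by
    by_contra! hn
    exact hb.1.1 (nd b (fun y hy => B_swap_zero (ho y hy b (Submodule.subset_span hb))) hn)
  exact few2 f2 ho (fun x a1 a2 => nd x (fun y hy => B_swap_zero (ho y hy x a2)) fun y hy =>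
      ho x a1 y (Submodule.subset_span hy)) hW (fun x hx => (hs x hx).imp_right fun h => Submodule.subset_span h)
    (Submodule.mem_sup_left rY) (Submodule.mem_sup_left (F2 d h5 c hc h1 (B_swap_ne h4))) zW
    (Submodule.subset_span hb) (Submodule.subset_span hw) hb.1 h1 h3 h4 (by simp [b1]) a1

end CA

open CA in
theorem caseA [Finite F] [Finite V] (hP : P.ND) (h2 : (2 : F) ≠ 0) (h6 : 6 ≤ finrank F V) (hne : H ≠ ⊤)
    (hp : Pt2 H) (f2 : Few H 2) (f3 : Few H 3) (h : ¬ NoTv H) : False := by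
  obtain ⟨v, hv⟩ : (SS H).Nonempty := by
    by_contra hn
    exact h fun v c hc => by_contra fun h0 => hn ⟨v, (not_or.1 h0).1, c, (not_or.1 h0).2, hc⟩
  have hS : Sp H := fun y hy => by
    by_contra! hn
    refine not_inv hP h6 hp f3 (W := Submodule.span F (SS H)) (fun g hg x hx => ?_) (fun e => ?_) fun e => hy ?_
    · refine Submodule.span_mono ?_ (smul_span g (SS H) ▸ act_mem_act.2 hx)
      rintro _ ⟨s, hs, rfl⟩
      exact act_mem hg hs
    · exact hv.1 (e.le (Submodule.subset_span hv))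
    · refine hP y fun x => B_swap_zero ?_
      simpa using B_eq_of_span (P := P) (y := y) (z := 0) (fun s hs => by simp [B_swap_zero (hn s hs)]) x (e.ge trivial)
  obtain ⟨t, t0, ht⟩ : ∃ t, t ≠ 0 ∧ t ∉ SS H := by
    by_contra! hn
    refine hne (top_le_iff.1 (sp_TG_eq_top hP ▸ TG_le fun r c _ r0 hc _ => ?_))
    obtain ⟨r', h3⟩ := hP.exists_hyp (sp_sing r) r0
    obtain ⟨e, e0, e1, e2⟩ := exists_ne_zero_ker₂ (P.B.flip r) (P.B.flip r') (by omega)
    obtain ⟨f, hf, h4⟩ := h3.exists_hyp_perp hP (mem_perp_pair.2 ⟨e1, e2⟩) e0 (sp_sing _)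
    have h5 : P.B e f ≠ 0 := by simp [h4.pair]
    have h7 : P.B r e = 0 := B_swap_zero e1
    have h8 : P.B r f = 0 := B_swap_zero (mem_perp_pair.1 hf).1
    obtain ⟨a, b, -, hb, -, h9⟩ := pair_YY h2 (hn e e0) (hn f h4.right_ne_zero) h5 h7 h8 (α := 1) (β := 0)
      (hn _ fun e' => h5 (by simpa [h8] using congrArg (P.B · f) e')) (by simpa using e0)
    exact tt_of_skew h2 h5 (fun a b => hn _) h7 h8 hb h9 c hc
  have tr : ∀ x ∈ SS H, ∀ y ∈ SS H, Cj H (F ∙ x) (F ∙ y) := fun x hx y hy =>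
    (hp x y t hx.1 hy.1 t0).resolve_right fun h => h.elim (fun h => ht (of_cj hx h)) fun h => ht (of_cj hy h)
  have full : ∀ e ∈ SS H, ∀ f ∈ SS H, P.B e f ≠ 0 → ∃ a b : F, a • e + b • f ≠ 0 ∧ a • e + b • f ∉ SS H :=
    fun e he f hf h3 => by
      by_contra! hL
      refine no_split h6 hp hS tr h3 (fun x hx h0 => ?_) fun s hs => ?_
      · obtain ⟨a, b, rfl⟩ := Submodule.mem_span_pair.1 hx
        exact hL a b h0
      obtain ⟨h4, h5⟩ := exists_hyp hf h3
      have a1 := hyp_decomp (P := P) e ((P.B e f)⁻¹ • f) s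
      obtain ⟨a2, a3⟩ := mem_perp_pair.1 (h5.hproj_mem s)
      replace a3 : P.B (P.hproj e ((P.B e f)⁻¹ • f) s) f = 0 := by simpa [h3] using a3
      rw [smul_smul, add_right_comm] at a1
      generalize P.hproj e ((P.B e f)⁻¹ • f) s = r at *
      generalize P.B s ((P.B e f)⁻¹ • f) = α at *
      generalize (spFP F).ε * P.B s e * (P.B e f)⁻¹ = β at *
      subst a1
      by_contra! hn
      have r0 : r ≠ 0 := fun e' => hn.1 (Submodule.mem_span_pair.2 ⟨α, β, by simp [e']⟩)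
      have m0 : α • e + β • f ≠ 0 := fun e' => hn.2 (by
        rw [e', zero_add, perp_span]; exact mem_perp_pair.2 ⟨a2, a3⟩)
      obtain ⟨a, b, -, hb, -, h9⟩ := pair_YY h2 he hf h3 a2 a3 hs m0
      have hr := proj_r h2 he hf h3 a2 a3 hs r0
      refine tt_case hP h2 f2 hS (fun s hs => ?_) t0 ht hr he a2 (d := b • f) (by simp [a3]) (by simp [hb, h3]) h9
      obtain ⟨g, hg, c, hc, e'⟩ := (cj_pt r0).1 (tr r hr s hs)
      exact TT.of_smul (sp_sing _) hc (e' ▸ (tt_of_skew h2 h3 hL a2 a3 hb h9).act (sp_sing _) hg)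
  obtain ⟨f1, hf1, b1⟩ := hS v hv.1
  obtain ⟨y, y0, y1, y2⟩ := exists_ne_zero_ker₂ (P.B.flip v) (P.B.flip f1) (by omega)
  obtain ⟨e2, he2, c1, c2, -⟩ := hS.perp h2 hv hf1 b1 y1 y2 y0
  obtain ⟨g2, hg2, c3, c4, b2⟩ := hS.perp h2 hv hf1 b1 c1 c2 he2.1
  obtain ⟨z, z0, z1⟩ := exists_ne_zero_ker ![P.B.flip v, P.B.flip f1, P.B.flip e2, P.B.flip g2] (by simp; omega)
  obtain ⟨e3, he3, d1, d2, d3, d4, -⟩ := hS.perp₂ h2 hv hf1 b1 he2 hg2 b2 c1 c2 c3 c4 (z1 0) (z1 1) (z1 2) (z1 3) z0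
  obtain ⟨g3, hg3, d5, d6, d7, d8, b3⟩ := hS.perp₂ h2 hv hf1 b1 he2 hg2 b2 c1 c2 c3 c4 d1 d2 d3 d4 he3.1
  have he : ∀ i, ![v, e2, e3] i ∈ SS H := by intro i; fin_cases i <;> assumption
  have hf : ∀ i, ![f1, g2, g3] i ∈ SS H := by intro i; fin_cases i <;> assumption
  have hb : ∀ i, P.B (![v, e2, e3] i) (![f1, g2, g3] i) ≠ 0 := by intro i; fin_cases i <;> assumption
  refine few3' f3 (T := SS H) (fun g hg v => act_mem hg) (fun c _ v => of_smul) _ _ hb (fun i j hij => ?_)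
    (fun i a b r r1 r2 => hS.proj_m h2 (he i) (hf i) (hb i) r1 r2) he fun i => full _ (he i) _ (hf i) (hb i)
  fin_cases i <;> fin_cases j <;> first | exact absurd hij (by decide) | skip
  exacts [⟨c1, c2, c3, c4⟩, ⟨d1, d2, d5, d6⟩, ⟨d3, d4, d7, d8⟩]

end Cfsg.Agent.SR
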