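import Cfsg.Agent.SR.Base
import Cfsg.Agent.SR.Orb

/-! Orbits of the point stabiliser of a rank three action on totally isotropic subspaces. -/

set_option autoImplicit false

namespace Cfsg.Agent.SR

open Module Cfsg.Agent.Polar Cfsg.Agent.Polar.PQ Submodule

variable {F : Type*} [Field F] {V : Type*} [AddCommGroup V] [Module F V] {P : PQ (spFP F) V}

theorem B_sup_zero {A B : Submodule F V} {u : V} (hA : ∀ y ∈ A, P.B y u = 0)
    (hB : ∀ y ∈ B, P.B y u = 0) : ∀ y ∈ A ⊔ B, P.B y u = 0 := fun y hy => by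
  obtain ⟨a, ha, b, hb, rfl⟩ := mem_sup.1 hy
  simp [hA a ha, hB b hb]

theorem B_span_zero {a u : V} (h : P.B a u = 0) : ∀ y ∈ F ∙ a, P.B y u = 0 := fun y hy => by
  obtain ⟨c, rfl⟩ := mem_span_singleton.1 hy
  simp [h]

theorem exists_w [FiniteDimensional F V] (hP : P.ND) (Y : Submodule F V) {a b : V}
    (ha : a ∉ Y ⊔ F ∙ b) (hb : b ∉ Y ⊔ F ∙ a) (hYa : ∀ y ∈ Y, P.B y a = 0)
    (hYb : ∀ y ∈ Y, P.B y b = 0) :
    ∃ w : P.Iso, (∀ y ∈ Y, w • y = y) ∧ w • a = b ∧ w • b = -a := by
  obtain ⟨g, g1, g2⟩ := sp_step hP Y (u := a) (u' := b) (fun h => ha (mem_sup_left h))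
    (fun h => hb (mem_sup_left h)) (fun y hy => by rw [hYa y hy, hYb y hy])
  have e : g • (Y ⊔ F ∙ a) = Y ⊔ F ∙ b := by
    rw [act_sup, smul_span_one, g2, act_eq_of_le (fun x hx => by rwa [g1 x hx]) le_rfl]
  obtain ⟨k, k1, k2⟩ := sp_step hP (Y ⊔ F ∙ b) (u := g • b) (u' := -a)
    (by rwa [← e, act_mem_act]) (by rwa [neg_mem_iff]) (fun y' hy' => by
      obtain ⟨y, hy, z, hz, rfl⟩ := mem_sup.1 hy'
      obtain ⟨c, rfl⟩ := mem_span_singleton.1 hz
      have h1 : P.B y (g • b) = 0 := by rw [← g1 y hy, B_smul_smul, hYb y hy]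
      have h2 : P.B b (g • b) = P.B a b := by nth_rewrite 1 [← g2]; rw [B_smul_smul]
      simp [h1, h2, hYa y hy, sp_swap b a])
  refine ⟨k * g, fun y hy => ?_, ?_, ?_⟩
  · rw [mul_smul, g1 y hy, k1 y (mem_sup_left hy)]
  · rw [mul_smul, g2, k1 b (mem_sup_right (mem_span_singleton_self b))]
  · rw [mul_smul, k2]

theorem hyp_split [FiniteDimensional F V] {A : Submodule F V} {a b : V} (ha : a ∈ A)
    (h : P.B a b ≠ 0) : A ⊓ P.perp {b} ⊔ F ∙ a = A := by
  refine le_antisymm (sup_le inf_le_left ((span_singleton_le_iff_mem _ _).2 ha)) fun x hx => ?_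
  refine mem_sup.2 ⟨x - (P.B x b / P.B a b) • a, ⟨A.sub_mem hx (A.smul_mem _ ha),
    mem_perp_singleton.2 ?_⟩, _, mem_span_singleton.2 ⟨_, rfl⟩, sub_add_cancel _ _⟩
  simp [div_mul_cancel₀ _ h]

theorem swap_aux [FiniteDimensional F V] (hP : P.ND) (n : ℕ) : ∀ A B X : Submodule F V, TI P A →
    TI P B → finrank F A = n → finrank F B = n → Disjoint X (A ⊔ B) →
    (∀ x ∈ X, ∀ y ∈ A ⊔ B, P.B x y = 0) →
    ∃ g : P.Iso, (∀ x ∈ X, g • x = x) ∧ g • A = B ∧ g • B = A := by
  induction n with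
  | zero =>
    intro A B X _ _ hA hB _ _
    rw [R3.eq_bot_of_dm hA, R3.eq_bot_of_dm hB]
    exact ⟨1, fun x _ => one_smul _ x, one_smul _ _, one_smul _ _⟩
  | succ n ih =>
    intro A B X tA tB hA hB hd hp
    by_cases hAB : A = B
    · exact ⟨1, fun x _ => one_smul _ x, hAB ▸ one_smul _ _, hAB ▸ one_smul _ _⟩
    have step : ∀ (A' B' : Submodule F V) (a b : V), A' ⊔ F ∙ a = A → B' ⊔ F ∙ b = B →
        a ∉ A' ⊔ B ⊔ X → b ∉ A ⊔ B' ⊔ X → (∀ y ∈ A', P.B y b = 0) → (∀ y ∈ B', P.B y a = 0) →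
        ∃ g : P.Iso, (∀ x ∈ X, g • x = x) ∧ g • A = B ∧ g • B = A := by
      intro A' B' a b eA eB ha hb hAb hBa
      have lA : A' ≤ A := eA ▸ le_sup_left
      have lB : B' ≤ B := eB ▸ le_sup_left
      have aA : a ∈ A := eA ▸ mem_sup_right (mem_span_singleton_self a)
      have bB : b ∈ B := eB ▸ mem_sup_right (mem_span_singleton_self b)
      have sa : (F ∙ a) ≤ A := (span_singleton_le_iff_mem _ _).2 aA
      have sb : (F ∙ b) ≤ B := (span_singleton_le_iff_mem _ _).2 bB
      have dA : finrank F A' = n := by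
        have := R3.dm_sup_span (A := A') (v := a) fun h => ha (mem_sup_left (mem_sup_left h))
        rw [eA] at this; exact Nat.succ_injective (this.symm.trans hA)
      have dB : finrank F B' = n := by
        have := R3.dm_sup_span (A := B') (v := b) fun h => hb (mem_sup_left (mem_sup_right h))
        rw [eB] at this; exact Nat.succ_injective (this.symm.trans hB)
      have pa : ∀ y ∈ A' ⊔ B', P.B y a = 0 := B_sup_zero (fun y hy => tA y (lA hy) a aA) hBa
      have pb : ∀ y ∈ A' ⊔ B', P.B y b = 0 := B_sup_zero hAb (fun y hy => tB y (lB hy) b bB)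
      obtain ⟨w, w1, w2, w3⟩ := exists_w hP (A' ⊔ B' ⊔ X) (a := a) (b := b)
        (fun h => ha ((sup_le (sup_le_sup_right (sup_le_sup_left lB _) _)
          (sb.trans (le_sup_right.trans le_sup_left)) : _ ≤ A' ⊔ B ⊔ X) h))
        (fun h => hb ((sup_le (sup_le_sup_right (sup_le_sup_right lA _) _)
          (sa.trans (le_sup_left.trans le_sup_left)) : _ ≤ A ⊔ B' ⊔ X) h))
        (B_sup_zero pa fun x hx => hp x hx a (mem_sup_left aA))
        (B_sup_zero pb fun x hx => hp x hx b (mem_sup_right bB))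
      obtain ⟨g, g1, g2, g3⟩ := ih A' B' (X ⊔ F ∙ a ⊔ F ∙ b) (tA.mono lA) (tB.mono lB) dA dB
        (disjoint_def.2 fun z hz hz' => by
          obtain ⟨z1, hz1, z2, hz2, rfl⟩ := mem_sup.1 hz
          obtain ⟨x, hx, z3, hz3, rfl⟩ := mem_sup.1 hz1
          obtain ⟨t, rfl⟩ := mem_span_singleton.1 hz2
          obtain ⟨s, rfl⟩ := mem_span_singleton.1 hz3
          have hs : s = 0 := by
            by_contra hs
            refine ha ((smul_mem_iff _ hs).1 ?_)
            have := sub_mem (sub_mem (mem_sup_left (T := X) (sup_le_sup_left lB A' hz'))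
              (mem_sup_right hx)) (mem_sup_left (mem_sup_right (B.smul_mem t bB)))
            simpa [add_sub_assoc, add_sub_right_comm] using this
          have ht : t = 0 := by
            by_contra ht
            refine hb ((smul_mem_iff _ ht).1 ?_)
            have := sub_mem (mem_sup_left (T := X) (sup_le_sup_right lA B' hz')) (mem_sup_right hx)
            simpa [hs] using this
          rw [hs, ht, zero_smul, zero_smul, add_zero, add_zero] at hz' ⊢
          exact disjoint_def.1 hd x hx (sup_le_sup lA lB hz'))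
        (fun x hx y hy => B_sup_zero (B_sup_zero (fun x hx => hp x hx y (sup_le_sup lA lB hy))
          (B_span_zero (B_swap_zero (pa y hy)))) (B_span_zero (B_swap_zero (pb y hy))) x hx)
      have ga : g • a = a := g1 a (mem_sup_left (mem_sup_right (mem_span_singleton_self a)))
      have gb : g • b = b := g1 b (mem_sup_right (mem_span_singleton_self b))
      have wA : w • A' = A' := act_eq_of_le
        (fun x hx => by rwa [w1 x (mem_sup_left (mem_sup_left hx))]) le_rfl
      have wB : w • B' = B' := act_eq_of_le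
        (fun x hx => by rwa [w1 x (mem_sup_left (mem_sup_right hx))]) le_rfl
      refine ⟨g * w, fun x hx => ?_, ?_, ?_⟩
      · rw [mul_smul, w1 x (mem_sup_right hx), g1 x (mem_sup_left (mem_sup_left hx))]
      · rw [mul_smul, ← eA, act_sup, wA, smul_span_one, w2, act_sup, g2, smul_span_one, gb, eB]
      · rw [mul_smul, ← eB, act_sup, wB, smul_span_one, w3, act_sup, g3, smul_span_one, act_neg, ga,
          ← eA, ← neg_one_smul F a, span_singleton_smul_eq (by simp)]
    by_cases h : ∃ a ∈ A, ∃ b ∈ B, P.B a b ≠ 0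
    · obtain ⟨a, ha, b, hb, h⟩ := h
      refine step _ _ a b (hyp_split ha h) (hyp_split hb (B_swap_ne h)) (fun h' => h ?_)
        (fun h' => B_swap_ne h ?_) (fun y hy => mem_perp_singleton.1 hy.2)
        (fun y hy => mem_perp_singleton.1 hy.2)
      · refine B_sup_zero (B_sup_zero ?_
          (fun y hy => tB y hy b hb)) (fun x hx => hp x hx b (mem_sup_right hb)) a h'
        exact fun y hy => mem_perp_singleton.1 hy.2
      · refine B_sup_zero (B_sup_zero (fun y hy => tA y hy a ha) ?_)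
          (fun x hx => hp x hx a (mem_sup_left ha)) b h'
        exact fun y hy => mem_perp_singleton.1 hy.2
    · push Not at h
      have cut : ∀ A B : Submodule F V, finrank F A = n + 1 → finrank F B = n + 1 → A ≠ B →
          Disjoint X (A ⊔ B) → ∃ (A' : Submodule F V) (a : V), A' ≤ A ∧ a ∈ A ∧ A' ⊔ F ∙ a = A ∧
            a ∉ A' ⊔ B ⊔ X := by
        intro A B hA hB hne hd
        have h1 : R3.dm (A ⊓ B) < R3.dm A := R3.dm_lt_of_not_le inf_le_left fun h' =>
          R3.not_le_of_ne (hA.trans hB.symm) hne (h'.trans inf_le_right)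
        obtain ⟨A', l1, l2, l3⟩ := R3.exists_btw (inf_le_left : A ⊓ B ≤ A) (k := n)
          (by rw [R3.dm, R3.dm] at h1; rw [R3.dm]; omega) (by rw [R3.dm]; omega)
        obtain ⟨a, ha, ha'⟩ := Set.not_subset.1 (show ¬ A ≤ A' from fun h' => by
          have := R3.dm_mono h'; rw [l3, R3.dm] at this; omega)
        refine ⟨A', a, l2, ha, R3.eq_of_dm (sup_le l2 ((span_singleton_le_iff_mem _ _).2 ha))
          (by rw [R3.dm_sup_span ha', l3, R3.dm, hA]), fun h' => ha' ?_⟩
        obtain ⟨z, hz, x, hx, e⟩ := mem_sup.1 h'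
        obtain ⟨a', h3, b, hb, rfl⟩ := mem_sup.1 hz
        have h4 : x = 0 := disjoint_def.1 hd x hx (by
          rw [eq_sub_iff_add_eq'.2 e]
          exact sub_mem (mem_sup_left ha) (add_mem_sup (l2 h3) hb))
        rw [h4, add_zero] at e
        rw [← e]
        exact A'.add_mem h3 (l1 ⟨by rw [eq_sub_iff_add_eq'.2 e]; exact A.sub_mem ha (l2 h3), hb⟩)
      obtain ⟨A', a, l1, a1, a2, a3⟩ := cut A B hA hB hAB hd
      obtain ⟨B', b, l2, b1, b2, b3⟩ := cut B A hB hA (Ne.symm hAB) (sup_comm A B ▸ hd)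
      exact step A' B' a b a2 b2 a3 (sup_comm B' A ▸ b3) (fun y hy => h y (l1 hy) b b1)
        (fun y hy => B_swap_zero (h a a1 y (l2 hy)))

/-- Two totally isotropic subspaces of the same dimension are interchanged by an isometry. -/
theorem exists_swap [FiniteDimensional F V] (hP : P.ND) {A B : Submodule F V} (hA : TI P A)
    (hB : TI P B) (h : finrank F A = finrank F B) : ∃ g : P.Iso, g • A = B ∧ g • B = A :=
  (swap_aux hP _ A B ⊥ hA hB h rfl disjoint_bot_left (fun x hx y _ => by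
    rw [(mem_bot F).1 hx]; simp)).imp fun _ h => h.2

variable (P) in
/-- the totally isotropic subspaces of a given dimension -/
def YY (j : ℕ) : Type _ := {A : Submodule F V // TI P A ∧ finrank F A = j}

instance actYY (j : ℕ) : MulAction P.Iso (YY P j) where
  smul g A := ⟨g • A.1, A.2.1.smul g, (finrank_act g A.1).trans A.2.2⟩
  one_smul A := Subtype.ext (one_smul _ A.1)
  mul_smul g h A := Subtype.ext (mul_smul g h A.1)

instance finYY [Finite V] (j : ℕ) : Finite (YY P j) :=
  Finite.of_injective (fun A : YY P j => (A.1 : Set V))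
    fun _ _ e => Subtype.ext (SetLike.coe_injective e)

theorem yy_swap [FiniteDimensional F V] (hP : P.ND) {j : ℕ} (A B : YY P j) :
    ∃ g : P.Iso, g • A = B ∧ g • B = A :=
  (exists_swap hP A.2.1 B.2.1 (A.2.2.trans B.2.2.symm)).imp
    fun _ h => ⟨Subtype.ext h.1, Subtype.ext h.2⟩

theorem ti_pt (v : V) : TI P (F ∙ v) :=
  ti_span fun x hx y hy => by rw [Set.mem_singleton_iff.1 hx, Set.mem_singleton_iff.1 hy, sp_B_self]

variable (P) in
/-- a point -/
def pt {v : V} (hv : v ≠ 0) : YY P 1 := ⟨F ∙ v, ti_pt v, finrank_span_singleton hv⟩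

theorem exists_pt_eq (A : YY P 1) : ∃ (v : V) (hv : v ≠ 0), A = pt P hv := by
  obtain ⟨⟨v, hv⟩, h0, h⟩ := finrank_eq_one_iff'.1 A.2.2
  refine ⟨v, fun e => h0 (Subtype.ext e), Subtype.ext (le_antisymm (fun w hw => ?_)
    ((span_singleton_le_iff_mem _ _).2 hv))⟩
  obtain ⟨c, hc⟩ := h ⟨w, hw⟩
  exact mem_span_singleton.2 ⟨c, congrArg Subtype.val hc⟩

theorem card_pts [Finite F] [Finite V] :
    Nat.card (YY P 1) * (Nat.card F - 1) = Nat.card F ^ finrank F V - 1 := by
  haveI := Fintype.ofFinite F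
  have h := R3.card_up' (bot_le : (⊥ : Submodule F V) ≤ ⊤) (k := 1) (m := finrank F V)
    (by rw [R3.dm_bot]) (by rw [R3.dm_bot, R3.dm_top, zero_add])
  rw [Nat.card_eq_fintype_card (α := F), ← R3.θ_mul_sub R3.one_le_q, ← h, ← Nat.card_coe_set_eq]
  congr 1
  refine Nat.card_congr (Equiv.subtypeEquivRight fun A => ⟨fun h => ⟨bot_le, le_top, h.2⟩,
    fun h => ⟨?_, h.2.2⟩⟩)
  obtain ⟨⟨v, hv⟩, -, h⟩ := finrank_eq_one_iff'.1 h.2.2
  refine (ti_pt v).mono fun w hw => ?_
  obtain ⟨c, hc⟩ := h ⟨w, hw⟩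
  exact mem_span_singleton.2 ⟨c, congrArg Subtype.val hc⟩

theorem rank_pts [FiniteDimensional F V] (hP : P.ND) {u : V} (hu : u ≠ 0) :
    Nat.card (MulAction.orbitRel.Quotient (MulAction.stabilizer P.Iso (pt P hu)) (YY P 1)) ≤ 3 := by
  classical
  have := card_orb_le (H := MulAction.stabilizer P.Iso (pt P hu))
    (fun A : YY P 1 => if u ∈ A.1 then (0 : Fin 3) else if ∀ v ∈ A.1, P.B u v = 0 then 1 else 2) ?_
  · simpa using this
  intro A A' e
  obtain ⟨v, hv, rfl⟩ := exists_pt_eq A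
  obtain ⟨v', hv', rfl⟩ := exists_pt_eq A'
  have key : ∀ c : F, c ≠ 0 → u ∉ F ∙ v → u ∉ F ∙ v' → P.B u v = c * P.B u v' →
      ∃ h : MulAction.stabilizer P.Iso (pt P hu), h • pt P hv = pt P hv' := by
    intro c hc h1 h2 h3
    have flip : ∀ w : V, w ≠ 0 → u ∉ F ∙ w → w ∉ F ∙ u := fun w hw h h' => by
      obtain ⟨d, rfl⟩ := mem_span_singleton.1 h'
      refine h (mem_span_singleton.2 ⟨d⁻¹, ?_⟩)
      rw [smul_smul, inv_mul_cancel₀ (left_ne_zero_of_smul hw), one_smul]
    obtain ⟨g, g1, g2⟩ := sp_step hP (F ∙ u) (u := v) (u' := c • v') (flip v hv h1)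
      (by rw [smul_mem_iff _ hc]; exact flip v' hv' h2) (fun x hx => by
        obtain ⟨d, rfl⟩ := mem_span_singleton.1 hx
        simp [h3, mul_left_comm])
    refine ⟨⟨g, Subtype.ext ?_⟩, Subtype.ext ?_⟩
    · exact (smul_span_one g u).trans (by rw [g1 u (mem_span_singleton_self u)]; rfl)
    · exact (smul_span_one g v).trans (by rw [g2, span_singleton_smul_eq (Ne.isUnit hc)]; rfl)
  have iff : ∀ w : V, (∀ z ∈ F ∙ w, P.B u z = 0) ↔ P.B u w = 0 := fun w =>
    ⟨fun h => h w (mem_span_singleton_self w),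
      fun h z hz => B_swap_zero (B_span_zero (B_swap_zero h) z hz)⟩
  simp only [pt, iff] at e
  split_ifs at e with h1 h2 h2 h2 h3 h4 h5 h6
  all_goals first
    | exact absurd e (by decide)
    | skip
  · refine ⟨1, (one_smul _ _).trans (Subtype.ext ?_)⟩
    have f : ∀ w : V, w ≠ 0 → u ∈ F ∙ w → (F ∙ w) = F ∙ u := fun w hw h =>
      (eq_of_le_of_finrank_le ((span_singleton_le_iff_mem _ _).2 h)
        (by rw [finrank_span_singleton hw, finrank_span_singleton hu])).symm
    exact (f v hv h1).trans (f v' hv' h2).symm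
  · exact key 1 one_ne_zero ‹_› ‹_› (by simp [*])
  · exact key (P.B u v / P.B u v') (div_ne_zero ‹_› ‹_›) ‹_› ‹_› (div_mul_cancel₀ _ ‹_›).symm

/-- **The orbits of the point stabiliser of a rank three action.** -/
theorem chars' [Finite F] [Finite V] (hP : P.ND) (h0 : finrank F V ≠ 0) {X : Type*} [Finite X]
    [MulAction P.Iso X] [MulAction.IsPretransitive P.Iso X] (x : X)
    (h3 : Nat.card (MulAction.orbitRel.Quotient (MulAction.stabilizer P.Iso x) X) = 3) :
    (Nat.card X * (Nat.card F - 1) = Nat.card F ^ finrank F V - 1 ∨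
      Pt2 (MulAction.stabilizer P.Iso x)) ∧ ∀ j, Few (MulAction.stabilizer P.Iso x) j := by
  have hle := fun j => (orb_le x (yy_swap hP (j := j))).trans h3.le
  refine ⟨?_, fun j A h1 h2 => ?_⟩
  · rcases (hle 1).eq_or_lt with h | h
    · haveI := Module.nontrivial_of_finrank_pos (Nat.pos_of_ne_zero h0)
      obtain ⟨u, hu⟩ := exists_ne (0 : V)
      left
      rw [card_eq_of_orb x (pt P hu) (yy_swap hP) (h3.trans h.symm).le
        ((rank_pts hP hu).trans h.ge), card_pts]
    · right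
      intro a b c ha hb hc
      obtain ⟨i, i', hne, ⟨g, hg⟩, e⟩ := exists_conj_of_card_lt h ![pt P ha, pt P hb, pt P hc]
      have e' : Cj (MulAction.stabilizer P.Iso x) (![pt P ha, pt P hb, pt P hc] i).1
        (![pt P ha, pt P hb, pt P hc] i').1 := ⟨g, hg, congrArg Subtype.val e⟩
      fin_cases i <;> fin_cases i' <;> first
        | exact absurd rfl hne
        | exact Or.inl e'
        | exact Or.inl e'.symm
        | exact Or.inr (Or.inl e')
        | exact Or.inr (Or.inl e'.symm)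
        | exact Or.inr (Or.inr e')
        | exact Or.inr (Or.inr e'.symm)
  · obtain ⟨i, i', hne, ⟨g, hg⟩, e⟩ := exists_conj_of_card_lt (Nat.lt_succ_of_le (hle j))
      (fun i => (⟨A i, h1 i, h2 i⟩ : YY P j))
    exact ⟨i, i', hne, g, hg, congrArg Subtype.val e⟩

/-- **The orbits of the point stabiliser of a rank three action.** -/
theorem chars [Finite F] [Finite V] (hP : P.ND) {X : Type*} [Finite X]
    [MulAction P.Iso X] [MulAction.IsPretransitive P.Iso X] (x : X)
    (h3 : Nat.card (MulAction.orbitRel.Quotient (MulAction.stabilizer P.Iso x) X) = 3) {k : ℕ}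
    (hk : finrank F V = 2 * k) (hk3 : 3 ≤ k) :
    Nat.card X * (Nat.card F - 1) = Nat.card F ^ (2 * k) - 1 ∨
      (Pt2 (MulAction.stabilizer P.Iso x) ∧ ∀ j, Few (MulAction.stabilizer P.Iso x) j) := by
  obtain ⟨h1, h2⟩ := chars' hP (by omega) x h3
  exact h1.imp (fun h => hk ▸ h) fun h => ⟨h, h2⟩

end Cfsg.Agent.SR
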