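import Cfsg.Agent.SR.CaseB2
import Cfsg.Agent.SR.CaseA
import Cfsg.Agent.SR.Chars

/-! Rank three actions of symplectic groups in odd characteristic. -/

set_option autoImplicit false

namespace Cfsg.Agent.SR

open Module Cfsg.Agent.Polar Cfsg.Agent.Polar.PQ

theorem three_cases {Q : Type*} (h : Nat.card Q = 3) {a b c : Q} (h1 : a ≠ b) (h2 : a ≠ c) (h3 : b ≠ c) (d : Q) :
    d = a ∨ d = b ∨ d = c := by
  classical
  have : Finite Q := Nat.finite_of_card_ne_zero (by omega)
  have := Fintype.ofFinite Q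
  have e : ({a, b, c} : Finset Q) = Finset.univ := Finset.eq_univ_of_card _ (by
    rw [Finset.card_eq_three.2 ⟨a, b, c, h1, h2, h3, rfl⟩, ← Nat.card_eq_fintype_card, h])
  simpa using e.ge (Finset.mem_univ d)

variable {F : Type*} [Field F] {V : Type*} [AddCommGroup V] [Module F V] {P : PQ (spFP F) V}

theorem sp_rank_three [Finite F] [Finite V] (hP : P.ND) (h2 : (2 : F) ≠ 0) {X : Type*} [Finite X]
    [MulAction P.Iso X] [MulAction.IsPretransitive P.Iso X] (x : X)
    (h3 : Nat.card (MulAction.orbitRel.Quotient (MulAction.stabilizer P.Iso x) X) = 3) {k : ℕ}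
    (hk : finrank F V = 2 * k) (hk3 : 3 ≤ k) : Nat.card X * (Nat.card F - 1) = Nat.card F ^ (2 * k) - 1 := by
  classical
  have : FiniteDimensional F V := Module.Finite.of_finite
  refine (chars hP x h3 hk hk3).resolve_right fun ⟨hp, hf⟩ => ?_
  let H := MulAction.stabilizer P.Iso x
  let cl : X → MulAction.orbitRel.Quotient H X := Quotient.mk _
  have ce : ∀ {y z}, cl y = cl z → ∃ h ∈ H, h • z = y := fun h => by
    obtain ⟨g, e⟩ := Quotient.exact h
    exact ⟨g.1, g.2, e⟩
  have hx : ∀ {y}, cl x = cl y → y = x := fun h => by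
    obtain ⟨g, hg, rfl⟩ := ce h.symm
    exact hg
  have hne : H ≠ ⊤ := fun e => by
    have : Subsingleton (MulAction.orbitRel.Quotient H X) := ⟨fun a b => by
      induction a using Quotient.inductionOn with | _ a => ?_
      induction b using Quotient.inductionOn with | _ b => ?_
      obtain ⟨g, rfl⟩ := MulAction.exists_smul_eq P.Iso b a
      exact Quotient.sound ⟨⟨g, e ▸ trivial⟩, rfl⟩⟩
    exact absurd (h3.ge.trans (Finite.card_le_one_iff_subsingleton.2 this)) (by omega)
  by_cases hH : NoTv H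
  swap
  · exact caseA hP h2 (by omega) hne hp (hf 2) (hf 3) hH
  have nx : ∀ {v c}, v ≠ 0 → c ≠ 0 → cl x ≠ cl (tv P v c • x) := fun v0 c0 e => (hH _ _ (hx e)).elim v0 c0
  have cj : ∀ h ∈ H, ∀ v c, h • tv P v c • x = tv P (h • v) c • x := fun h hh v c => by
    rw [← conj_tv, mul_smul, mul_smul, show h⁻¹ • x = x from inv_mem hh]
  by_cases hO : OneCl H
  · refine caseB2 hP h2 (by omega) hH hO fun g => ?_
    suffices ∃ v c w d, g • x = tv P v c • tv P w d • x by
      obtain ⟨v, c, w, d, e⟩ := this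
      refine ⟨g⁻¹ * (tv P v c * tv P w d), by
        rw [MulAction.mem_stabilizer_iff, mul_smul, mul_smul, ← e, inv_smul_smul], v, w, ?_⟩
      rw [mul_inv_cancel_left]
      exact (FxG P _).mul_mem (fx_tv (by simp) c) (fx_tv (by simp) d)
    by_contra hn
    have : Nontrivial V := Module.nontrivial_of_finrank_pos (R := F) (by omega)
    obtain ⟨a, a0⟩ := exists_ne (0 : V)
    have key : ∀ v c w d, ∃ u e, tv P v c • tv P w d • x = tv P u e • x := fun v c w d => by
      by_contra h1
      rcases three_cases h3 (nx a0 one_ne_zero) (c := cl (tv P v c • tv P w d • x))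
        (fun e => h1 ⟨0, 0, by rw [hx e, tv_zero, one_smul]⟩) (fun e => by
          obtain ⟨h, hh, e⟩ := ce e.symm
          exact h1 ⟨_, _, e.symm.trans (cj h hh a 1)⟩) (cl (g • x)) with e | e | e
      · exact hn ⟨0, 0, 0, 0, by rw [hx e.symm, tv_zero, one_smul, one_smul]⟩
      · obtain ⟨h, hh, e⟩ := ce e
        exact hn ⟨0, 0, h • a, 1, by rw [tv_zero, one_smul, ← e, cj h hh]⟩
      · obtain ⟨h, hh, e⟩ := ce e
        exact hn ⟨h • v, c, h • w, d, by rw [← e, ← cj h hh, ← conj_tv, mul_smul, mul_smul, inv_smul_smul]⟩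
    have all : ∀ g ∈ P.TG, ∀ w d, ∃ u e, g • tv P w d • x = tv P u e • x := fun g hg => by
      induction hg using Subgroup.closure_induction'' with
      | mem g hg => obtain ⟨v, c, rfl⟩ := hg; exact key v c
      | inv_mem g hg =>
        obtain ⟨v, c, rfl⟩ := hg
        rw [show (P.eich v 0 c)⁻¹ = _ from tv_inv v c]; exact key v _
      | one => exact fun w d => ⟨w, d, one_smul _ _⟩
      | mul g k _ _ h1 h2 =>
        intro w d
        obtain ⟨u, e, h⟩ := h2 w d
        rw [mul_smul, h]; exact h1 u e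
    obtain ⟨u, e, h⟩ := all g (by rw [sp_TG_eq_top hP]; trivial) 0 0
    exact hn ⟨0, 0, u, e, by simpa [tv_zero] using h⟩
  simp only [OneCl, not_forall] at hO
  obtain ⟨v, w, c, d, v0, w0, c0, d0, hO⟩ := hO
  have hvw : cl (tv P w d • x) ≠ cl (tv P v c • x) := fun e => by
    obtain ⟨h, hh, e⟩ := ce e
    exact hO ⟨h, hh, by rw [MulAction.mem_stabilizer_iff, mul_smul, ← cj h hh, e, inv_smul_smul]⟩
  refine caseB1 hP h2 (by omega) hH ?_
  rw [MulAction.index_stabilizer_of_transitive, ← Module.natCard_eq_pow_finrank (K := F) (V := V)]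
  let n := Finite.equivFin V
  refine Nat.card_le_card_of_surjective (fun u => tv P u (if n u < n (-u) then c else d) • x) fun y => ?_
  have nn : ∀ u : V, u ≠ 0 → n u ≠ n (-u) := fun u u0 e => u0 (by
    have := n.injective e
    rw [eq_neg_iff_add_eq_zero, ← two_smul F] at this
    exact (smul_eq_zero.1 this).resolve_left h2)
  rcases three_cases h3 (nx w0 d0) (nx v0 c0) hvw (cl y) with e | e | e
  · exact ⟨0, by simp [hx e.symm, tv_zero']⟩
  · obtain ⟨h, hh, rfl⟩ := ce e
    rcases (nn _ (act_ne_zero h w0)).lt_or_gt with l | l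
    · exact ⟨-(h • w), by simp [l.not_gt, tv_neg, cj h hh]⟩
    · exact ⟨h • w, by simp [l.not_gt, cj h hh]⟩
  · obtain ⟨h, hh, rfl⟩ := ce e
    rcases (nn _ (act_ne_zero h v0)).lt_or_gt with l | l
    · exact ⟨h • v, by simp [l, cj h hh]⟩
    · exact ⟨-(h • v), by simp [l, tv_neg, cj h hh]⟩

end Cfsg.Agent.SR
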