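import Cfsg.Agent.Polar.SpOdd
import Cfsg.Agent.R3.Base

/-! Rank three actions of symplectic groups: basic notions. -/

set_option autoImplicit false

namespace Cfsg.Agent.SR

open Module Cfsg.Agent.Polar Cfsg.Agent.Polar.PQ

variable {F : Type*} [Field F] {V : Type*} [AddCommGroup V] [Module F V] {P : PQ (spFP F) V}

variable (P) in
/-- the transvection `x ↦ x + c B(x,v) v` -/
noncomputable def tv (v : V) (c : F) : P.Iso := P.eich v 0 c

theorem tv_smul (v : V) (c : F) (x : V) : tv P v c • x = x + (c * P.B x v) • v := by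
  rw [tv, (sp_eOk (by simp) c).eich_smul]
  simp

theorem tv_mul (v : V) (c d : F) : tv P v c * tv P v d = tv P v (c + d) := iso_ext fun x => by
  simp only [mul_smul, tv_smul, map_add, map_smul, LinearMap.add_apply, LinearMap.smul_apply,
    sp_B_self]
  module

theorem tv_zero (v : V) : tv P v 0 = 1 := eich_zero v

theorem tv_zero' (c : F) : tv P 0 c = 1 := iso_ext fun x => by simp [tv_smul]

theorem tv_inv (v : V) (c : F) : (tv P v c)⁻¹ = tv P v (-c) := by
  rw [eq_comm, eq_inv_iff_mul_eq_one, tv_mul, neg_add_cancel, tv_zero]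

theorem conj_tv (g : P.Iso) (v : V) (c : F) : g * tv P v c * g⁻¹ = tv P (g • v) c :=
  iso_ext fun x => by
    rw [mul_smul, mul_smul, tv_smul, tv_smul, smul_add, act_smul, smul_inv_smul, B_act_right]

theorem tv_smul_left (a : F) (v : V) (c : F) : tv P (a • v) c = tv P v (a * a * c) :=
  iso_ext fun x => by
    simp only [tv_smul, map_smul, smul_eq_mul, smul_smul]
    module

theorem tv_neg (v : V) (c : F) : tv P (-v) c = tv P v c := by
  rw [← neg_one_smul F v, tv_smul_left]; simp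

theorem tv_fix {v x : V} (c : F) (h : P.B x v = 0) : tv P v c • x = x := by simp [tv_smul, h]

theorem tv_self (v : V) (c : F) : tv P v c • v = v := tv_fix c (sp_B_self v)

theorem tv_comm {v w : V} (h : P.B v w = 0) (c d : F) :
    tv P v c * tv P w d = tv P w d * tv P v c := by
  rw [← mul_inv_eq_iff_eq_mul, conj_tv, tv_fix c (B_swap_zero h)]

theorem tv_pow (v : V) (c : F) (n : ℕ) : tv P v c ^ n = tv P v (n * c) := by
  induction n with
  | zero => simp [tv_zero]
  | succ n ih => rw [pow_succ, ih, tv_mul]; congr 1; push_cast; ring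

theorem act_sub (g : P.Iso) (x y : V) : g • (x - y) = g • x - g • y := smul_sub g x y

theorem act_neg (g : P.Iso) (x : V) : g • (-x) = -(g • x) := smul_neg g x

/-- an isometry fixing the orthogonal complement of `A` moves vectors inside cosets of `A` -/
theorem sub_mem_of_fix [FiniteDimensional F V] (hP : P.ND) {A : Submodule F V} {g : P.Iso}
    (h : ∀ x ∈ P.perp A, g • x = x) (x : V) : g • x - x ∈ A := by
  rw [← perp_perp hP A]
  intro y hy
  rw [map_sub, LinearMap.sub_apply, ← B_smul_smul g x y, h y hy, sub_self]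

theorem exists_tv_of_fix [FiniteDimensional F V] (hP : P.ND) {w : V} (hw : w ≠ 0) {g : P.Iso}
    (h : ∀ x, P.B x w = 0 → g • x = x) : ∃ c, g = tv P w c := by
  obtain ⟨u, hu⟩ := hP.exists_eq' hw 1
  obtain ⟨c, hc⟩ := Submodule.mem_span_singleton.1 (sub_mem_of_fix hP (A := F ∙ w) (g := g)
    (fun x hx => h x (hx w (Submodule.mem_span_singleton_self w))) u)
  refine ⟨c, iso_ext fun x => ?_⟩
  have h1 := h (x - P.B x w • u) (by simp [hu])
  rw [act_sub, act_smul, sub_eq_iff_eq_add, show g • u = u + c • w by rw [hc]; abel] at h1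
  rw [h1, tv_smul]
  module

/-- the action on subspaces -/
instance actSub : MulAction P.Iso (Submodule F V) where
  smul g A := A.map ((g : V ≃ₗ[F] V) : V →ₗ[F] V)
  one_smul A := Submodule.map_id A
  mul_smul _ _ A := Submodule.map_comp _ _ A

theorem mem_act' {g : P.Iso} {A : Submodule F V} {x : V} : x ∈ g • A ↔ ∃ y ∈ A, g • y = x := Iff.rfl

theorem mem_act {g : P.Iso} {A : Submodule F V} {x : V} : x ∈ g • A ↔ g⁻¹ • x ∈ A :=
  ⟨by rintro ⟨y, hy, rfl⟩; exact (inv_smul_smul g y).symm ▸ hy, fun h => ⟨_, h, smul_inv_smul g x⟩⟩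

@[simp] theorem act_mem_act {g : P.Iso} {A : Submodule F V} {x : V} : g • x ∈ g • A ↔ x ∈ A := by
  rw [mem_act, inv_smul_smul]

theorem act_inf (g : P.Iso) (A B : Submodule F V) : g • (A ⊓ B) = g • A ⊓ g • B := by
  ext x; simp [mem_act]

theorem act_sup (g : P.Iso) (A B : Submodule F V) : g • (A ⊔ B) = g • A ⊔ g • B :=
  Submodule.map_sup _ _ _

@[simp] theorem act_le_act (g : P.Iso) (A B : Submodule F V) : g • A ≤ g • B ↔ A ≤ B :=
  ⟨fun h _ hv => act_mem_act.1 (h (act_mem_act.2 hv)), fun h _ hv => mem_act.2 (h (mem_act.1 hv))⟩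

@[simp] theorem finrank_act (g : P.Iso) (A : Submodule F V) : finrank F ↥(g • A) = finrank F A :=
  LinearEquiv.finrank_map_eq (g : V ≃ₗ[F] V) A

theorem act_eq_of_le [FiniteDimensional F V] {g : P.Iso} {A B : Submodule F V}
    (h : ∀ x ∈ A, g • x ∈ B) (hd : finrank F B ≤ finrank F A) : g • A = B :=
  Submodule.eq_of_le_of_finrank_le (by rintro _ ⟨x, hx, rfl⟩; exact h x hx) (by rwa [finrank_act])

theorem ncard_act (g : P.Iso) (S : Set V) : ((g • ·) '' S).ncard = S.ncard :=
  Set.ncard_image_of_injective _ (MulAction.injective g)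

variable (P) in
/-- totally isotropic subspaces -/
def TI (A : Submodule F V) : Prop := ∀ x ∈ A, ∀ y ∈ A, P.B x y = 0

theorem TI.smul {A : Submodule F V} (h : TI P A) (g : P.Iso) : TI P (g • A) := fun x hx y hy => by
  rw [← B_smul_smul g⁻¹]
  exact h _ (mem_act.1 hx) _ (mem_act.1 hy)

theorem TI.mono {A B : Submodule F V} (h : TI P B) (hle : A ≤ B) : TI P A :=
  fun x hx y hy => h x (hle hx) y (hle hy)

theorem ti_span {S : Set V} (h : ∀ x ∈ S, ∀ y ∈ S, P.B x y = 0) : TI P (Submodule.span F S) :=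
  fun x hx y hy => by
  have h1 : ∀ x ∈ S, P.B x y = 0 := fun x hx => B_swap_zero (by
    have := B_eq_of_span (P := P) (S := S) (y := x) (z := 0) (fun z hz => by simp [h z hz x hx]) y hy
    simpa using this)
  simpa using B_eq_of_span (P := P) (S := S) (y := y) (z := 0) (fun z hz => by simp [h1 z hz]) x hx

theorem TI.sup {A B : Submodule F V} (hA : TI P A) (hB : TI P B)
    (h : ∀ x ∈ A, ∀ y ∈ B, P.B x y = 0) : TI P (A ⊔ B) := fun x hx y hy => by
  obtain ⟨a, ha, b, hb, rfl⟩ := Submodule.mem_sup.1 hx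
  obtain ⟨a', ha', b', hb', rfl⟩ := Submodule.mem_sup.1 hy
  simp [hA a ha a' ha', hB b hb b' hb', h a ha b' hb', B_swap_zero (h a' ha' b hb)]

theorem smul_span (g : P.Iso) (S : Set V) :
    g • Submodule.span F S = Submodule.span F ((g • ·) '' S) := Submodule.map_span _ S

theorem smul_span_one (g : P.Iso) (x : V) : g • (F ∙ x) = F ∙ g • x := by
  rw [smul_span, Set.image_singleton]

theorem smul_span_pair (g : P.Iso) (x y : V) :
    g • Submodule.span F {x, y} = Submodule.span F {g • x, g • y} := by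
  rw [smul_span, Set.image_pair]

theorem smul_perp (g : P.Iso) (A : Submodule F V) : g • P.perp A = P.perp (g • A : Submodule F V) := by
  ext x
  rw [mem_act]
  refine ⟨fun h y hy => ?_, fun h y hy => ?_⟩
  · rw [← B_smul_smul g⁻¹]; exact h _ (mem_act.1 hy)
  · rw [← B_smul_smul g, smul_inv_smul]; exact h _ (act_mem_act.2 hy)

section
variable (H : Subgroup P.Iso)

/-- no transvections -/
def NoTv : Prop := ∀ v c, tv P v c ∈ H → v = 0 ∨ c = 0

/-- conjugate subspaces -/
def Cj (A B : Submodule F V) : Prop := ∃ h ∈ H, h • A = B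

/-- at most three orbits on totally isotropic `j`-subspaces -/
def Few (j : ℕ) : Prop := ∀ A : Fin 4 → Submodule F V, (∀ i, TI P (A i)) →
  (∀ i, finrank F (A i) = j) → ∃ i i', i ≠ i' ∧ Cj H (A i) (A i')

/-- at most two orbits on points -/
def Pt2 : Prop := ∀ x y z : V, x ≠ 0 → y ≠ 0 → z ≠ 0 →
  Cj H (F ∙ x) (F ∙ y) ∨ Cj H (F ∙ x) (F ∙ z) ∨ Cj H (F ∙ y) (F ∙ z)

/-- at least three orbits on totally isotropic `j`-subspaces -/
def Three (j : ℕ) : Prop := ∃ A : Fin 3 → Submodule F V, (∀ i, TI P (A i)) ∧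
  (∀ i, finrank F (A i) = j) ∧ ∀ i i', Cj H (A i) (A i') → i = i'

/-- transitivity on points -/
def PtTr : Prop := ∀ x y : V, x ≠ 0 → y ≠ 0 → Cj H (F ∙ x) (F ∙ y)

/-- all transvections lie in one double coset -/
def OneCl : Prop := ∀ (v w : V) (c d : F), v ≠ 0 → w ≠ 0 → c ≠ 0 → d ≠ 0 →
  ∃ h ∈ H, (tv P w d)⁻¹ * tv P (h • v) c ∈ H

end

variable {H : Subgroup P.Iso}

theorem Cj.refl (A : Submodule F V) : Cj H A A := ⟨1, one_mem _, one_smul _ _⟩

theorem Cj.symm {A B : Submodule F V} (h : Cj H A B) : Cj H B A := by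
  obtain ⟨g, hg, rfl⟩ := h
  exact ⟨g⁻¹, inv_mem hg, inv_smul_smul _ _⟩

theorem Cj.trans {A B C : Submodule F V} (h : Cj H A B) (h' : Cj H B C) : Cj H A C := by
  obtain ⟨g, hg, rfl⟩ := h
  obtain ⟨g', hg', rfl⟩ := h'
  exact ⟨g' * g, mul_mem hg' hg, mul_smul _ _ _⟩

theorem cj_pt {x y : V} (hx : x ≠ 0) :
    Cj H (F ∙ x) (F ∙ y) ↔ ∃ h ∈ H, ∃ c : F, c ≠ 0 ∧ h • x = c • y := by
  constructor
  · rintro ⟨h, hh, e⟩
    rw [smul_span_one] at e
    obtain ⟨c, hc⟩ := Submodule.mem_span_singleton.1 (e.le (Submodule.mem_span_singleton_self _))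
    exact ⟨h, hh, c, fun h0 => act_ne_zero h hx (by rw [← hc, h0, zero_smul]), hc.symm⟩
  · rintro ⟨h, hh, c, hc, e⟩
    exact ⟨h, hh, by rw [smul_span_one, e, Submodule.span_singleton_smul_eq (Ne.isUnit hc)]⟩

/-- an invariant cannot take four values -/
theorem Few.inv {j : ℕ} (h : Few H j) {ι : Type*} (inv : Submodule F V → ι)
    (hinv : ∀ g ∈ H, ∀ A, inv (g • A) = inv A) (A : Fin 4 → Submodule F V) (h1 : ∀ i, TI P (A i))
    (h2 : ∀ i, finrank F (A i) = j) (h3 : Function.Injective fun i => inv (A i)) : False := by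
  obtain ⟨i, i', hne, g, hg, e⟩ := h A h1 h2
  exact hne (h3 (by simp only; rw [← e, hinv g hg]))

theorem three_of_inv {j : ℕ} {ι : Type*} (inv : Submodule F V → ι)
    (hinv : ∀ g ∈ H, ∀ A, inv (g • A) = inv A) (A : Fin 3 → Submodule F V) (h1 : ∀ i, TI P (A i))
    (h2 : ∀ i, finrank F (A i) = j) (h3 : Function.Injective fun i => inv (A i)) : Three H j :=
  ⟨A, h1, h2, by
    rintro i i' ⟨g, hg, e⟩
    exact h3 (by simp only; rw [← e, hinv g hg])⟩

theorem NoTv.eq_one [FiniteDimensional F V] (hP : P.ND) (hH : NoTv H) {w : V} (hw : w ≠ 0)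
    {g : P.Iso} (hg : g ∈ H) (h : ∀ x, P.B x w = 0 → g • x = x) : g = 1 := by
  obtain ⟨c, rfl⟩ := exists_tv_of_fix hP hw h
  rw [(hH w c hg).resolve_left hw, tv_zero]

end Cfsg.Agent.SR
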