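import Cfsg.Agent.SR.Dick

/-! Subgroups containing a transvection: the set of centres. -/

set_option autoImplicit false

namespace Cfsg.Agent.SR.CA

open Module Cfsg.Agent.Polar Cfsg.Agent.Polar.PQ

variable {F : Type*} [Field F] {V : Type*} [AddCommGroup V] [Module F V] {P : PQ (spFP F) V}

/-- the centres of the transvections in `H` -/
def SS (H : Subgroup P.Iso) : Set V := {v | v ≠ 0 ∧ ∃ c, c ≠ 0 ∧ tv P v c ∈ H}

/-- the vectors of the Eichler transformations -/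
abbrev YY (H : Subgroup P.Iso) (r : V) : AddSubgroup V := P.vecs H (sp_sing r)

variable {H : Subgroup P.Iso}

theorem act_mem {g : P.Iso} (hg : g ∈ H) {v : V} (hv : v ∈ SS H) : g • v ∈ SS H :=
  ⟨act_ne_zero g hv.1, hv.2.imp fun c h => ⟨h.1, by
    rw [← conj_tv]; exact mul_mem (mul_mem hg h.2) (inv_mem hg)⟩⟩

theorem of_smul {a : F} {v : V} (hv : a • v ∈ SS H) : v ∈ SS H := by
  obtain ⟨h0, c, hc, h⟩ := hv
  have ha : a ≠ 0 := left_ne_zero_of_smul h0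
  exact ⟨right_ne_zero_of_smul h0, a * a * c, by simp [ha, hc], by rwa [← tv_smul_left]⟩

theorem smul_mem {a : F} (ha : a ≠ 0) {v : V} (hv : v ∈ SS H) : a • v ∈ SS H :=
  of_smul (a := a⁻¹) (by rwa [inv_smul_smul₀ ha])

theorem of_cj {x y : V} (hx : x ∈ SS H) (h : Cj H (F ∙ x) (F ∙ y)) : y ∈ SS H := by
  obtain ⟨g, hg, c, -, e⟩ := (cj_pt hx.1).1 h
  exact of_smul (e ▸ act_mem hg hx)

theorem mem_YY {r y : V} : y ∈ YY H r ↔ P.B y r = 0 ∧ ∃ c, P.eich r y c ∈ H :=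
  ⟨fun ⟨c, h, h'⟩ => ⟨h.perp, c, h'⟩, fun ⟨h, c, h'⟩ => ⟨c, sp_eOk h c, h'⟩⟩

theorem YY_step {r y s : V} {c : F} (hy : y ∈ YY H r) (hs : tv P s c ∈ H) (h : P.B r s = 0) :
    (c * P.B y s) • s ∈ YY H r := by
  simpa [tv_smul] using sub_mem (vecs_act_fix _ hs (tv_fix c h) hy) hy

theorem YY_step' {r y s : V} (hy : y ∈ YY H r) (hs : s ∈ SS H) (h : P.B r s = 0) (h' : P.B y s ≠ 0) :
    ∃ c : F, c ≠ 0 ∧ c • s ∈ YY H r :=
  let ⟨_, c, hc, h1⟩ := hs
  ⟨_, mul_ne_zero hc h', YY_step hy h1 h⟩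

theorem eich_act {r y : V} (h : P.B y r = 0) (c : F) (x : V) :
    P.eich r y c • x = x + P.B x r • y + (P.B x y + c * P.B x r) • r := by
  rw [(sp_eOk h c).eich_smul, spFP_eps]
  module

theorem exists_sig [Finite F] (h2 : (2 : F) ≠ 0) {e f : V} (he : e ∈ SS H) (hf : f ∈ SS H) (h : P.B e f ≠ 0) :
    ∃ σ ∈ H, σ • e = -e ∧ σ • f = -f ∧ ∀ r, P.B r e = 0 → P.B r f = 0 → σ • r = r := by
  obtain ⟨-, c, hc, h1⟩ := he
  obtain ⟨-, d, hd, h3⟩ := hf
  obtain ⟨i, hi, e1, e2⟩ := exists_neg h2 (H ⊓ fixingSubgroup P.Iso (P.perp {e, f} : Set V)) ⊥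
    (fun g _ r hr => by simp [(Submodule.mem_bot F).1 hr]) (e := e) (f := f) (g := tv P e c) (g' := tv P f d)
    ⟨h1, (mem_fixingSubgroup_iff _).2 fun y hy => tv_fix c (mem_perp_pair.1 hy).1⟩
    ⟨h3, (mem_fixingSubgroup_iff _).2 fun y hy => tv_fix d (mem_perp_pair.1 hy).2⟩
    (mul_ne_zero hc (B_swap_ne h)) (mul_ne_zero hd h) (by simp [tv_self]) (by simp [tv_smul]) (by simp [tv_self])
    (by simp [tv_smul])
  exact ⟨i, hi.1, eq_neg_of_add_eq_zero_left e1, eq_neg_of_add_eq_zero_left e2, fun r h1 h2 =>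
    (mem_fixingSubgroup_iff _).1 hi.2 r (mem_perp_pair.2 ⟨h1, h2⟩)⟩

section
variable [Finite F] (h2 : (2 : F) ≠ 0) {e f r : V} (he : e ∈ SS H) (hf : f ∈ SS H) (h : P.B e f ≠ 0)
  (h1 : P.B r e = 0) (h3 : P.B r f = 0) {α β : F} (hw : α • e + β • f + r ∈ SS H)
include h2 he hf h h1 h3 hw

theorem skew_YY : ∃ c : F, c ≠ 0 ∧ c • (α • e + β • f) ∈ YY H r := by
  obtain ⟨σ, hσ, s1, s2, s3⟩ := exists_sig h2 he hf h
  obtain ⟨-, c, hc, h4⟩ := hw
  have h5 := mul_mem (mul_mem hσ h4) (inv_mem hσ)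
  rw [conj_tv, smul_add, smul_add, act_smul, act_smul, s1, s2, s3 r h1 h3] at h5
  have hm : P.B (α • e + β • f) r = 0 := by simp [B_swap_zero h1, B_swap_zero h3]
  rw [show α • -e + β • -f = -(α • e + β • f) by module] at h5
  generalize α • e + β • f = m at *
  have hm' : P.B (-m) r = 0 := by simp [hm]
  have h6 := mul_mem h4 (inv_mem h5)
  rw [add_comm m, add_comm (-m), ← one_smul F r, tv, tv, sp_transvec_add' hm, sp_transvec_add' hm',
    show P.eich (-m) 0 c = P.eich m 0 c from tv_neg m c, mul_inv_rev, mul_assoc, mul_inv_cancel_left,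
    (sp_eOk (by simp [hm]) _).eich_inv, (sp_eOk (by simp [hm]) _).eich_mul (sp_eOk (by simp [hm]) _)] at h6
  exact ⟨2 * c, mul_ne_zero h2 hc, mem_YY.2 ⟨by simp [hm], _, by convert h6 using 2; module⟩⟩

theorem pair_YY (hm : α • e + β • f ≠ 0) : ∃ a b : F, a ≠ 0 ∧ b ≠ 0 ∧ a • e ∈ YY H r ∧ b • f ∈ YY H r := by
  obtain ⟨c, hc, h4⟩ := skew_YY h2 he hf h h1 h3 hw
  by_cases hb : β = 0
  · subst hb
    rw [zero_smul, add_zero] at hm h4
    obtain ⟨b, hb, h5⟩ := YY_step' h4 hf h3 (by simp [hc, h, left_ne_zero_of_smul hm])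
    exact ⟨_, b, mul_ne_zero hc (left_ne_zero_of_smul hm), hb, by rwa [smul_smul] at h4, h5⟩
  · obtain ⟨a, ha, h5⟩ := YY_step' h4 he h1 (by simp [hc, B_swap_ne h, hb, sp_B_self])
    obtain ⟨b, hb, h6⟩ := YY_step' h5 hf h3 (by simp [ha, h])
    exact ⟨a, b, ha, hb, h5, h6⟩

theorem proj_r (h0 : r ≠ 0) : r ∈ SS H := by
  by_cases hm : α • e + β • f = 0
  · simpa [hm] using hw
  obtain ⟨a, b, ha, hb, h4, h5⟩ := pair_YY h2 he hf h h1 h3 hw hm
  refine ⟨h0, _, ?_, (comm_mem_Dv _ h5 h4).2⟩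
  rw [sp_swap (a • e), sub_neg_eq_add, ← two_mul]
  simp [h2, ha, hb, h]

end

theorem hproj_mem [Finite F] (h2 : (2 : F) ≠ 0) {e f s : V} (he : e ∈ SS H) (hf : f ∈ SS H) (h : P.Hyp e f)
    (hs : s ∈ SS H) (h0 : P.hproj e f s ≠ 0) : P.hproj e f s ∈ SS H := by
  have h1 := mem_perp_pair.1 (h.hproj_mem s)
  refine proj_r h2 he hf (by simp [h.pair]) h1.1 h1.2 (α := P.B s f) (β := -P.B s e) ?_ h0
  convert hs using 1
  rw [hproj_apply, spFP_eps]
  module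

theorem B_hproj {e f y : V} (h1 : P.B y e = 0) (h3 : P.B y f = 0) (s : V) : P.B y (P.hproj e f s) = P.B y s := by
  simp [hproj_apply, h1, h3]

theorem exists_hyp {e f : V} (hf : f ∈ SS H) (h : P.B e f ≠ 0) :
    (P.B e f)⁻¹ • f ∈ SS H ∧ P.Hyp e ((P.B e f)⁻¹ • f) :=
  ⟨smul_mem (inv_ne_zero h) hf, sp_hyp (by simp [h])⟩

/-- the centres span the space -/
def Sp (H : Subgroup P.Iso) : Prop := ∀ y : V, y ≠ 0 → ∃ s ∈ SS H, P.B y s ≠ 0

theorem Sp.perp [Finite F] (hS : Sp H) (h2 : (2 : F) ≠ 0) {e f r : V} (he : e ∈ SS H) (hf : f ∈ SS H)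
    (h : P.B e f ≠ 0) (h1 : P.B r e = 0) (h3 : P.B r f = 0) (h0 : r ≠ 0) :
    ∃ z ∈ SS H, P.B z e = 0 ∧ P.B z f = 0 ∧ P.B r z ≠ 0 := by
  obtain ⟨s, hs, h4⟩ := hS r h0
  obtain ⟨h5, h6⟩ := exists_hyp hf h
  rw [← B_hproj h1 (f := (P.B e f)⁻¹ • f) (by simp [h3])] at h4
  have h7 := mem_perp_pair.1 (h6.hproj_mem s)
  exact ⟨_, hproj_mem h2 he h5 h6 hs fun e => h4 (by simp [e]), h7.1, by simpa [h] using h7.2, h4⟩

theorem Sp.perp₂ [Finite F] (hS : Sp H) (h2 : (2 : F) ≠ 0) {e f e' f' r : V} (he : e ∈ SS H) (hf : f ∈ SS H)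
    (h : P.B e f ≠ 0) (he' : e' ∈ SS H) (hf' : f' ∈ SS H) (h' : P.B e' f' ≠ 0) (a1 : P.B e' e = 0)
    (a2 : P.B e' f = 0) (a3 : P.B f' e = 0) (a4 : P.B f' f = 0) (h1 : P.B r e = 0) (h3 : P.B r f = 0)
    (h1' : P.B r e' = 0) (h3' : P.B r f' = 0) (h0 : r ≠ 0) :
    ∃ z ∈ SS H, P.B z e = 0 ∧ P.B z f = 0 ∧ P.B z e' = 0 ∧ P.B z f' = 0 ∧ P.B r z ≠ 0 := by
  obtain ⟨s, hs, b1, b2, h4⟩ := hS.perp h2 he hf h h1 h3 h0
  obtain ⟨h5, h6⟩ := exists_hyp hf' h'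
  rw [← B_hproj h1' (f := (P.B e' f')⁻¹ • f') (by simp [h3'])] at h4
  have h7 := mem_perp_pair.1 (h6.hproj_mem s)
  exact ⟨_, hproj_mem h2 he' h5 h6 hs fun e => h4 (by simp [e]), by simp [hproj_apply, *],
    by simp [hproj_apply, *], h7.1, by simpa [h'] using h7.2, h4⟩

theorem Sp.proj_m [Finite F] (hS : Sp H) (h2 : (2 : F) ≠ 0) {e f r : V} (he : e ∈ SS H) (hf : f ∈ SS H)
    (h : P.B e f ≠ 0) (h1 : P.B r e = 0) (h3 : P.B r f = 0) {α β : F} (hw : α • e + β • f + r ∈ SS H)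
    (hm : α • e + β • f ≠ 0) : α • e + β • f ∈ SS H := by
  by_cases h0 : r = 0
  · simpa [h0] using hw
  obtain ⟨z, hz, z1, z2, z3⟩ := hS.perp h2 he hf h h1 h3 h0
  obtain ⟨c, hc, h4⟩ := skew_YY h2 he hf h h1 h3 hw
  obtain ⟨h5, d, h6⟩ := mem_YY.1 h4
  have h7 := act_mem h6 hz
  have hr := proj_r h2 he hf h h1 h3 hw h0
  have h8 : P.B (α • e + β • f) z = 0 := by simp [B_swap_zero z1, B_swap_zero z2]
  generalize α • e + β • f = m at *
  refine of_smul (a := c) (of_smul (a := P.B z r) (proj_r h2 hr hz z3 (by simp only [B_smul_left, h5, mul_zero])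
    (by simp [h8]) (α := P.B z (c • m) + d * P.B z r) (β := 1) ?_ (by simp [B_swap_ne z3, hc, hm])))
  convert h7 using 1
  rw [eich_act h5]
  module

theorem card_le_YY [Finite F] [Finite V] (h2 : (2 : F) ≠ 0) {e f r : V} (h : P.B e f ≠ 0)
    (hT : ¬ P.TT H r) : Nat.card (YY H r ⊓ (Submodule.span F {e, f}).toAddSubgroup : AddSubgroup V) ≤ Nat.card F := by
  obtain ⟨c, -, hcD⟩ := SetLike.not_le_iff_exists.1 (mt (TT_iff (sp_sing r)).2 hT)
  obtain ⟨ψ, h4, h5⟩ := exists_addChar_ker hcD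
  have h6 := (isBich_comm (P := P) ψ).card_sq_le (A := (Submodule.span F {e, f}).toAddSubgroup)
    (Y := YY H r ⊓ (Submodule.span F {e, f}).toAddSubgroup) inf_le_right (fun y hy hy' => ?_)
    fun x hx y hy => h5 _ (comm_mem_Dv _ hx.1 hy.1)
  · have h7 : Nat.card (Submodule.span F {e, f}) ≤ Nat.card F * Nat.card F := by
      rw [card_submodule, ← sq]
      refine Nat.pow_le_pow_right Nat.card_pos ?_
      classical
      exact (finrank_span_le_card _).trans (by simpa using Finset.card_le_two)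
    exact Nat.mul_self_le_mul_self_iff.1 (h6.trans h7)
  · have key : ∀ v ∈ Submodule.span F {e, f}, P.B y v = 0 := fun v hv => by
      by_contra h0
      refine h4 ?_
      rw [← hy' ((c / (2 * P.B y v)) • v) (Submodule.smul_mem _ _ hv), sp_swap y (_ • v)]
      congr 1
      simp only [map_smul, smul_eq_mul]
      field_simp
      ring
    obtain ⟨a, b, rfl⟩ := Submodule.mem_span_pair.1 hy
    have h7 := key e (left_mem_span_pair e f)
    have h8 := key f (right_mem_span_pair e f)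
    simp [sp_B_self, h, B_swap_ne h] at h7 h8
    simp [h7, h8]

/-- a full secant with a skew centre -/
theorem tt_of_skew [Finite F] [Finite V] (h2 : (2 : F) ≠ 0) {e f r : V} (h : P.B e f ≠ 0)
    (hL : ∀ a b : F, a • e + b • f ≠ 0 → a • e + b • f ∈ SS H) (h1 : P.B r e = 0) (h3 : P.B r f = 0)
    {b : F} (hb : b ≠ 0) (h5 : b • f ∈ YY H r) : P.TT H r := by
  by_contra hT
  have h6 : ∀ t : F, ∃ c : F, c ≠ 0 ∧ c • ((1 : F) • e + t • f) ∈ YY H r := fun t => by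
    have h7 : P.B (b • f) ((1 : F) • e + t • f) ≠ 0 := by simp [sp_B_self, hb, B_swap_ne h]
    exact YY_step' h5 (hL _ _ fun e => h7 (by rw [e, map_zero])) (by simp [h1, h3]) h7
  choose c hc h7 using h6
  have h8 := Nat.card_le_card_of_injective (α := Option F)
    (β := (YY H r ⊓ (Submodule.span F {e, f}).toAddSubgroup : AddSubgroup V))
    (fun o => o.elim ⟨0, zero_mem _⟩ fun t => ⟨_, h7 t, Submodule.smul_mem _ _
      (Submodule.mem_span_pair.2 ⟨_, _, rfl⟩)⟩) ?_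
  · have := card_le_YY h2 h hT
    rw [Finite.card_option] at h8
    omega
  · rintro (_ | s) (_ | t) e' <;> replace e' := congrArg Subtype.val e' <;> simp only [Option.elim] at e'
    · rfl
    · simpa [hc, sp_B_self, h] using congrArg (P.B · f) e'
    · simpa [hc, sp_B_self, h] using congrArg (P.B · f) e'
    · have a1 := congrArg (P.B · f) e'
      have a2 := congrArg (P.B e) e'
      simp [sp_B_self, h] at a1 a2
      rw [a1] at a2
      rw [mul_right_cancel₀ h (mul_left_cancel₀ (hc t) a2)]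

end Cfsg.Agent.SR.CA
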