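import Cfsg.Agent.SR.CaseA1

/-! Subgroups containing a transvection: configurations with too many orbits. -/

set_option autoImplicit false

namespace Cfsg.Agent.SR.CA

open Module Cfsg.Agent.Polar Cfsg.Agent.Polar.PQ

variable {F : Type*} [Field F] {V : Type*} [AddCommGroup V] [Module F V] {P : PQ (spFP F) V}
  {H : Subgroup P.Iso}

theorem img_inter {T : Set V} (hT : ∀ g ∈ H, ∀ v ∈ T, g • v ∈ T) {g : P.Iso} (hg : g ∈ H) (A : Submodule F V) :
    T ∩ (g • A : Submodule F V) = (g • ·) '' (T ∩ A) := by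
  ext v
  refine ⟨fun h => ⟨g⁻¹ • v, ⟨hT _ (inv_mem hg) _ h.1, mem_act.1 h.2⟩, smul_inv_smul _ _⟩, ?_⟩
  rintro ⟨v, h, rfl⟩
  exact ⟨hT g hg _ h.1, act_mem_act.2 h.2⟩

theorem few3 [FiniteDimensional F V] (f3 : Few H 3) {T : Set V} (hT : ∀ g ∈ H, ∀ v ∈ T, g • v ∈ T)
    (hs : ∀ c : F, c ≠ 0 → ∀ v, c • v ∈ T → v ∈ T) (L : Fin 3 → Submodule F V)
    (ho : ∀ i j, i ≠ j → ∀ x ∈ L i, ∀ y ∈ L j, P.B x y = 0)
    (hn : ∀ i, ∀ x ∈ L i, x ≠ 0 → ∃ y ∈ L i, P.B x y ≠ 0)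
    (hp : ∀ i, ∀ m ∈ L i, ∀ r, (∀ y ∈ L i, P.B r y = 0) → m + r ∈ T → m ≠ 0 → m ∈ T) (a b : Fin 3 → V)
    (ha : ∀ i, a i ∈ L i ∧ a i ≠ 0 ∧ a i ∈ T) (hb : ∀ i, b i ∈ L i ∧ b i ≠ 0 ∧ b i ∉ T) : False := by
  classical
  let x : Fin 4 → Fin 3 → V := fun j i => if i.1 < j.1 then a i else b i
  have x1 : ∀ j i, x j i ∈ L i ∧ x j i ≠ 0 := fun j i => by
    simp only [x]
    split_ifs
    exacts [⟨(ha i).1, (ha i).2.1⟩, ⟨(hb i).1, (hb i).2.1⟩]
  have sp : ∀ j i (c : Fin 3 → F), ∀ y ∈ L i, P.B (∑ k ∈ Finset.univ.erase i, c k • x j k) y = 0 :=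
    fun j i c y hy => by
      rw [map_sum, LinearMap.sum_apply]
      exact Finset.sum_eq_zero fun k hk => ho k i (Finset.ne_of_mem_erase hk) _ ((L k).smul_mem _ (x1 j k).1) y hy
  have li : ∀ j, LinearIndependent F (x j) := fun j => Fintype.linearIndependent_iff.2 fun c hc i => by
    obtain ⟨y, hy, h⟩ := hn i _ (x1 j i).1 (x1 j i).2
    have := congrArg (P.B · y) hc
    simp only [← Finset.add_sum_erase _ _ (Finset.mem_univ i), map_add, LinearMap.add_apply, sp j i c y hy] at this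
    simpa [h] using this
  have key : ∀ j, finrank F (Submodule.span F (T ∩ Submodule.span F (Set.range (x j)))) = j := fun j => by
    have e : Submodule.span F (T ∩ Submodule.span F (Set.range (x j))) =
        Submodule.span F (Set.range fun i : {i : Fin 3 // i.1 < j.1} => x j i) := by
      refine le_antisymm (Submodule.span_le.2 ?_) (Submodule.span_mono ?_)
      · rintro v ⟨h1, h2⟩
        obtain ⟨c, rfl⟩ := (Submodule.mem_span_range_iff_exists_fun F).1 h2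
        refine Submodule.sum_mem _ fun i _ => ?_
        by_cases hi : i.1 < j.1
        · exact Submodule.smul_mem _ _ (Submodule.subset_span ⟨⟨i, hi⟩, rfl⟩)
        by_cases hc : c i = 0
        · simp [hc]
        rw [← Finset.add_sum_erase _ _ (Finset.mem_univ i)] at h1
        have := hs _ hc _ (hp i _ ((L i).smul_mem _ (x1 j i).1) _ (sp j i c) h1 (smul_ne_zero hc (x1 j i).2))
        exact absurd (by simpa [x, hi] using this) (hb i).2.2
      · rintro _ ⟨i, rfl⟩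
        exact ⟨by simpa [x, i.2] using (ha i).2.2, Submodule.subset_span ⟨i, rfl⟩⟩
    rw [e]
    refine (finrank_span_eq_card ((li j).comp _ Subtype.val_injective)).trans ?_
    clear e
    fin_cases j <;> rfl
  refine f3.inv (fun A => finrank F (Submodule.span F (T ∩ A))) (fun g hg A => ?_)
    (fun j => Submodule.span F (Set.range (x j))) (fun j => ti_span ?_)
    (fun j => by rw [finrank_span_eq_card (li j), Fintype.card_fin]) fun j j' e => ?_
  · rw [img_inter hT hg, ← smul_span, finrank_act]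
  · rintro _ ⟨i, rfl⟩ _ ⟨k, rfl⟩
    by_cases e : i = k
    · rw [e, sp_B_self]
    · exact ho i k e _ (x1 j i).1 _ (x1 j k).1
  · simp only [key] at e
    exact Fin.ext e

theorem pair_nd {e f : V} (h : P.B e f ≠ 0) : ∀ x ∈ Submodule.span F {e, f}, x ≠ 0 →
    ∃ y ∈ Submodule.span F {e, f}, P.B x y ≠ 0 := fun x hx h0 => by
  obtain ⟨a, b, rfl⟩ := Submodule.mem_span_pair.1 hx
  by_contra! hn
  have h7 := hn e (left_mem_span_pair e f)
  have h8 := hn f (right_mem_span_pair e f)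
  simp [sp_B_self, h, B_swap_ne h] at h7 h8
  simp [h7, h8] at h0

theorem pair_orth {e f e' f' : V} (a1 : P.B e' e = 0) (a2 : P.B e' f = 0) (a3 : P.B f' e = 0) (a4 : P.B f' f = 0) :
    (∀ x ∈ Submodule.span F {e', f'}, ∀ y ∈ Submodule.span F {e, f}, P.B x y = 0) ∧
      ∀ x ∈ Submodule.span F {e, f}, ∀ y ∈ Submodule.span F {e', f'}, P.B x y = 0 := by
  have : ∀ x ∈ Submodule.span F {e', f'}, ∀ y ∈ Submodule.span F {e, f}, P.B x y = 0 := fun x hx y hy => by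
    obtain ⟨a, b, rfl⟩ := Submodule.mem_span_pair.1 hx
    obtain ⟨c, d, rfl⟩ := Submodule.mem_span_pair.1 hy
    simp [*]
  exact ⟨this, fun x hx y hy => B_swap_zero (this y hy x hx)⟩

/-- three orthogonal planes -/
theorem few3' [FiniteDimensional F V] (f3 : Few H 3) {T : Set V} (hT : ∀ g ∈ H, ∀ v ∈ T, g • v ∈ T)
    (hs : ∀ c : F, c ≠ 0 → ∀ v, c • v ∈ T → v ∈ T) (e f : Fin 3 → V) (h : ∀ i, P.B (e i) (f i) ≠ 0)
    (ho : ∀ i j, j < i → P.B (e i) (e j) = 0 ∧ P.B (e i) (f j) = 0 ∧ P.B (f i) (e j) = 0 ∧ P.B (f i) (f j) = 0)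
    (hp : ∀ i (a b : F) r, P.B r (e i) = 0 → P.B r (f i) = 0 → a • e i + b • f i + r ∈ T → a • e i + b • f i ≠ 0 →
      a • e i + b • f i ∈ T) (he : ∀ i, e i ∈ T)
    (hb : ∀ i, ∃ a b : F, a • e i + b • f i ≠ 0 ∧ a • e i + b • f i ∉ T) : False := by
  choose a b h1 h2 using hb
  refine few3 f3 hT hs (fun i => Submodule.span F {e i, f i}) (fun i j hij => ?_) (fun i => pair_nd (h i))
    (fun i m hm r hr h3 h4 => ?_) e (fun i => a i • e i + b i • f i)
    (fun i => ⟨left_mem_span_pair _ _, fun e0 => h i (by simp [e0]), he i⟩)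
    fun i => ⟨Submodule.mem_span_pair.2 ⟨_, _, rfl⟩, h1 i, h2 i⟩
  · rcases lt_or_gt_of_ne hij with h3 | h3
    · obtain ⟨a1, a2, a3, a4⟩ := ho _ _ h3
      exact (pair_orth a1 a2 a3 a4).2
    · obtain ⟨a1, a2, a3, a4⟩ := ho _ _ h3
      exact (pair_orth a1 a2 a3 a4).1
  · obtain ⟨a, b, rfl⟩ := Submodule.mem_span_pair.1 hm
    exact hp i a b r (hr _ (left_mem_span_pair _ _)) (hr _ (right_mem_span_pair _ _)) h3 h4

theorem not_inv [FiniteDimensional F V] (hP : P.ND) (h6 : 6 ≤ finrank F V) (hp : Pt2 H) (f3 : Few H 3)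
    {W : Submodule F V} (hW : ∀ g ∈ H, ∀ v ∈ W, g • v ∈ W) (h0 : W ≠ ⊥) (h1 : W ≠ ⊤) : False := by
  have hW' := perp_stab hW
  have d := finrank_perp hP W
  have a0 : P.perp W ≠ ⊥ := fun e => h1 (Submodule.eq_top_of_finrank_eq (by rw [e] at d; simpa using d))
  have a1 : P.perp W ≠ ⊤ := fun e => h0 (Submodule.finrank_eq_zero.1 (by rw [e, finrank_top] at d; omega))
  obtain ⟨z, z1, z2⟩ : ∃ z, z ∉ W ∧ z ∉ P.perp W := by
    obtain ⟨u, hu⟩ : ∃ u, u ∉ W := by simpa [Submodule.eq_top_iff'] using h1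
    obtain ⟨v, hv⟩ : ∃ u, u ∉ P.perp W := by simpa [Submodule.eq_top_iff'] using a1
    by_contra! h
    have h2 : v ∈ W := by_contra fun e => hv (h v e)
    have h3 : u + v ∉ W := fun e => hu ((W.add_mem_iff_left h2).1 e)
    exact hv (((P.perp W).add_mem_iff_right (h u hu)).1 (h _ h3))
  have cj : ∀ {U : Submodule F V}, (∀ g ∈ H, ∀ v ∈ U, g • v ∈ U) → ∀ {x y : V}, x ∈ U → y ≠ 0 →
      Cj H (F ∙ x) (F ∙ y) → y ∈ U := fun hU x y hx hy h => by
    obtain ⟨g, hg, c, hc, e⟩ := (cj_pt hy).1 h.symm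
    have := hU _ (inv_mem hg) _ (Submodule.smul_mem _ c hx)
    rwa [← e, inv_smul_smul] at this
  have z0 : z ≠ 0 := fun e => z1 (e ▸ zero_mem _)
  have key : ∀ x ∈ W, ∀ y ∈ P.perp W, x ≠ 0 → y ≠ 0 → y ∈ W ∧ x ∈ P.perp W := fun x hx y hy x0 y0 => by
    rcases hp x y z x0 y0 z0 with h | h | h
    exacts [⟨cj hW hx y0 h, cj hW' hy x0 h.symm⟩, absurd (cj hW hx z0 h) z1, absurd (cj hW' hy z0 h) z2]
  obtain ⟨w1, m1, n1⟩ := Submodule.exists_mem_ne_zero_of_ne_bot h0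
  obtain ⟨y, my, ny⟩ := Submodule.exists_mem_ne_zero_of_ne_bot a0
  have ti : ∀ x ∈ W, ∀ v ∈ W, P.B x v = 0 := fun x hx => by
    by_cases e : x = 0
    · simp [e]
    · exact (key x hx y my e ny).2
  have d3 : 2 < finrank F W := by
    have := Submodule.finrank_mono (s := P.perp W) (t := W) fun v hv => by
      by_cases e : v = 0
      · simp [e]
      · exact (key w1 m1 v hv n1 e).1
    omega
  obtain ⟨u1, p1⟩ := hP.exists_hyp (sp_sing w1) n1
  obtain ⟨⟨w2, m2⟩, n2, q2⟩ := exists_ne_zero_ker₁ ((P.B.flip u1).domRestrict W) (by omega)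
  replace n2 : w2 ≠ 0 := by simpa using n2
  replace q2 : P.B w2 u1 = 0 := q2
  obtain ⟨u2, hu2, p2⟩ := p1.exists_hyp_perp hP (mem_perp_pair.2 ⟨ti _ m2 _ m1, q2⟩) n2 (sp_sing _)
  obtain ⟨b1, b2⟩ := mem_perp_pair.1 hu2
  obtain ⟨⟨w3, m3⟩, n3, q3, q3'⟩ := exists_ne_zero_ker₂ ((P.B.flip u1).domRestrict W) ((P.B.flip u2).domRestrict W) d3
  replace n3 : w3 ≠ 0 := by simpa using n3
  replace q3 : P.B w3 u1 = 0 := q3
  replace q3' : P.B w3 u2 = 0 := q3'
  obtain ⟨u, hu⟩ := hP.exists_ne n3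
  have c1 := mem_perp_pair.1 (p1.hproj_mem u)
  have c2 := mem_perp_pair.1 (p2.hproj_mem (P.hproj w1 u1 u))
  rw [← B_hproj (ti _ m3 _ m1) q3, ← B_hproj (ti _ m3 _ m2) q3'] at hu
  have c3 : P.B (P.hproj w2 u2 (P.hproj w1 u1 u)) w1 = 0 := by
    rw [hproj_apply w2]; simp [c1.1, b1, ti _ m2 _ m1]
  have c4 : P.B (P.hproj w2 u2 (P.hproj w1 u1 u)) u1 = 0 := by
    rw [hproj_apply w2]; simp [c1.2, b2, q2]
  generalize P.hproj w2 u2 (P.hproj w1 u1 u) = u3 at *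
  have hw : ∀ i, ![w1, w2, w3] i ∈ W := by intro i; fin_cases i <;> assumption
  have hb : ∀ i, P.B (![w1, w2, w3] i) (![u1, u2, u3] i) ≠ 0 := by
    intro i; fin_cases i <;> simp [p1.pair, p2.pair, hu]
  refine few3' f3 (T := W) hW (fun c hc v => (W.smul_mem_iff hc).1) ![w1, w2, w3] ![u1, u2, u3] hb ?_
    (fun i a b r r1 r2 h3 _ => ?_) hw fun i => ⟨0, 1, fun e => hb i (by rw [zero_smul, zero_add, one_smul] at e; rw [e, map_zero]),
      fun e => hb i (ti _ (hw i) _ (by rwa [zero_smul, zero_add, one_smul] at e))⟩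
  · intro i j hij
    fin_cases i <;> fin_cases j <;> first | exact absurd hij (by decide) | skip
    exacts [⟨ti _ m2 _ m1, q2, b1, b2⟩, ⟨ti _ m3 _ m1, q3, c3, c4⟩, ⟨ti _ m3 _ m2, q3', c2.1, c2.2⟩]
  · have := ti _ (hw i) _ h3
    simp only [map_add, map_smul, B_swap_zero r1, sp_B_self] at this
    obtain rfl : b = 0 := by simpa [hb i] using this
    simpa using W.smul_mem a (hw i)

end Cfsg.Agent.SR.CA
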