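import Cfsg.Agent.SR.Base

/-! A subgroup without transvections has large index. -/

set_option autoImplicit false

namespace Cfsg.Agent.SR

open Module Cfsg.Agent.Polar Cfsg.Agent.Polar.PQ

variable {F : Type*} [Field F] {V : Type*} [AddCommGroup V] [Module F V] {P : PQ (spFP F) V}

theorem top_of_index [Finite F] [Finite V] (hP : P.ND) (h2 : (2 : F) ≠ 0) (h4 : 4 ≤ finrank F V)
    {K : Subgroup P.Iso} (hK : K.relIndex P.EG ≤ Nat.card F) : P.EG ≤ K := by
  have : FiniteDimensional F V := Module.Finite.of_finite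
  by_contra hn
  obtain ⟨e, -, he0, hT⟩ := exists_not_TT (sp_TG_eq_EG hP) hn
  obtain ⟨f, h⟩ := hP.exists_hyp (sp_sing e) he0
  rw [TT_iff h.left] at hT
  obtain ⟨i, j, φ, -, hj, h1, -, -, -, h5⟩ := h.local_bound (sp_vTrans hP) K hT
  have hYY := h.card_Yv_sq_le hP (fun c _ => ⟨c / 2, by simp; field_simp; ring⟩) hT
  have h6 := relIndex_Gam_le K e
  have h7 := relIndex_pos (P.Kc K e) (P.Gam e)
  have h8 : Nat.card F ^ 2 ≤ Nat.card (P.perp {e, f}) := by
    rw [h.card_perp]; exact Nat.pow_le_pow_right Nat.card_pos (by omega)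
  have h9 : j * 2 ≤ Nat.card F :=
    ((Nat.mul_le_mul_left j h5).trans (Nat.le_mul_of_pos_left _ h7)).trans (h1 ▸ h6.trans hK)
  have h10 : Nat.card (h.Yv K) ≤ j := Nat.le_of_mul_le_mul_right (hj ▸ hYY) Nat.card_pos
  have h11 := two_le_card (F := F)
  nlinarith

theorem card_ti_sq_le [Finite F] [Finite V] (hP : P.ND) (h2 : (2 : F) ≠ 0) {e f : V} (h : P.Hyp e f)
    {S : Submodule F V} (hS : TI P S) (hle : S ≤ P.perp {e, f}) :
    Nat.card S * Nat.card S ≤ Nat.card (P.perp {e, f}) := by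
  obtain ⟨ψ, h1, -⟩ := exists_addChar_ker (D := (⊥ : AddSubgroup F)) (c := 1) (by simp)
  exact (isBich_comm ψ).card_sq_le (Y := S.toAddSubgroup) hle
    (h.nd_bich_comm hP (b := 1 / 2) (by convert h1; simp; field_simp; ring))
    fun x hx y hy => by simp [hS x hx y hy, hS y hy x hx]

theorem ncard_diff_span [Finite F] [Finite V] {S : Submodule F V} {x : V} (hx : x ∈ S) (hx0 : x ≠ 0) :
    {z | z ∈ S ∧ z ∉ F ∙ x}.ncard + Nat.card F = Nat.card S := by
  rw [← card_span_singleton (F := F) hx0, ← SetLike.coe_sort_coe, ← SetLike.coe_sort_coe S,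
    Nat.card_coe_set_eq, Nat.card_coe_set_eq]
  exact Set.ncard_sdiff_add_ncard_of_subset ((Submodule.span_singleton_le_iff_mem _ _).2 hx)

theorem ar_b1 {q s c σ a : ℕ} (hq : 2 ≤ q) (hs : q ^ 2 ≤ s) (hσ : σ ≤ s) (hc : c ≤ q * s)
    (ha : (a + q) * q = s ^ 2) (h : (s ^ 2 - 1) * a ≤ c * (σ - 1) * (σ - q)) : False := by
  obtain ⟨t, rfl⟩ : ∃ t, s = t + q := ⟨s - q, by have : q ≤ s := by nlinarith
                                                 omega⟩
  obtain ⟨r, hr⟩ : ∃ r, t + q = r + 1 := ⟨t + q - 1, by omega⟩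
  have h1 : c * (σ - 1) * (σ - q) ≤ q * (t + q) * r * t := by gcongr <;> omega
  have h2 : a * q = t * (t + 2 * q) := by nlinarith
  have h3 : (t + q) ^ 2 - 1 = r * (r + 2) := by rw [hr]; ring_nf; omega
  rw [h3] at h
  have h4 : r * t * ((r + 2) * (t + 2 * q)) ≤ r * t * (q ^ 2 * (t + q)) := by
    calc _ = r * (r + 2) * a * q := by rw [mul_assoc _ a, h2]; ring
      _ ≤ q * (t + q) * r * t * q := Nat.mul_le_mul_right _ (h.trans h1)
      _ = _ := by ring
  have h5 := Nat.le_of_mul_le_mul_left h4 (Nat.mul_pos (by nlinarith) (by nlinarith))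
  nlinarith

theorem caseB1 [Finite F] [Finite V] (hP : P.ND) (h2 : (2 : F) ≠ 0) (h6 : 6 ≤ finrank F V)
    {H : Subgroup P.Iso} (hH : NoTv H) (hn : H.index ≤ Nat.card F ^ finrank F V) : False := by
  have : FiniteDimensional F V := Module.Finite.of_finite
  have : Nontrivial V := Module.nontrivial_of_finrank_pos (R := F) (by omega)
  obtain ⟨e, he0⟩ := exists_ne (0 : V)
  obtain ⟨f, h⟩ := hP.exists_hyp (sp_sing e) he0
  have hD : P.Dv H h.left = ⊥ := (AddSubgroup.eq_bot_iff_forall _).2 fun c hc =>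
    (hH e c hc.2).resolve_left he0
  obtain ⟨j, hj⟩ := exists_mul_card_eq (h.Yv_le H)
  change _ = Nat.card (P.perp {e, f}) at hj
  have h1 := h.relIndex_Gam H
  rw [h.relIndex_U H (i := Nat.card F) (by rw [hD, AddSubgroup.card_bot, mul_one, sp_card_lam]) hj] at h1
  have h3 := relIndex_Gam_le H e
  rw [sp_EG_eq_top hP, Subgroup.relIndex_top_right] at h3
  obtain ⟨r, hr⟩ := sp_even_finrank hP
  obtain ⟨r, rfl⟩ : ∃ m, r = m + 1 := ⟨r - 1, by omega⟩
  have hw : ∀ f', P.Hyp e f' → Nat.card (P.perp {e, f'}) = (Nat.card F ^ r) ^ 2 := fun f' h' => by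
    rw [h'.card_perp, ← pow_mul]; congr 1; omega
  have hq := two_le_card (F := F)
  have hs : Nat.card F ^ 2 ≤ Nat.card F ^ r := Nat.pow_le_pow_right (by omega) (by omega)
  have hc : ∀ f', (P.Kc H e).relIndex (P.Lv e f') ≤ Nat.card F * Nat.card (h.Yv H) := fun f' => by
    refine (relIndex_mono_right _ (Lv_le_Gam e f')).trans (Nat.le_of_mul_le_mul_right (c := j * Nat.card F) ?_
      (Nat.mul_pos (Nat.pos_of_mul_pos_right (hj ▸ Nat.card_pos)) (by omega)))
    rw [← h1]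
    refine h3.trans (hn.trans (le_of_eq ?_))
    rw [show finrank F V = r * 2 + 2 by omega, pow_add, pow_mul, ← hw f h, ← hj]; ring
  have hK : ∀ g ∈ P.Kc H e, g ∈ P.Lv e f → ∀ x ∈ h.Yv H, g • x ∈ h.Yv H :=
    fun g hg hg' x hx => h.Kc_Yv hg hg'.1.1 hg'.1.2 hx
  by_cases hY : h.Yv H = ⊥
  · rw [hY, AddSubgroup.card_bot, mul_one] at hc
    have hL : ∀ f', P.Hyp e f' → P.Lv e f' ≤ P.Kc H e := fun f' h' g hg => by
      obtain ⟨g', rfl⟩ := h'.mem_range_ext hP hg.1.1 hg.1.2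
      have := h'.finrank_perp
      exact top_of_index (h'.emb.nd hP) h2 (by omega) ((h'.relIndex_comap_le _).trans (hc f'))
        (sp_mem_EG (h'.emb.nd hP) g')
    have hμ : (-1 : F) * RingHom.id F (-1) = 1 := by simp
    obtain ⟨-, f', h', hT⟩ := sp_tyA h hP hY hL (z := h.emb.ext ((P.res _).scal (-1) hμ)) (t := 1) (μ := -1)
      (hL f h (h.ext_mem_Lv (sp_mem_EG (h.emb.nd hP) _))) (by rw [h.ext_smul_left, one_smul])
      (fun w hw => h.ext_scal _ _ hw) (by simp) (fun h0 => h2 (by linear_combination h0))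
      (Or.inr ⟨h2, by omega⟩)
    have := h'.finrank_perp
    have : Nontrivial (P.perp {e, f'}) := Module.nontrivial_of_finrank_pos (R := F) (by omega)
    obtain ⟨y, hy⟩ := exists_ne (0 : P.perp {e, f'})
    exact (hH y 1 (hT y y.2 1 trivial)).elim (fun e => hy (Subtype.ext e)) one_ne_zero
  obtain ⟨x, hx, hx0⟩ : ∃ x ∈ h.Yv H, x ≠ 0 := by
    by_contra hn
    push Not at hn
    exact hY ((AddSubgroup.eq_bot_iff_forall _).2 hn)
  have hc' := hc f
  rcases exists_indep_or_le (F := F) (T := h.Yv H) (x := x) with ⟨y, hy, hy'⟩ | hl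
  swap
  · have P1 := h.sp_P1 hP (h.Yv_le H) hK hx hx0
    have h5 := (AddSubgroup.card_le_of_le hl).trans (card_span_singleton hx0).le
    rw [hw f h] at P1
    have h7 : _ ≤ Nat.card F * Nat.card F * (Nat.card F - 1) :=
      P1.trans (Nat.mul_le_mul (hc'.trans (Nat.mul_le_mul_left _ h5)) (Nat.sub_le_sub_right h5 1))
    obtain ⟨q, hq'⟩ : ∃ q, Nat.card F = q + 1 := ⟨Nat.card F - 1, by omega⟩
    have h8 := Nat.pow_le_pow_left hs 2
    generalize (Nat.card F ^ r) ^ 2 = w at h7 h8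
    rw [hq', Nat.add_sub_cancel, tsub_le_iff_right] at h7
    rw [hq'] at h8 hq
    nlinarith [Nat.zero_le (q ^ 4), Nat.zero_le (q ^ 3)]
  let S := Submodule.span F (h.Yv H : Set V)
  have hS : TI P S := ti_span fun a ha b hb => by
    have := comm_mem_Dv h.left hb.1 ha.1
    rw [hD, AddSubgroup.mem_bot, sp_swap a b] at this
    exact mul_left_cancel₀ h2 (by linear_combination this)
  have hle : S ≤ P.perp {e, f} := Submodule.span_le.2 (h.Yv_le H)
  have hKS : ∀ g ∈ P.Kc H e, g ∈ P.Lv e f → ∀ x ∈ S, g • x ∈ S := fun g hg hg' x hx =>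
    (show g • S ≤ S by
      rw [smul_span, Submodule.span_le]
      rintro _ ⟨z, hz, rfl⟩
      exact Submodule.subset_span (hK g hg hg' z hz)) (act_mem_act.2 hx)
  have hxS : x ∈ S := Submodule.subset_span hx
  have hyS : y ∈ S := Submodule.subset_span hy
  have hσ : Nat.card S ≤ Nat.card F ^ r := by
    have := card_ti_sq_le hP h2 h hS hle
    rwa [hw f h, ← pow_two, Nat.pow_le_pow_iff_left two_ne_zero] at this
  have hY' : Nat.card (h.Yv H) ≤ Nat.card S :=
    AddSubgroup.card_le_of_le (K := S.toAddSubgroup) fun z hz => Submodule.subset_span hz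
  have h5 := index_orbit₂ (P.Kc H e) (P.Lv e f) x y
    (O := {y | y ∈ (P.perp {e, f}).toAddSubgroup ∧ y ≠ 0}) (T := {y | y ∈ S.toAddSubgroup ∧ y ≠ 0})
    (O' := {z | z ∈ P.perp {e, f} ⊓ P.perp {x} ∧ z ∉ F ∙ x}) (T' := {z | z ∈ S ∧ z ∉ F ∙ x})
    (fun y hy => h.sp_exists_Lv hP (hle hxS) hy.1 hx0 hy.2) (Set.toFinite _)
    (fun g hg hg' => ⟨hKS g hg hg' x hxS, act_ne_zero g hx0⟩)
    (fun z hz => h.sp_exists_Lv₂ hP (hle hxS) (hle hyS) hz.1.1 hy' hz.2 (by
      rw [hS x hxS y hyS, B_swap_zero (mem_perp_singleton.1 hz.1.2)])) (Set.toFinite _)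
    fun g hg hg' hgx => ⟨hKS g hg hg' y hyS, by rwa [← hgx, ← smul_span_one, act_mem_act]⟩
  have e1 := ncard_ne_zero_addSubgroup (P.perp {e, f}).toAddSubgroup
  have e2 := ncard_ne_zero_addSubgroup S.toAddSubgroup
  have e3 := ncard_diff_span hxS hx0
  have e4 := ncard_diff_span (S := P.perp {e, f} ⊓ P.perp {x})
    ⟨hle hxS, mem_perp_singleton.2 (sp_B_self x)⟩ hx0
  have e5 := h.card_perp_level hP (hle hxS) hx0 0
  change _ = Nat.card (P.perp {e, f}) at e1
  change _ = Nat.card S at e2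
  rw [show {z | z ∈ P.perp {e, f} ∧ P.B x z = 0} = ↑(P.perp {e, f} ⊓ P.perp {x}) from Set.ext fun z =>
    and_congr_right fun _ => B_eq_zero_comm.trans mem_perp_singleton.symm, ← Nat.card_coe_set_eq,
    SetLike.coe_sort_coe, ← e4, hw f h] at e5
  rw [Nat.eq_sub_of_add_eq e1, Nat.eq_sub_of_add_eq e2, Nat.eq_sub_of_add_eq e3, hw f h] at h5
  exact ar_b1 hq hs hσ (hc'.trans (Nat.mul_le_mul_left _ (hY'.trans hσ))) e5 h5

end Cfsg.Agent.SR
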