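import Cfsg.Agent.SR.CaseB1

/-! Counting lemmas: a trace argument, a tight set argument and an averaging argument. -/

set_option autoImplicit false

namespace Cfsg.Agent.SR

open Module Cfsg.Agent.Polar Cfsg.Agent.Polar.PQ

theorem avg {G Y : Type*} [Group G] [Finite G] [Finite Y] [MulAction G Y] {S T : Set Y} (hS : S ⊆ T)
    (hT : ∀ (g : G), ∀ a ∈ T, g • a ∈ T) (htr : ∀ a ∈ T, ∀ b ∈ T, ∃ g : G, g • a = b) {m : ℕ}
    (h : ∀ g : G, m ≤ {a | a ∈ S ∧ g • a ∈ S}.ncard) : m * T.ncard ≤ S.ncard ^ 2 := by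
  have k1 : ∀ a ∈ T, ∀ U ⊆ T, {g : G | g • a ∈ U}.ncard = Nat.card (MulAction.stabilizer G a) * U.ncard :=
    fun a ha U hU => ncard_eq_mul_of_fiber (Set.toFinite _) (Set.toFinite _) (· • a) (fun _ h => h) fun b hb => by
      obtain ⟨k, rfl⟩ := htr a ha b (hU hb)
      rw [← SetLike.coe_sort_coe, Nat.card_coe_set_eq,
        ← Set.ncard_image_of_injective (MulAction.stabilizer G a : Set G) (mul_right_injective k)]
      congr 1
      ext g
      exact ⟨fun h => ⟨k⁻¹ * g, by simp [mul_smul, h.2], by simp⟩, by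
        rintro ⟨x, hx, rfl⟩
        have : (k * x) • a = k • a := by rw [mul_smul, show x • a = a from hx]
        exact ⟨show (k * x) • a ∈ U from this ▸ hb, this⟩⟩
  rcases T.eq_empty_or_nonempty with rfl | ⟨a0, ha0⟩
  · simp
  have k2 : ∀ a ∈ T, Nat.card (MulAction.stabilizer G a) * T.ncard = Nat.card G := fun a ha => by
    rw [← k1 a ha T le_rfl, ← Set.ncard_univ]
    congr 1
    exact Set.eq_univ_of_forall fun g => hT g a ha
  have hpos : 0 < T.ncard := (Set.ncard_pos (Set.toFinite _)).2 ⟨a0, ha0⟩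
  have k3 := R3.dc_le (Set.univ : Set G) S (fun g a => g • a ∈ S) (a := m)
    (b := Nat.card (MulAction.stabilizer G a0) * S.ncard) (fun g _ => h g) fun a ha => by
      rw [← Nat.eq_of_mul_eq_mul_right hpos ((k2 a (hS ha)).trans (k2 a0 ha0).symm), ← k1 a (hS ha) S hS]
      simp
  rw [Set.ncard_univ, ← k2 a0 ha0] at k3
  exact Nat.le_of_mul_le_mul_left (c := Nat.card (MulAction.stabilizer G a0)) (by nlinarith) Nat.card_pos

variable {F : Type*} [Field F] {V : Type*} [AddCommGroup V] [Module F V] {P : PQ (spFP F) V}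
  [Finite F] [Finite V]

theorem cast_card_sub {A : Submodule F V} (h : 0 < finrank F A) : ((Nat.card A : ℕ) : F) = 0 := by
  have := Fintype.ofFinite F
  rw [card_submodule, Nat.cast_pow, Nat.card_eq_fintype_card, FiniteField.cast_card_eq_zero, zero_pow h.ne']

theorem trace_lemma (hP : P.ND) (h5 : 5 ≤ finrank F V) (D : V → Submodule F V)
    (hd : ∀ x, x ≠ 0 → finrank F (D x) ≤ 2)
    (hs : ∀ x y, x ≠ 0 → y ≠ 0 → y ∈ P.perp (D x) → x ∈ P.perp (D y))
    (hi : ∀ x, x ≠ 0 → x ∉ P.perp (D x)) : False := by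
  classical
  have : FiniteDimensional F V := Module.Finite.of_finite
  have := Fintype.ofFinite V
  have cnt : ∀ A : Submodule F V, 0 < finrank F A → ∑ z : {x : V // x ≠ 0}, (if z.1 ∈ A then (1 : F) else 0) = -1 :=
    fun A hA => by
      have h1 : ∑ z : V, (if z ∈ A then (1 : F) else 0) = 0 := by
        rw [Finset.sum_boole, ← Fintype.card_subtype, ← Nat.card_eq_fintype_card]
        exact cast_card_sub hA
      rw [Fintype.sum_eq_add_sum_subtype_ne _ 0, if_pos A.zero_mem] at h1
      exact eq_neg_of_add_eq_zero_right h1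
  have hp : ∀ x, x ≠ 0 → finrank F V ≤ finrank F (P.perp (D x)) + 2 := fun x hx => by
    have := finrank_perp hP (D x); have := hd x hx; omega
  let M : Matrix {x : V // x ≠ 0} {x : V // x ≠ 0} F :=
    Matrix.of fun x y => (if y.1 ∈ P.perp (D x.1) then (1 : F) else 0) - 1
  have hM : M * M = 0 := by
    ext x y
    have e1 := cnt (P.perp (D x.1) ⊓ P.perp (D y.1)) (by
      have := Submodule.finrank_sup_add_finrank_inf_eq (P.perp (D x.1)) (P.perp (D y.1))
      have := Submodule.finrank_le (P.perp (D x.1) ⊔ P.perp (D y.1))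
      have := hp _ x.2; have := hp _ y.2; omega)
    have e2 := cnt (P.perp (D x.1)) (by have := hp _ x.2; omega)
    have e3 := cnt (P.perp (D y.1)) (by have := hp _ y.2; omega)
    have e4 := cnt ⊤ (by rw [finrank_top]; omega)
    rw [Matrix.mul_apply, Matrix.zero_apply, show (0 : F) = -1 - -1 - -1 + -1 by ring]
    nth_rewrite 1 [← e1]
    nth_rewrite 1 [← e2]
    nth_rewrite 1 [← e3]
    rw [← e4, ← Finset.sum_sub_distrib, ← Finset.sum_sub_distrib, ← Finset.sum_add_distrib]
    refine Finset.sum_congr rfl fun z _ => ?_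
    have : y.1 ∈ P.perp (D z.1) ↔ z.1 ∈ P.perp (D y.1) := ⟨hs _ _ z.2 y.2, hs _ _ y.2 z.2⟩
    simp only [M, Matrix.of_apply, this, Submodule.mem_inf, Submodule.mem_top]
    by_cases a : z.1 ∈ P.perp (D x.1) <;> by_cases b : z.1 ∈ P.perp (D y.1) <;> simp [a, b]
  have h1 := (Matrix.isNilpotent_trace_of_isNilpotent (M := M) ⟨2, by rw [sq, hM]⟩).eq_zero
  have e4 := cnt ⊤ (by rw [finrank_top]; omega)
  simp only [Matrix.trace, Matrix.diag, M, Matrix.of_apply, fun x : {x : V // x ≠ 0} => hi x.1 x.2] at h1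
  simp at h1 e4
  simp [h1] at e4

omit [Finite F] [Finite V] in
theorem card_inf_perp {A : Submodule F V} {y : V} (h : y ∉ P.perp A) :
    Nat.card (A ⊓ P.perp {y} : Submodule F V) * Nat.card F = Nat.card A := by
  obtain ⟨x, hx, h0⟩ : ∃ x ∈ A, P.B y x ≠ 0 := by simpa [mem_perp] using h
  have := card_eq_ker_mul_of_surj A.toAddSubgroup (P.B.flip y).toAddMonoidHom fun b =>
    ⟨(b / P.B x y) • x, A.smul_mem _ hx, by simp [B_swap_ne h0]⟩
  refine Eq.trans ?_ this.symm
  congr 1
  exact Nat.card_congr (Equiv.subtypeEquivRight fun z => and_congr_right fun _ => mem_perp_singleton)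

omit [Finite F] [Finite V] in
theorem inf_perp_of_mem {A : Submodule F V} {y : V} (h : y ∈ P.perp A) : A ⊓ P.perp {y} = A :=
  inf_eq_left.2 fun x hx => mem_perp_singleton.2 (B_swap_zero (h x hx))

theorem tight_lemma (hP : P.ND) (h5 : 5 ≤ finrank F V) (L : Set (Submodule F V))
    (hd : ∀ M ∈ L, finrank F M = 2) {c : ℕ}
    (hc : ∀ z, z ≠ 0 → {M | M ∈ L ∧ z ∈ M}.ncard + {M | M ∈ L ∧ z ∈ P.perp M}.ncard = c) {y y' : V}
    (hy : y ≠ 0) (hy' : y' ≠ 0) : {M | M ∈ L ∧ y ∈ M}.ncard = {M | M ∈ L ∧ y' ∈ M}.ncard := by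
  classical
  have : FiniteDimensional F V := Module.Finite.of_finite
  have := Fintype.ofFinite V
  have : Finite (Submodule F V) := Finite.of_injective _ SetLike.coe_injective
  obtain ⟨r, hr⟩ : ∃ r, finrank F V = r + 5 := ⟨finrank F V - 5, by omega⟩
  obtain ⟨q, hq⟩ : ∃ q, Nat.card F = q + 1 := ⟨Nat.card F - 1, by have := two_le_card (F := F); omega⟩
  let T := (Set.toFinite L).toFinset
  have e0 : ∀ p : Submodule F V → Prop, {M | M ∈ L ∧ p M}.ncard = ∑ M ∈ T, if p M then 1 else 0 := fun p => by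
    rw [Finset.sum_boole, Nat.cast_id, ← Set.ncard_coe_finset]
    congr 1; ext M; simp [T]
  have e1 : ∀ (A : Submodule F V) (y : V), Nat.card (A ⊓ P.perp {y} : Submodule F V) =
      ∑ z ∈ Finset.univ.filter (· ∈ P.perp {y}), if z ∈ A then 1 else 0 := fun A y => by
    rw [Finset.sum_boole, Nat.cast_id, Finset.filter_filter, ← Fintype.card_subtype, ← Nat.card_eq_fintype_card]
    exact Nat.card_congr (Equiv.subtypeEquivRight fun z => and_comm)
  have e2 : ∀ M ∈ T, ∀ y, Nat.card (M ⊓ P.perp {y} : Submodule F V) + Nat.card (P.perp M ⊓ P.perp {y} : Submodule F V) =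
      (q + 1) + (q + 1) ^ (r + 2) + q * (q + 1) * (if y ∈ P.perp M then 1 else 0) +
        q * (q + 1) ^ (r + 2) * (if y ∈ M then 1 else 0) := fun M hM y => by
    have d1 := hd M (by simpa [T] using hM)
    have d2 := finrank_perp hP M
    have c1 : Nat.card M = (q + 1) * (q + 1) := by rw [card_submodule, d1, hq, sq]
    have c2 : Nat.card (P.perp M) = (q + 1) ^ (r + 2) * (q + 1) := by
      rw [card_submodule, hq, ← pow_succ]; congr 1; omega
    have a1 : Nat.card (M ⊓ P.perp {y} : Submodule F V) = (q + 1) + q * (q + 1) * (if y ∈ P.perp M then 1 else 0) := by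
      split_ifs with h
      · rw [inf_perp_of_mem h, c1]; ring
      · have := card_inf_perp h
        rw [hq, c1] at this
        simpa using this
    have a2 : Nat.card (P.perp M ⊓ P.perp {y} : Submodule F V) =
        (q + 1) ^ (r + 2) + q * (q + 1) ^ (r + 2) * (if y ∈ M then 1 else 0) := by
      split_ifs with h
      · rw [inf_perp_of_mem (by rwa [perp_perp hP]), c2]; ring
      · have := card_inf_perp (P := P) (A := P.perp M) (y := y) (by rwa [perp_perp hP])
        rw [hq, c2] at this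
        simpa using this
    rw [a1, a2]; ring
  have e3 : ∀ y, y ≠ 0 → T.card * ((q + 1) + (q + 1) ^ (r + 2)) + q * (q + 1) * {M | M ∈ L ∧ y ∈ P.perp M}.ncard +
      q * (q + 1) ^ (r + 2) * {M | M ∈ L ∧ y ∈ M}.ncard = 2 * T.card + ((q + 1) ^ (r + 4) - 1) * c := fun y hy => by
    have k := Finset.sum_congr rfl fun M hM => e2 M hM y
    rw [Finset.sum_add_distrib (s := T) (g := fun M => q * (q + 1) ^ (r + 2) * _), Finset.sum_add_distrib (s := T)
      (g := fun M => q * (q + 1) * _), Finset.sum_const, ← Finset.mul_sum, ← Finset.mul_sum, ← e0, ← e0,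
      smul_eq_mul] at k
    rw [← k]
    simp only [e1, ← Finset.sum_add_distrib]
    rw [Finset.sum_comm, ← Finset.add_sum_erase _ _ (a := (0 : V)) (by simp),
      Finset.sum_congr (s₁ := Finset.erase _ (0 : V)) rfl (g := fun _ => c) fun z hz => by
        rw [Finset.sum_add_distrib, ← e0, ← e0, hc z (Finset.ne_of_mem_erase hz)],
      Finset.sum_const c, Finset.card_erase_of_mem (by simp), ← Fintype.card_subtype, ← Nat.card_eq_fintype_card]
    have d := finrank_perp hP (F ∙ y)
    rw [finrank_span_singleton hy, perp_span] at d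
    rw [show Nat.card {x // x ∈ P.perp {y}} = (q + 1) ^ (r + 4) by rw [card_submodule, hq]; congr 1; omega]
    simp [mul_comm]
  have k1 := (e3 y hy).trans (e3 y' hy').symm
  have k2 := (hc y hy).trans (hc y' hy').symm
  have hq1 : 1 ≤ q := by have := two_le_card (F := F); omega
  have k3 : q * (q + 1) < q * (q + 1) ^ (r + 2) :=
    Nat.mul_lt_mul_of_pos_left (by simpa using Nat.pow_lt_pow_right (show 1 < q + 1 by omega) (show 1 < r + 2 by omega)) hq1
  generalize q * (q + 1) ^ (r + 2) = b, q * (q + 1) = a at k1 k3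
  obtain ⟨d, rfl⟩ := Nat.exists_eq_add_of_lt k3
  exact Nat.eq_of_mul_eq_mul_left (show 0 < d + 1 by omega) (by nlinarith)

end Cfsg.Agent.SR
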