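import Cfsg.Agent.SR.Fib
import Cfsg.Agent.SR.Tr
import Cfsg.Agent.Polar.MinSp

/-! No transvections, all transvections in one double coset. -/

set_option autoImplicit false

namespace Cfsg.Agent.SR

open Module Cfsg.Agent.Polar Cfsg.Agent.Polar.PQ

variable {F : Type*} [Field F] {V : Type*} [AddCommGroup V] [Module F V] {P : PQ (spFP F) V}

/-- every coset contains an element fixing a subspace of codimension at most two pointwise -/
def AV (H : Subgroup P.Iso) : Prop := ∀ g : P.Iso, ∃ h ∈ H, ∃ v w : V, Fx (g * h) {v, w}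

variable {H : Subgroup P.Iso} [Finite F] [Finite V] (hP : P.ND) (h2 : (2 : F) ≠ 0) (h6 : 6 ≤ finrank F V)
  (hH : NoTv H) (hO : OneCl H)
include hP h2 h6 hH hO

theorem b2_special {v w : V} {c d : F} (hB : P.B v w ≠ 0) (hs : Sim H w d v c) (hn : ¬ IsSquare (c * d))
    (hE : ∀ u e, u ≠ 0 → e ≠ 0 → Sim H u e v c → P.B u v = 0 → P.B u w ≠ 0) : False := by
  classical
  have : FiniteDimensional F V := Module.Finite.of_finite
  have hc : c ≠ 0 := by rintro rfl; simp at hn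
  have hd : d ≠ 0 := by rintro rfl; simp at hn
  have v0 : v ≠ 0 := by rintro rfl; simp at hB
  have w0 : w ≠ 0 := by rintro rfl; simp at hB
  have cen : ∀ k ∈ H, ∀ u e, u ≠ 0 → e ≠ 0 → Sim H u e (k • v) c → u ∈ k • Submodule.span F {v, w} :=
    fun k hk u e hu he h => by
      have h1 := h.smul (inv_mem hk)
      rw [inv_smul_smul] at h1
      exact mem_act.2 ((meet' hP hH h2 hB hs hc hd (Or.inl hn) h1 he).resolve_right fun h3 =>
        hE _ e (act_ne_zero _ hu) he h1 h3.1 h3.2)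
  choose! k hk hk' using fun x (hx : x ≠ 0) => hO v x c 1 v0 hx hc one_ne_zero
  have hL := fun x => (hl_of_ne hB).smul (k x)
  have hx := fun x hx => cen _ (hk x hx) x 1 hx one_ne_zero (hk' x hx)
  refine trace_lemma hP (by omega) (fun x => k x • Submodule.span F {v, w}) (fun x _ => (hL x).finrank.le)
    (fun x y x0 y0 hy => ?_) fun x x0 h => x0 ((hL x).eq_zero (hx x x0) h)
  have fs := (fx_sim (P := P) (right_mem_span_pair (F := F) v w) (left_mem_span_pair v w) d c).conj' (k x)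
  have s1 : k x * ((tv P w d)⁻¹ * tv P v c) * (k x)⁻¹ ≠ 1 := by simpa using sim_ne c hd (B_swap_ne hB)
  have sH : k x * ((tv P w d)⁻¹ * tv P v c) * (k x)⁻¹ ∈ H := mul_mem (mul_mem (hk x x0) hs) (inv_mem (hk x x0))
  generalize k x * ((tv P w d)⁻¹ * tv P v c) * (k x)⁻¹ = s at fs s1 sH
  have sy := fs y hy
  have a1 : Sim H y 1 (s • k y • v) c := by
    have := Sim.smul (hk' y y0) sH
    rwa [sy] at this
  have a2 := Sim.symm (hk' y y0 : Sim H y 1 _ c)
  have a3 : s • k y • Submodule.span F {v, w} ≤ k y • Submodule.span F {v, w} := by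
    rw [smul_span_pair (k y), smul_span_pair s, ← smul_span_pair (k y), Submodule.span_le]
    rintro _ (rfl | rfl)
    · exact cen _ (hk y y0) _ c (act_ne_zero _ (act_ne_zero _ v0)) hc (a1.symm.trans a2.symm)
    · exact cen _ (hk y y0) _ d (act_ne_zero _ (act_ne_zero _ w0)) hd
        (((hs.smul (hk y y0)).smul sH).trans (a1.symm.trans a2.symm))
  intro z hz
  obtain ⟨t, ht⟩ := (hL y).perp_pt (hx y y0) y0 (sub_mem (a3 (act_mem_act.2 hz)) hz) (by
    rw [map_sub, LinearMap.sub_apply, ← B_smul_smul s z y, sy, sub_self])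
  have a4 := (hL x).eq_zero (fs.sub' hP z) (ht ▸ Submodule.smul_mem _ _ hy)
  exact B_swap_zero ((hL x).fpf hP hH sH s1 fs (sub_eq_zero.1 a4) x (hx x x0))

theorem b2_e1 {v w u : V} {c d e : F} (hB : P.B v w ≠ 0) (hc : c ≠ 0) (hd : d ≠ 0) (hs : Sim H u e v c)
    (hs' : Sim H u e w d) (u0 : u ≠ 0) (h1 : P.B u v = 0) (h3 : P.B u w = 0) : False := by
  classical
  have : FiniteDimensional F V := Module.Finite.of_finite
  have : Finite (Submodule F V) := Finite.of_injective _ SetLike.coe_injective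
  have v0 : v ≠ 0 := by rintro rfl; simp at hB
  have w0 : w ≠ 0 := by rintro rfl; simp at hB
  have hR := rf_of_perp hP hH h2 hB hc hd hs hs' u0 h1 h3
  have hN := ne_of_perp h2 hB hc hd hs hs' h1 h3
  let L : Set (Submodule F V) := {M | ∃ k ∈ H, k • Submodule.span F {v, w} = M}
  have L0 : Submodule.span F {v, w} ∈ L := ⟨1, one_mem _, one_smul _ _⟩
  have Lg : ∀ g ∈ H, ∀ M ∈ L, g • M ∈ L := by
    rintro g hg _ ⟨k, hk, rfl⟩
    exact ⟨g * k, mul_mem hg hk, mul_smul _ _ _⟩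
  have LH : ∀ M ∈ L, HL P M := by rintro _ ⟨k, -, rfl⟩; exact (hl_of_ne hB).smul k
  have LR : ∀ M ∈ L, ∃ i ∈ H, i ≠ 1 ∧ Fx i M := by
    rintro _ ⟨k, hk, rfl⟩
    obtain ⟨i, hi, i1, i2⟩ := hR.smul hk
    refine ⟨i, hi, fun e => act_ne_zero k v0 ?_, i1⟩
    have := i2 _ (act_mem_act.2 (left_mem_span_pair v w))
    rw [e, one_smul, eq_neg_iff_add_eq_zero, ← two_smul F] at this
    exact (smul_eq_zero.1 this).resolve_left h2
  have dis : ∀ M ∈ L, ∀ N ∈ L, ∀ y ∈ M, y ∈ N → y ≠ 0 → M = N := fun M hM N hN' y hy hy' y0 => by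
    by_contra hne
    obtain ⟨i, hi, i1, i2⟩ := LR N hN'
    obtain ⟨k, hk, rfl⟩ := hM
    obtain ⟨s, hs, s1, s2⟩ := hN.smul hk y hy y0
    exact s2 (hh0' hP hH h2 ((hl_of_ne hB).smul k) (LH N hN') hne hy hy' y0 (hR.smul hk) hs s1 hi i1 i2)
  have stab : ∀ g ∈ H, ∀ M ∈ L, ∀ z ∈ M, z ≠ 0 → g • z = z → ∀ x ∈ M, g • x - x ∈ M :=
    fun g hg M hM z hz z0 e x hx =>
      sub_mem (dis _ (Lg g hg M hM) M hM z (e ▸ act_mem_act.2 hz) hz z0 ▸ act_mem_act.2 hx) hx
  have prp : ∀ M ∈ L, ∀ N ∈ L, ∀ z ∈ M, z ≠ 0 → z ∈ P.perp N → M ≤ P.perp N := fun M hM N hN' z hz z0 hz' x hx => by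
    obtain ⟨i, hi, i1, i2⟩ := LR N hN'
    refine (LH N hN').fpf hP hH hi i1 i2 (sub_eq_zero.1 ?_)
    by_contra h0
    rw [dis M hM N hN' _ (stab i hi M hM z hz z0 (i2 z hz') x hx) (i2.sub' hP x) h0] at hz
    exact z0 ((LH N hN').eq_zero hz hz')
  have sw : ∀ {M N : Submodule F V}, M ≤ P.perp N → N ≤ P.perp M := fun h x hx y hy => B_swap_zero (h hy x hx)
  have n1 : ∀ N ∈ L, {M | M ∈ L ∧ M ≤ P.perp N}.ncard =
      {M | M ∈ L ∧ M ≤ P.perp (Submodule.span F {v, w} : Set V)}.ncard := by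
    rintro _ ⟨k, hk, rfl⟩
    rw [← Set.ncard_image_of_injective _ (MulAction.injective k⁻¹)]
    congr 1
    ext M
    rw [← smul_perp]
    exact ⟨by
      rintro ⟨N, hN, rfl⟩
      exact ⟨Lg _ (inv_mem hk) N hN.1, (act_le_act k _ _).1 (by simpa using hN.2)⟩,
      fun h => ⟨k • M, ⟨Lg k hk M h.1, (act_le_act k _ _).2 h.2⟩, by simp⟩⟩
  have one : ∀ N ∈ L, ∀ y ∈ N, y ≠ 0 → {M | M ∈ L ∧ y ∈ M}.ncard = 1 := fun N hN y hy y0 =>
    R3.ncard_eq_one_of N ⟨hN, hy⟩ fun M hM => dis M hM.1 N hN y hM.2 hy y0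
  have all : ∀ y, y ≠ 0 → ∃ M ∈ L, y ∈ M := fun y y0 => by
    have := tight_lemma hP (by omega) L (fun M hM => (LH M hM).finrank)
      (c := {M | M ∈ L ∧ M ≤ P.perp (Submodule.span F {v, w} : Set V)}.ncard + 1) (fun z z0 => ?_) y0 v0
    · rw [one _ L0 v (left_mem_span_pair _ _) v0] at this
      exact Set.nonempty_of_ncard_ne_zero (s := {M | M ∈ L ∧ y ∈ M}) (by omega)
    by_cases hz : ∃ N ∈ L, z ∈ N
    · obtain ⟨N, hN, hz⟩ := hz
      rw [one N hN z hz z0, ← n1 N hN, add_comm]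
      congr 2
      ext M
      exact and_congr_right fun hM => ⟨fun h => sw (prp N hN M hM z hz z0 h), fun h => sw h hz⟩
    push Not at hz
    obtain ⟨k, hk, hk'⟩ := hO v z c 1 v0 z0 hc one_ne_zero
    have kL : k • Submodule.span F {v, w} ∈ L := ⟨k, hk, rfl⟩
    have zp : P.B z (k • v) = 0 ∧ P.B z (k • w) = 0 := by
      have a := Sim.smul hk' (inv_mem hk)
      rw [inv_smul_smul] at a
      rw [B_act_right, B_act_right]
      exact (meet' hP hH h2 hB (hs'.symm.trans hs) hc hd (Or.inr hR) a one_ne_zero).resolve_left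
        fun h => hz _ kL (mem_act.2 h)
    have hw' : Sim H z 1 (k • w) d := Sim.trans hk' ((hs.symm.trans hs').smul hk)
    rw [R3.ncard_eq_zero_of (fun M hM => hz M hM.1 hM.2), zero_add, ← n1 _ kL,
      ← Set.ncard_insert_of_notMem (a := k • Submodule.span F {v, w}) fun h => act_ne_zero k v0
        ((LH _ kL).eq_zero (act_mem_act.2 (left_mem_span_pair v w)) (h.2 (act_mem_act.2 (left_mem_span_pair v w))))]
    congr 1
    ext M
    have key : ∀ a b, b ≠ 0 → a ≠ 0 → a ∈ k • Submodule.span F {v, w} → Sim H z 1 a b → P.B z a = 0 → M ∈ L →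
        z ∈ P.perp M → M ≠ k • Submodule.span F {v, w} → ∀ x ∈ M, P.B x a = 0 :=
      fun a b b0 a0 ha hsim hza hM hzM hne x hx => by
        obtain ⟨t, ht, t0, ht'⟩ := exists_perp_two (P := P) (LH M hM).finrank a
        have := stab _ hsim M hM t ht t0 (by
          rw [mul_smul, tv_fix _ ht', tv_inv, tv_fix _ (B_swap_zero (hzM t ht))]) x hx
        rw [mul_smul, tv_inv, tv_fix _ (by simp [tv_smul, B_swap_zero (hzM x hx), B_swap_zero hza]), tv_smul,
          add_sub_cancel_left] at this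
        by_contra h0
        exact hne (dis M hM _ kL a ((M.smul_mem_iff (mul_ne_zero b0 h0)).1 this) ha a0)
    refine ⟨fun h => ?_, ?_⟩
    · by_cases hne : M = k • Submodule.span F {v, w}
      · exact Or.inl hne
      refine Or.inr ⟨h.1, fun x hx => ?_⟩
      rw [smul_span_pair, perp_span, mem_perp_pair]
      exact ⟨key _ c hc (act_ne_zero k v0) (act_mem_act.2 (left_mem_span_pair v w)) hk' zp.1 h.1 h.2 hne x hx,
        key _ d hd (act_ne_zero k w0) (act_mem_act.2 (right_mem_span_pair v w)) hw' zp.2 h.1 h.2 hne x hx⟩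
    · rintro (rfl | h)
      · exact ⟨kL, by rwa [smul_span_pair, perp_span, mem_perp_pair]⟩
      refine ⟨h.1, fun x hx => B_swap_zero ?_⟩
      have hv : ∀ x ∈ M, P.B x (k • v) = 0 := fun x hx => h.2 hx _ (act_mem_act.2 (left_mem_span_pair v w))
      obtain ⟨t, ht, t0, ht'⟩ := exists_perp_two (P := P) (LH M h.1).finrank z
      have := stab _ hk' M h.1 t ht t0 (by rw [mul_smul, tv_fix _ (hv t ht), tv_inv, tv_fix _ ht']) x hx
      rw [mul_smul, tv_fix _ (hv x hx), tv_inv, tv_smul, add_sub_cancel_left] at this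
      by_contra h0
      exact hz M h.1 ((M.smul_mem_iff (by simpa using h0)).1 this)
  choose! D hD hD' using all
  exact trace_lemma hP (by omega) D (fun x x0 => (LH _ (hD x x0)).finrank.le)
    (fun x y x0 y0 hy => sw (prp _ (hD y y0) _ (hD x x0) y (hD' y y0) y0 hy) (hD' x x0))
    fun x x0 h => x0 ((LH _ (hD x x0)).eq_zero (hD' x x0) h)

omit hP h2 h6 hH hO in
theorem cnt_pairs (A : Set V) (D : V → Submodule F V) {m : ℕ}
    (hD : ∀ x ∈ A, x ≠ 0 ∧ x ∈ D x ∧ Nat.card (D x) = m) :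
    {p : V × V | p.1 ∈ A ∧ p.2 ∈ D p.1 ∧ p.2 ∉ F ∙ p.1}.ncard = (m - Nat.card F) * A.ncard :=
  ncard_eq_mul_of_fiber (Set.toFinite _) (Set.toFinite _) Prod.fst (fun _ h => h.1) fun x hx => by
    rw [← (hD x hx).2.2, ← ncard_diff_span (hD x hx).2.1 (hD x hx).1, Nat.add_sub_cancel,
      ← Set.ncard_image_of_injective {z | z ∈ D x ∧ z ∉ F ∙ x} (Prod.mk_right_injective (β := V) x)]
    congr 1
    ext ⟨a, b⟩
    exact ⟨by rintro ⟨h, rfl⟩; exact ⟨b, h.2, rfl⟩, by rintro ⟨z, hz, ⟨⟩⟩; exact ⟨⟨hx, hz⟩, rfl⟩⟩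

omit hP h2 h6 hH hO [Finite F] [Finite V] in
theorem aniso {c d a b : F} (hn : ¬ IsSquare (c * d)) (h : c * a ^ 2 = d * b ^ 2) : a = 0 ∧ b = 0 := by
  have ha : a = 0 := by
    by_contra ha
    exact hn ⟨d * b / a, by field_simp; linear_combination d * h⟩
  have hd : d ≠ 0 := by rintro rfl; simp at hn
  exact ⟨ha, by simpa [ha, hd] using h⟩

omit hP h2 h6 hH hO [Finite F] [Finite V] in
theorem ar_b2 {q r c : ℕ} (hq : 2 ≤ q) (hc : q ^ (r + 4) ≤ c + 1)
    (h : (q ^ 2 - q) * c * ((q ^ (r + 7) - q) * (q ^ (r + 8) - 1)) ≤ ((q ^ 2 - q) * (q ^ (r + 8) - 1)) ^ 2) : False := by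
  have h1 : q < q ^ 2 := by nlinarith
  have h3 : 1 < q ^ (r + 8) := Nat.one_lt_pow (by omega) hq
  have h4 : c * (q ^ (r + 7) - q) ≤ (q ^ 2 - q) * (q ^ (r + 8) - 1) :=
    Nat.le_of_mul_le_mul_left (c := (q ^ 2 - q) * (q ^ (r + 8) - 1)) (by nlinarith) (Nat.mul_pos (by omega) (by omega))
  have h5 : q ^ 4 ≤ c + 1 := (Nat.pow_le_pow_right (by omega) (by omega)).trans hc
  have h6 : q ^ 7 ≤ q ^ (r + 7) := Nat.pow_le_pow_right (by omega) (by omega)
  have h7 : q ≤ q ^ 7 := Nat.le_self_pow (by omega) q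
  have h8 : (q ^ 4 - 1) * (q ^ (r + 7) - q) ≤ q ^ 2 * (q * q ^ (r + 7)) :=
    (Nat.mul_le_mul_right _ (by omega)).trans (h4.trans (Nat.mul_le_mul (by omega) (by
      rw [← pow_succ']; exact Nat.sub_le _ _)))
  generalize q ^ (r + 7) = X at h6 h8
  have h9 : 1 ≤ q ^ 4 := Nat.one_le_pow _ _ (by omega)
  zify [h9, h7.trans h6] at h8 h6 hq
  have a1 : (q : ℤ) ^ 3 * 2 ≤ q ^ 4 := by rw [pow_succ _ 3]; gcongr
  have a2 : (8 : ℤ) ≤ q ^ 3 := by calc (8 : ℤ) = 2 ^ 3 := by norm_num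
                                     _ ≤ _ := by gcongr
  have a3 : (q : ℤ) ^ 5 ≤ q ^ 7 := pow_le_pow_right₀ (by omega) (by omega)
  nlinarith

theorem b2_u (hA : AV H) (hU : ∀ v w c d, v ≠ 0 → w ≠ 0 → c ≠ 0 → d ≠ 0 → Sim H v c w d → P.B v w = 0) : False := by
  classical
  have : FiniteDimensional F V := Module.Finite.of_finite
  let E : Submodule F V → Prop := fun W => ∃ v w c d, v ≠ 0 ∧ w ≠ 0 ∧ ¬ IsSquare (c * d) ∧ Sim H v c w d ∧
    W = Submodule.span F {v, w}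
  have nz : ∀ {c d : F}, ¬ IsSquare (c * d) → c ≠ 0 ∧ d ≠ 0 := fun h =>
    ⟨by rintro rfl; simp at h, by rintro rfl; simp at h⟩
  have Ed : ∀ W, E W → finrank F W = 2 := by
    rintro _ ⟨v, w, c, d, v0, -, hn, hs, rfl⟩
    have := finrank_span_eq_card (li_of_notMem (F := F) v0 (y := w) fun h => by
      obtain ⟨a, rfl⟩ := Submodule.mem_span_singleton.1 h
      rw [Sim, tv_smul_left, tv_inv, tv_mul] at hs
      exact one_ne_zero (aniso (a := 1) (b := a) hn (by
        linear_combination -(hH _ _ hs).resolve_left v0)).1)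
    rwa [Matrix.range_cons_cons_empty] at this
  have Eg : ∀ g ∈ H, ∀ W, E W → E (g • W) := by
    rintro g hg _ ⟨v, w, c, d, v0, w0, hn, hs, rfl⟩
    exact ⟨_, _, c, d, act_ne_zero g v0, act_ne_zero g w0, hn, hs.smul hg, smul_span_pair _ _ _⟩
  have Et : ∀ W, E W → W ≤ P.perp W := by
    rintro _ ⟨v, w, c, d, v0, w0, hn, hs, rfl⟩
    have := hU v w c d v0 w0 (nz hn).1 (nz hn).2 hs
    rw [perp_span, Submodule.span_le]
    rintro _ (rfl | rfl) <;> simp [mem_perp_pair, sp_B_self, this, B_swap_zero this]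
  obtain ⟨ν, hν⟩ := FiniteField.exists_nonsquare (F := F) fun e => h2 (by
    have := ringChar.of_eq e; exact CharTwo.two_eq_zero)
  have Ex : ∀ x, x ≠ 0 → ∃ W, E W ∧ x ∈ W := fun x x0 => by
    obtain ⟨k, -, hk⟩ := hO x x ν 1 x0 x0 (by rintro rfl; simp at hν) one_ne_zero
    exact ⟨_, ⟨x, _, 1, ν, x0, act_ne_zero k x0, by simpa, hk, rfl⟩, left_mem_span_pair _ _⟩
  have K : ∀ W, E W → ∀ W', E W' → ∀ z ∈ W', z ≠ 0 → z ∈ P.perp W → W' ≤ P.perp W := by
    rintro _ ⟨v, w, c, d, v0, w0, hn, hs, rfl⟩ _ ⟨v', w', c', d', v0', w0', hn', hs', rfl⟩ z hz z0 hz'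
    obtain ⟨m, n, rfl⟩ := Submodule.mem_span_pair.1 hz
    have b := hU v w c d v0 w0 (nz hn).1 (nz hn).2 hs
    have b' := hU v' w' c' d' v0' w0' (nz hn').1 (nz hn').2 hs'
    have hΔ : d' * m ^ 2 - c' * n ^ 2 ≠ 0 := fun e => by
      have := aniso hn' (sub_eq_zero.1 e).symm
      simp [this.1, this.2] at z0
    have e1 : (d' * m ^ 2 - c' * n ^ 2) • v' =
      (d' * m) • (m • v' + n • w') - n • ((c' * n) • v' + (d' * m) • w') := by module
    have e2 : (d' * m ^ 2 - c' * n ^ 2) • w' =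
      m • ((c' * n) • v' + (d' * m) • w') - (c' * n) • (m • v' + n • w') := by module
    have s1 : Sim H (m • v' + n • w') (c' * d' / (d' * m ^ 2 - c' * n ^ 2)) ((c' * n) • v' + (d' * m) • w')
        (1 / (d' * m ^ 2 - c' * n ^ 2)) := by
      rw [Sim] at hs' ⊢
      convert hs' using 1
      refine iso_ext fun x => ?_
      simp only [mul_smul, tv_inv, tv_smul, map_add, map_smul, LinearMap.add_apply, LinearMap.smul_apply,
        smul_eq_mul, sp_B_self, b', B_swap_zero b']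
      match_scalars <;> field_simp <;> ring
    have sz := fx_sim (left_mem_span_pair (F := F) v w) (right_mem_span_pair v w) c d _ hz'
    generalize (c' * n) • v' + (d' * m) • w' = z1 at e1 e2 s1
    have z1p : z1 ∈ P.perp (Submodule.span F {v, w} : Set V) := by
      by_cases z10 : z1 = 0
      · simp [z10]
      have s2 := s1.smul hs
      rw [sz] at s2
      have := hU _ _ _ _ (act_ne_zero _ z10) z10 (one_div_ne_zero hΔ) (one_div_ne_zero hΔ) (s2.symm.trans s1)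
      simp only [mul_smul, tv_inv, tv_smul, map_add, map_smul, LinearMap.add_apply, LinearMap.smul_apply,
        smul_eq_mul, sp_B_self, B_swap_zero b, sp_swap z1 v, sp_swap z1 w] at this
      rw [perp_span, mem_perp_pair]
      exact aniso hn (by linear_combination this)
    rw [Submodule.span_le]
    rintro _ (rfl | rfl)
    · exact (Submodule.smul_mem_iff _ hΔ).1 (e1 ▸ sub_mem (Submodule.smul_mem _ _ hz') (Submodule.smul_mem _ _ z1p))
    · exact (Submodule.smul_mem_iff _ hΔ).1 (e2 ▸ sub_mem (Submodule.smul_mem _ _ z1p) (Submodule.smul_mem _ _ hz'))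
  have sw : ∀ {M N : Submodule F V}, M ≤ P.perp N → N ≤ P.perp M := fun h x hx y hy => B_swap_zero (h hy x hx)
  have Eu : ∀ W, E W → ∀ W', E W' → ∀ z ∈ W, z ∈ W' → z ≠ 0 → W' = W := fun W hW W' hW' z hz hz' z0 =>
    Submodule.eq_of_le_of_finrank_eq (by
      rw [← perp_perp hP W]
      refine sw fun y hy => ?_
      by_cases y0 : y = 0
      · simp [y0]
      obtain ⟨W'', h1, h3⟩ := Ex y y0
      exact sw (K _ h1 _ hW' z hz' z0 (sw (K _ hW _ h1 y h3 y0 hy) hz)) h3) (by rw [Ed _ hW, Ed _ hW'])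
  choose! D hD hD' using Ex
  have : Nontrivial V := Module.nontrivial_of_finrank_pos (R := F) (by omega)
  by_cases h7 : finrank F V = 6
  · obtain ⟨a, a0⟩ := exists_ne (0 : V)
    obtain ⟨x, hx⟩ := hP.exists_eq' a0 1
    have x0 : x ≠ 0 := by rintro rfl; simp at hx
    have np : ¬ D x ≤ P.perp (D a) := fun h => by simpa [hx] using h (hD' x x0) a (hD' a a0)
    have d0 : D a ⊓ D x = ⊥ := (Submodule.eq_bot_iff _).2 fun z hz => by
      by_contra z0
      exact np (K _ (hD a a0) _ (hD x x0) z hz.2 z0 (Et _ (hD a a0) hz.1))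
    have d1 := Submodule.finrank_sup_add_finrank_inf_eq (D a) (D x)
    rw [d0, finrank_bot, Ed _ (hD a a0), Ed _ (hD x x0)] at d1
    have d2 := finrank_perp hP (D a ⊔ D x)
    have : Nontrivial (P.perp ((D a ⊔ D x : Submodule F V) : Set V)) :=
      Module.nontrivial_of_finrank_pos (R := F) (by omega)
    obtain ⟨⟨y, hy⟩, y0⟩ := exists_ne (0 : P.perp ((D a ⊔ D x : Submodule F V) : Set V))
    have y0 : y ≠ 0 := fun e => y0 (Subtype.ext e)
    have y1 : y ∈ P.perp (D a) := fun s hs => hy s (Submodule.mem_sup_left hs)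
    have y2 : y ∈ P.perp (D x) := fun s hs => hy s (Submodule.mem_sup_right hs)
    have d3 : D y = P.perp ((D a ⊔ D x : Submodule F V) : Set V) := Submodule.eq_of_le_of_finrank_eq
      (sw (sup_le (sw (K _ (hD a a0) _ (hD y y0) y (hD' y y0) y0 y1))
        (sw (K _ (hD x x0) _ (hD y y0) y (hD' y y0) y0 y2)))) (by rw [Ed _ (hD y y0)]; omega)
    have y3 := Et _ (hD y y0) (hD' y y0)
    rw [d3, perp_perp hP] at y3
    obtain ⟨s, hs, t, ht, rfl⟩ := Submodule.mem_sup.1 y3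
    by_cases t0 : t = 0
    · rw [t0, add_zero] at y0 y2
      exact np (sw (K _ (hD x x0) _ (hD a a0) s hs y0 y2))
    · exact np (K _ (hD a a0) _ (hD x x0) t ht t0 (by simpa using sub_mem y1 (Et _ (hD a a0) hs)))
  obtain ⟨r, hr⟩ : ∃ r, finrank F V = r + 8 := by
    obtain ⟨k, hk⟩ := sp_even_finrank hP
    exact ⟨finrank F V - 8, by omega⟩
  have cD : ∀ x, x ≠ 0 → Nat.card (D x) = Nat.card F ^ 2 := fun x x0 => by rw [card_submodule, Ed _ (hD x x0)]
  have cV : {x : V | x ≠ 0}.ncard = Nat.card F ^ (r + 8) - 1 := by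
    rw [← hr, ← Module.natCard_eq_pow_finrank (K := F) (V := V), ← Set.ncard_singleton (0 : V), ← Set.ncard_compl]; rfl
  have cl : ∀ v : V, ∃ A : Submodule F V, finrank F A ≤ 2 ∧ v ∈ A ∧ ∀ x ∈ P.perp A, x ≠ 0 → D x ≤ P.perp A := fun v => by
    by_cases v0 : v = 0
    · exact ⟨⊥, by simp, by simp [v0], fun x _ _ y _ => by simp [mem_perp]⟩
    · exact ⟨D v, (Ed _ (hD v v0)).le, hD' v v0, fun x hx x0 => K _ (hD v v0) _ (hD x x0) x (hD' x x0) x0 hx⟩
  have Dg : ∀ g ∈ H, ∀ x, x ≠ 0 → D (g • x) = g • D x := fun g hg x x0 =>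
    Eu _ (Eg g hg _ (hD x x0)) _ (hD _ (act_ne_zero g x0)) _ (act_mem_act.2 (hD' x x0)) (hD' _ (act_ne_zero g x0))
      (act_ne_zero g x0)
  have main := avg (G := P.Iso) (S := {p : V × V | p.1 ∈ {x | x ≠ 0} ∧ p.2 ∈ D p.1 ∧ p.2 ∉ F ∙ p.1})
    (T := {p : V × V | p.1 ∈ {x | x ≠ 0} ∧ p.2 ∈ P.perp {p.1} ∧ p.2 ∉ F ∙ p.1})
    (m := (Nat.card F ^ 2 - Nat.card F) * (Nat.card F ^ (r + 4) - 1))
    (fun p hp => ⟨hp.1, mem_perp_singleton.2 (Et _ (hD _ hp.1) hp.2.1 _ (hD' _ hp.1)), hp.2.2⟩)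
    (fun g p hp => ⟨act_ne_zero g hp.1, mem_perp_singleton.2 (by simpa using mem_perp_singleton.1 hp.2.1), by
      rw [Prod.smul_fst, Prod.smul_snd, ← smul_span_one, act_mem_act]; exact hp.2.2⟩)
    (fun a ha b hb => by
      obtain ⟨g, -, hg⟩ := sp_vTrans hP a.1 b.1 trivial trivial ha.1 hb.1
      obtain ⟨k, k1, k2⟩ := sp_step hP (F ∙ b.1) (u := g • a.2) (u' := b.2)
        (by rw [← hg, ← smul_span_one, act_mem_act]; exact ha.2.2) hb.2.2 (B_eq_of_span (by
          rintro _ rfl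
          rw [B_swap_zero (mem_perp_singleton.1 hb.2.1), ← hg, B_smul_smul, B_swap_zero (mem_perp_singleton.1 ha.2.1)]))
      exact ⟨k * g, Prod.ext (by rw [Prod.smul_fst, mul_smul, hg, k1 _ (Submodule.mem_span_singleton_self _)])
        (by rw [Prod.smul_snd, mul_smul, k2])⟩) fun g => by
      obtain ⟨k, hk, v, w, hf⟩ := hA g
      obtain ⟨A, a1, a2, a3⟩ := cl v
      obtain ⟨B, b1, b2, b3⟩ := cl w
      have c1 := ncard_ne_zero_addSubgroup (P.perp A ⊓ P.perp B).toAddSubgroup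
      change _ = Nat.card (P.perp A ⊓ P.perp B : Submodule F V) at c1
      have c2 : Nat.card F ^ (r + 4) ≤ Nat.card (P.perp A ⊓ P.perp B : Submodule F V) := by
        rw [card_submodule]
        have := Submodule.finrank_sup_add_finrank_inf_eq (P.perp (A : Set V)) (P.perp (B : Set V))
        have := Submodule.finrank_le (P.perp (A : Set V) ⊔ P.perp (B : Set V))
        have := finrank_perp hP A
        have := finrank_perp hP B
        exact Nat.pow_le_pow_right Nat.card_pos (by omega)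
      refine (Nat.mul_le_mul_left _ (show _ ≤ {x | x ∈ (P.perp A ⊓ P.perp B).toAddSubgroup ∧ x ≠ 0}.ncard by
        omega)).trans ?_
      rw [← cnt_pairs _ D fun x hx => ⟨hx.2, hD' x hx.2, cD x hx.2⟩]
      refine Set.ncard_le_ncard_of_injOn (k • ·) (fun p hp => ⟨⟨act_ne_zero k hp.1.2, ?_, ?_⟩, ?_⟩)
        (MulAction.injective k).injOn
      · rw [Prod.smul_fst, Prod.smul_snd, Dg k hk _ hp.1.2, act_mem_act]; exact hp.2.1
      · rw [Prod.smul_fst, Prod.smul_snd, ← smul_span_one, act_mem_act]; exact hp.2.2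
      · have fx : ∀ z ∈ P.perp A ⊓ P.perp B, (g * k) • z = z := fun z hz =>
          hf z (mem_perp_pair.2 ⟨hz.1 v a2, hz.2 w b2⟩)
        rw [← mul_smul, show (g * k) • p = p from Prod.ext (fx _ hp.1.1)
          (fx _ ⟨a3 _ hp.1.1.1 hp.1.2 hp.2.1, b3 _ hp.1.1.2 hp.1.2 hp.2.1⟩)]
        exact ⟨hp.1.2, hp.2⟩
  rw [cnt_pairs {x | x ≠ 0} D fun x hx => ⟨hx, hD' x hx, cD x hx⟩, cnt_pairs {x | x ≠ 0} (fun x => P.perp {x}) (m := Nat.card F ^ (r + 7))
    fun x hx => ⟨hx, mem_perp_singleton.2 (sp_B_self x), by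
      have d := finrank_perp hP (F ∙ x)
      rw [finrank_span_singleton hx, perp_span] at d
      rw [card_submodule]; congr 1; omega⟩, cV] at main
  exact ar_b2 two_le_card (by omega) main

theorem caseB2 (hA : AV H) : False := by
  refine b2_u hP h2 h6 hH hO hA fun v w c d v0 w0 hc hd hs => ?_
  by_contra hB
  have hE : ∀ {v w : V} {c d : F}, P.B v w ≠ 0 → c ≠ 0 → d ≠ 0 → Sim H w d v c →
      ∀ u e, u ≠ 0 → e ≠ 0 → Sim H u e v c → P.B u v = 0 → P.B u w ≠ 0 := fun hB hc hd hs u e u0 _ hs' h1 h3 =>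
    b2_e1 hP h2 h6 hH hO hB hc hd hs' (hs'.trans hs.symm) u0 h1 h3
  have sp : ∀ {v w : V} {c d : F}, P.B v w ≠ 0 → Sim H w d v c → IsSquare (c * d) := fun {v w c d} hB hs => by
    by_contra hn
    exact b2_special hP h2 h6 hH hO hB hs hn (hE hB (by rintro rfl; simp at hn) (by rintro rfl; simp at hn) hs)
  obtain ⟨ν, hν⟩ := FiniteField.exists_nonsquare (F := F) fun e => h2 (by
    have := ringChar.of_eq e; exact CharTwo.two_eq_zero)
  have ν0 : ν ≠ 0 := by rintro rfl; simp at hν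
  obtain ⟨k, -, hk⟩ := hO v v (c * ν) c v0 v0 (mul_ne_zero hc ν0) hc
  by_cases h1 : P.B (k • v) v = 0
  · obtain ⟨a, ha⟩ := sp (hE hB hc hd hs.symm _ _ (act_ne_zero k v0) (mul_ne_zero hc ν0) (Sim.symm hk) h1)
      (hs.symm.trans hk)
    obtain ⟨b, hb⟩ := sp hB hs.symm
    have b0 : b ≠ 0 := by rintro rfl; simp [hc, hd] at hb
    exact hν ⟨a / b, by field_simp; linear_combination ha - ν * hb⟩
  · obtain ⟨a, ha⟩ := sp h1 hk
    exact hν ⟨a / c, by field_simp; linear_combination ha⟩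

end Cfsg.Agent.SR
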