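import Cfsg.Agent.SR.Base
import Cfsg.Agent.Chev.Dickson
import Mathlib.FieldTheory.IsAlgClosed.AlgebraicClosure

/-! Two opposite transvections of `SL₂` in odd characteristic generate a group containing `-1`. -/

set_option autoImplicit false

namespace Cfsg.Agent.SR

open Equiv Cfsg.Agent.Stein Cfsg.Agent.Chev Matrix OnePoint
open scoped MatrixGroups

theorem arith_odd {q m k n : ℕ} (hq : 3 ≤ q) (hm : 0 < m) (hk : k ≤ q - 1) (hk0 : 0 < k)
    (h : (2 + (1 + m * q) * (q - 2)) * n = (1 + m * q) * (q * k)) : Even ((1 + m * q) * (q * k)) := by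
  by_contra hc
  rw [Nat.not_even_iff_odd, Nat.odd_mul, Nat.odd_mul, Nat.odd_add', Nat.odd_mul] at hc
  have hm2 : 2 ≤ m := by
    by_contra h2
    obtain rfl : m = 1 := by omega
    simp [hc.2.1] at hc
  have hm3 : Even m := by
    by_contra h2
    simp [hc.2.1, Nat.not_even_iff_odd.1 h2] at hc
  obtain ⟨r, rfl⟩ : ∃ r, q = r + 3 := ⟨q - 3, by omega⟩
  rw [show r + 3 - 2 = r + 1 by omega] at h
  have h1 : (1 + m * (r + 1)) * n = (1 + m * (r + 1)) * k + 2 * m * k :=
    Nat.eq_of_mul_eq_mul_left (show 0 < r + 3 by omega) (by linarith)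
  have h2 : 1 + m * (r + 1) ∣ 2 * k * m := (Nat.dvd_add_right (dvd_mul_right _ k)).1 (by
    rw [mul_right_comm, ← h1]; exact dvd_mul_right _ _)
  have h3 : 1 + m * (r + 1) ∣ 2 * k := Nat.Coprime.dvd_of_dvd_mul_right (by simp) h2
  have h4 := Nat.le_of_dvd hk0 (Nat.Coprime.dvd_of_dvd_mul_left
    (Nat.coprime_two_right.2 (hm3.mul_right _).one_add) h3)
  have h5 : 2 * (r + 1) ≤ m * (r + 1) := Nat.mul_le_mul_right _ hm2
  obtain rfl : r = 0 := by omega
  obtain ⟨s, rfl⟩ := hc.2.2
  omega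

theorem sl2_invol {k : Type*} [Field k] (h2 : (2 : k) ≠ 0) {A : SL(2, k)} (h : A * A = 1) (h1 : A ≠ 1) :
    A = -1 := by
  have e : A.1 * A.1 = 1 := congrArg Subtype.val h
  have e00 := congrFun (congrFun e 0) 0
  have e01 := congrFun (congrFun e 0) 1
  have e10 := congrFun (congrFun e 1) 0
  have e11 := congrFun (congrFun e 1) 1
  simp [Matrix.mul_apply, Fin.sum_univ_two] at e00 e01 e10 e11
  have d := det_eq A
  have t : A 0 0 + A 1 1 ≠ 0 := fun t => h2 (by linear_combination A 0 0 * t - e00 - d)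
  have b : A 0 1 = 0 := mul_left_cancel₀ t (by linear_combination e01)
  have c : A 1 0 = 0 := mul_left_cancel₀ t (by linear_combination e10)
  have a : A 1 1 = A 0 0 := by linear_combination A 0 0 * d - A 1 1 * e00 + (A 0 0 * A 1 0 + A 1 1 * A 1 0) * b
  rw [b, zero_mul, add_zero, mul_self_eq_one_iff] at e00
  rcases e00 with e | e
  · exact absurd (Subtype.ext (by rw [eta_fin_two A.1, a, b, c, e]; simp [one_fin_two])) h1
  · exact Subtype.ext (by rw [eta_fin_two A.1, a, b, c, e]; ext i j; fin_cases i <;> fin_cases j <;> simp)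

theorem neg_mem_closed {k : Type*} [Field k] [IsAlgClosed k] (p : ℕ) [Fact p.Prime] [CharP k p] (hp : p ≠ 2)
    (Γ : Subgroup SL(2, k)) [Finite Γ] {a μ : k} (ha : a ≠ 0) (hX0 : sl2X k a ∈ Γ)
    (hY : sl2Y k μ ∈ Γ) (hμ : μ ≠ 0) : -1 ∈ Γ := by
  classical
  have h2 : (2 : k) ≠ 0 := fun h => hp ((Nat.prime_dvd_prime_iff_eq Fact.out Nat.prime_two).1
    ((CharP.cast_eq_zero_iff k p 2).1 h))
  have : NeZero (2 : k) := ⟨h2⟩
  let Δ := Γ.map rho
  have : Finite Δ := Finite.of_surjective _ (rho.subgroupMap_surjective Γ)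
  have : Fintype Δ := Fintype.ofFinite Δ
  let E : AddSubgroup k :=
    { carrier := {t | rho (sl2X k t) ∈ Δ}
      zero_mem' := by
        show rho _ ∈ Δ
        rw [(aff_X (0 : k)).ext aff_one]; exact one_mem _
      add_mem' := fun {s t} hs ht => by
        show rho _ ∈ Δ
        rw [(aff_X (s + t)).ext (by simpa [add_comm] using (aff_X s).mul (aff_X t))]
        exact mul_mem hs ht
      neg_mem' := fun {s} hs => by
        show rho _ ∈ Δ
        rw [show sl2X k (-s) = _ from (sl2Std k).x_neg s, map_inv]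
        exact inv_mem hs }
  let τ : E → Δ := fun t => ⟨rho (sl2X k t), t.2⟩
  have hτi : Function.Injective τ := fun s t e =>
    Subtype.ext ((aff_X (s : k)).unique (by rw [show rho _ = _ from congrArg Subtype.val e]; exact aff_X _)).2
  have : Finite E := Finite.of_injective τ hτi
  have : Fintype E := Fintype.ofFinite E
  have haE : a ∈ E := ⟨_, hX0, rfl⟩
  have hpE : p ∣ Fintype.card E := by
    rw [← addOrderOf_eq_prime (x := (⟨a, haE⟩ : E)) (p := p) (Subtype.ext (by simp))
      (fun e => ha (congrArg Subtype.val e))]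
    exact addOrderOf_dvd_card
  have hq : 3 ≤ Fintype.card E := by
    have := (Fact.out : p.Prime).two_le
    have := Nat.le_of_dvd Fintype.card_pos hpE
    omega
  have hE0 : Nat.card {t : E // t ≠ 0} + 1 = Fintype.card E := by
    rw [← Finite.card_option, Nat.card_congr (Equiv.optionSubtypeNe _), Nat.card_eq_fintype_card]
  have hA : ∀ g : MulAction.stabilizer Δ (∞ : OnePoint k), ∃ a b, Aff g.1.1 a b := by
    rintro ⟨⟨_, A, hA, rfl⟩, h⟩
    exact ⟨_, _, (aff_rho h).2⟩
  choose c b hab using hA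
  let χ : MulAction.stabilizer Δ (∞ : OnePoint k) →* k :=
    { toFun := c
      map_one' := ((hab 1).unique aff_one).1
      map_mul' := fun g h => ((hab (g * h)).unique ((hab g).mul (hab h))).1 }
  have hτ : ∀ t, τ t • (∞ : OnePoint k) = ∞ := fun t => (aff_X _).2.1
  have hτs : ∀ g, c g = 1 → ∃ t, τ t = g.1 := fun g h => by
    have e := (aff_X (b g)).ext (by simpa [h] using hab g)
    exact ⟨⟨b g, by show rho _ ∈ Δ; rw [e]; exact g.1.2⟩, Subtype.ext e⟩
  have h3 : Nat.card χ.toHomUnits.ker = Fintype.card E := by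
    rw [← Nat.card_eq_fintype_card]
    refine (Nat.card_congr (Equiv.ofBijective (fun t => ⟨⟨τ t, hτ t⟩, Units.ext
      ((hab ⟨τ t, hτ t⟩).unique (aff_X _)).1⟩) ⟨fun s t e => hτi (congrArg (·.1.1) e), fun g => ?_⟩)).symm
    obtain ⟨t, ht⟩ := hτs g.1 (congrArg Units.val g.2)
    exact ⟨t, Subtype.ext (Subtype.ext ht)⟩
  have h4 : stb Δ (∞ : OnePoint k) = Fintype.card E * Nat.card χ.toHomUnits.range := by
    rw [stb_eq_card, ← χ.toHomUnits.ker.card_mul_index, Subgroup.index_ker, h3]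
  have hca : ∀ g, c g * a ∈ E := fun g => by
    have e1 := (hab g).mul (aff_X a)
    have e2 := (aff_X (c g * a)).mul (hab g)
    simp only [mul_one, one_mul] at e1 e2
    rw [add_comm] at e2
    show rho _ ∈ Δ
    rw [eq_mul_inv_of_mul_eq (e2.ext e1)]
    exact mul_mem (mul_mem g.1.2 haE) (inv_mem g.1.2)
  have h5 : Nat.card χ.toHomUnits.range ≤ Fintype.card E - 1 := by
    rw [← hE0, Nat.add_sub_cancel]
    choose g hg using fun u : χ.toHomUnits.range => u.2
    refine Nat.card_le_card_of_injective (fun u => ⟨⟨_, hca (g u)⟩, fun e =>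
      mul_ne_zero (hab _).1 ha (congrArg Subtype.val e)⟩) fun u v e => Subtype.ext ?_
    rw [← hg, ← hg]
    exact Units.ext (mul_right_cancel₀ ha (congrArg (·.1.1) e))
  let O : Set k := {x | (x : OnePoint k) ∈ orb Δ (∞ : OnePoint k)}
  have hO : O = QuotientAddGroup.mk ⁻¹' (QuotientAddGroup.mk '' O : Set (k ⧸ E)) := by
    refine (Set.subset_preimage_image _ _).antisymm ?_
    rintro x ⟨y, hy, e⟩
    have := smul_mem_orb hy (τ ⟨_, QuotientAddGroup.eq.1 e⟩)
    rw [show τ _ • _ = _ from (aff_X _).2.2 y] at this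
    simpa [O] using this
  have h6 : (orb Δ (∞ : OnePoint k)).card =
      1 + Nat.card (QuotientAddGroup.mk '' O : Set (k ⧸ E)) * Fintype.card E := by
    rw [mul_comm, ← Nat.card_eq_fintype_card,
      ← Nat.card_prod, ← Nat.card_congr (QuotientAddGroup.preimageMkEquivAddSubgroupProdSet _ _), ← hO, Nat.card_coe_set_eq,
      ← Set.ncard_image_of_injective _ coe_injective, ← Set.ncard_coe_finset, add_comm,
      ← Set.ncard_insert_of_notMem (a := ∞) (by simp) (((orb Δ ∞).finite_toSet).subset (by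
        rintro _ ⟨x, hx, rfl⟩; exact hx))]
    congr 1
    ext x
    cases x with
    | infty => simp [self_mem_orb]
    | coe x => simp [O]
  have h7 : μ⁻¹ ∈ O := mem_orb.2 ⟨⟨_, _, hY, rfl⟩, show rho _ _ = _ by simp [rho_infty, Y_val, hμ]⟩
  have hOf : O.Finite := ((orb Δ ∞).finite_toSet).preimage coe_injective.injOn
  have := (hOf.image (QuotientAddGroup.mk : k → k ⧸ E)).to_subtype
  have hm : 0 < Nat.card (QuotientAddGroup.mk '' O : Set (k ⧸ E)) :=
    Nat.card_pos_iff.2 ⟨⟨⟨_, _, h7, rfl⟩⟩, inferInstance⟩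
  rcases count_orbits (Γ := Δ) (∞ : OnePoint k) (Fintype.card E) (by omega) (by
    rintro ⟨_, A, hA, rfl⟩ hg
    rcases tri_rho p A with h | ⟨h, x, h'⟩ | h
    · exact absurd (Subtype.ext h) hg
    · obtain ⟨y, hy⟩ := Perm.exists_fixed_point_of_prime (p := p) (n := 1) (α := orb Δ (∞ : OnePoint k)) (by
          rw [Fintype.card_coe, h6, Nat.dvd_add_left (Dvd.dvd.mul_left hpE _)]
          exact (Fact.out : p.Prime).not_dvd_one)
        (σ := (rho A).subtypePerm fun x => ⟨fun h => by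
          simpa [Subgroup.smul_def] using smul_mem_orb h (⟨_, A, hA, rfl⟩ : Δ)⁻¹, fun h => smul_mem_orb h (⟨_, A, hA, rfl⟩ : Δ)⟩)
        (by simp only [Perm.subtypePerm_pow, h, pow_one]; rfl)
      exact Or.inl ⟨x, (h' y).1 (congrArg Subtype.val hy) ▸ y.2, h'⟩
    · exact Or.inr h) (by
    rw [← hE0]
    congr 1
    refine (Nat.card_congr (Equiv.ofBijective (fun t => ⟨τ t.1, fun e => t.2 (hτi (e.trans
      (Subtype.ext (aff_one.ext (aff_X 0))))), (aff_X _).fix_one (fun e => t.2 (Subtype.ext e))⟩)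
        ⟨fun s t e => Subtype.ext (hτi (congrArg (·.1) e)), ?_⟩)).symm
    rintro ⟨g, h1, h⟩
    obtain ⟨t, rfl⟩ := hτs ⟨g, (h _).2 rfl⟩ (by
      by_contra e
      exact coe_ne_infty _ ((h _).1 (((hab ⟨g, (h _).2 rfl⟩).fix_ne e _).2 (Or.inr rfl))))
    exact ⟨⟨t, by rintro rfl; exact h1 (Subtype.ext ((aff_X 0).ext aff_one))⟩, rfl⟩) with h | ⟨y, h, h'⟩
  · rw [← orb_mul_stb (∞ : OnePoint k)] at h
    have := Nat.le_of_dvd two_pos ((Nat.dvd_add_left (dvd_mul_right _ _)).1 (h ▸ dvd_mul_right _ _))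
    nlinarith
  have h8 := orb_mul_stb (Γ := Δ) y
  rw [← orb_mul_stb (∞ : OnePoint k), h, h4, h6] at h8
  have h9 := arith_odd hq hm h5 Nat.card_pos h8
  rw [← h6, ← h4, orb_mul_stb, ← Nat.card_eq_fintype_card] at h9
  obtain ⟨A, hA⟩ := exists_prime_orderOf_dvd_card' (G := Γ) 2 (h9.two_dvd.trans (Subgroup.card_map_dvd _ _))
  have h10 := pow_orderOf_eq_one A
  rw [hA, sq] at h10
  rw [← sl2_invol h2 (A := A.1) (congrArg Subtype.val h10) fun e => by
    rw [show A = 1 from Subtype.ext e] at hA; simp at hA]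
  exact A.2

theorem neg_mem_closure {F : Type*} [Field F] [Finite F] (h2 : (2 : F) ≠ 0) {a b : F} (ha : a ≠ 0) (hb : b ≠ 0) :
    (-1 : SL(2, F)) ∈ Subgroup.closure {sl2X F a, sl2Y F b} := by
  obtain ⟨p, hp⟩ := CharP.exists F
  have : Fact p.Prime := ⟨CharP.char_is_prime F p⟩
  let K := AlgebraicClosure F
  let φ := SpecialLinearGroup.map (n := Fin 2) (algebraMap F K)
  have hφ : Function.Injective φ := fun A B e => Subtype.ext (Matrix.map_injective (algebraMap F K).injective
    (congrArg Subtype.val e))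
  have : Finite ((Subgroup.closure {sl2X F a, sl2Y F b}).map φ) :=
    Finite.of_surjective _ (φ.subgroupMap_surjective _)
  obtain ⟨A, hA, e⟩ := neg_mem_closed p (by rintro rfl; exact h2 (CharP.cast_eq_zero F 2))
    ((Subgroup.closure {sl2X F a, sl2Y F b}).map φ) (a := algebraMap F K a) (μ := algebraMap F K b)
    (by simpa using ha) ⟨sl2X F a, Subgroup.subset_closure (by simp), Subtype.ext (by
      ext i j; fin_cases i <;> fin_cases j <;> simp [φ, X_val])⟩
    ⟨sl2Y F b, Subgroup.subset_closure (by simp), Subtype.ext (by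
      ext i j; fin_cases i <;> fin_cases j <;> simp [φ, Y_val])⟩ (by simpa using hb)
  rwa [← hφ (e.trans (show _ = φ (-1) from Subtype.ext (by
    ext i j; fin_cases i <;> fin_cases j <;> simp [φ])))]

open Module Cfsg.Agent.Polar Cfsg.Agent.Polar.PQ

variable {F : Type*} [Field F] {V : Type*} [AddCommGroup V] [Module F V] {P : PQ (spFP F) V}

theorem exists_neg [Finite F] (h2 : (2 : F) ≠ 0) (K : Subgroup P.Iso) (R : Submodule F V)
    (hR : ∀ g ∈ K, ∀ r ∈ R, g • r ∈ R) {e f : V} {g g' : P.Iso} (hg : g ∈ K) (hg' : g' ∈ K) {a b : F}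
    (ha : a ≠ 0) (hb : b ≠ 0) (h1 : g • e - e ∈ R) (h3 : g • f - (f + a • e) ∈ R) (h4 : g' • f - f ∈ R)
    (h5 : g' • e - (e + b • f) ∈ R) : ∃ i ∈ K, i • e + e ∈ R ∧ i • f + f ∈ R := by
  have key : ∀ A ∈ Submonoid.closure {sl2X F a, sl2Y F b}, ∃ i ∈ K,
      i • e - (A 0 0 • e + A 1 0 • f) ∈ R ∧ i • f - (A 0 1 • e + A 1 1 • f) ∈ R := by
    intro A hA
    induction hA using Submonoid.closure_induction with
    | mem A hA =>
      rcases hA with rfl | rfl
      · exact ⟨g, hg, by simpa [X_val] using h1, by simpa [X_val, add_comm] using h3⟩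
      · exact ⟨g', hg', by simpa [Y_val] using h5, by simpa [Y_val] using h4⟩
    | one => exact ⟨1, one_mem _, by simp, by simp⟩
    | mul A B _ _ iA iB =>
      obtain ⟨i, hi, a1, a2⟩ := iA
      obtain ⟨j, hj, b1, b2⟩ := iB
      have e' : ∀ r s, (A * B) r s = A r 0 * B 0 s + A r 1 * B 1 s := fun r s => by
        simp [Matrix.mul_apply, Fin.sum_univ_two]
      refine ⟨i * j, mul_mem hi hj, ?_, ?_⟩
      · convert add_mem (hR i hi _ b1) (add_mem (R.smul_mem (B 0 0) a1) (R.smul_mem (B 1 0) a2)) using 1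
        simp only [mul_smul i j, act_sub, smul_add i, act_smul, e']
        generalize i • j • e = x, i • e = y, i • f = z
        module
      · convert add_mem (hR i hi _ b2) (add_mem (R.smul_mem (B 0 1) a1) (R.smul_mem (B 1 1) a2)) using 1
        simp only [mul_smul i j, act_sub, smul_add i, act_smul, e']
        generalize i • j • f = x, i • e = y, i • f = z
        module
  obtain ⟨i, hi, a1, a2⟩ := key (-1) (by
    rw [← Subgroup.closure_toSubmonoid_of_finite]; exact neg_mem_closure h2 ha hb)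
  exact ⟨i, hi, by simpa using a1, by simpa using a2⟩

end Cfsg.Agent.SR
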