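import Cfsg.Agent.SR.HH

/-! Hyperbolic lines and transvections in a common coset. -/

set_option autoImplicit false

namespace Cfsg.Agent.SR

open Module Cfsg.Agent.Polar Cfsg.Agent.Polar.PQ

variable {F : Type*} [Field F] {V : Type*} [AddCommGroup V] [Module F V] {P : PQ (spFP F) V}

variable (P) in
/-- hyperbolic lines -/
def HL (L : Submodule F V) : Prop := ∃ e f, P.Hyp e f ∧ L = Submodule.span F {e, f}

theorem fx_span {g : P.Iso} {S : Set V} : Fx g (Submodule.span F S : Set V) ↔ Fx g S := by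
  rw [Fx, perp_span]; rfl

theorem span_pair_eq {a b c : V} {r s : F} (hs : s ≠ 0) (h : c = r • a + s • b) :
    Submodule.span F {a, c} = Submodule.span F {a, b} := by
  refine le_antisymm (Submodule.span_le.2 ?_) (Submodule.span_le.2 ?_)
  · rintro _ (rfl | rfl)
    · exact left_mem_span_pair _ _
    · exact Submodule.mem_span_pair.2 ⟨_, _, h.symm⟩
  · rintro _ (rfl | rfl)
    · exact left_mem_span_pair _ _
    · exact Submodule.mem_span_pair.2 ⟨-(s⁻¹ * r), s⁻¹, by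
        rw [h, smul_add, smul_smul, smul_smul, inv_mul_cancel₀ hs]; module⟩

theorem hl_of_ne {a b : V} (h : P.B a b ≠ 0) : HL P (Submodule.span F {a, b}) :=
  ⟨a, (P.B a b)⁻¹ • b, sp_hyp (by simp [h]), (span_pair_eq (r := 0) (inv_ne_zero h) (by simp)).symm⟩

theorem HL.smul {L : Submodule F V} (h : HL P L) (g : P.Iso) : HL P (g • L) := by
  obtain ⟨e, f, h, rfl⟩ := h
  exact ⟨_, _, h.act g, smul_span_pair g e f⟩

theorem HL.finrank {L : Submodule F V} (h : HL P L) : finrank F L = 2 := by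
  obtain ⟨e, f, h, rfl⟩ := h
  have := finrank_span_eq_card h.linearIndependent
  rwa [Matrix.range_cons_cons_empty] at this

theorem HL.eq_zero {L : Submodule F V} (h : HL P L) {x : V} (h1 : x ∈ L) (h2 : x ∈ P.perp L) : x = 0 := by
  obtain ⟨e, f, h, rfl⟩ := h
  rw [eq_of_mem_pair h h1, h2 e (left_mem_span_pair _ _), h2 f (right_mem_span_pair _ _)]; simp

theorem HL.rebase [FiniteDimensional F V] {L : Submodule F V} (h : HL P L) {y : V} (hy : y ∈ L) (h0 : y ≠ 0) :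
    ∃ f, P.Hyp y f ∧ L = Submodule.span F {y, f} := by
  obtain ⟨x, hx, h1⟩ : ∃ x ∈ L, P.B y x ≠ 0 := by simpa [mem_perp] using fun e => h0 (h.eq_zero hy e)
  have h2 : P.Hyp y ((P.B y x)⁻¹ • x) := sp_hyp (by simp [h1])
  refine ⟨_, h2, (Submodule.eq_of_le_of_finrank_eq (Submodule.span_le.2 ?_) ?_).symm⟩
  · rintro _ (rfl | rfl)
    exacts [hy, L.smul_mem _ hx]
  · rw [h.finrank, HL.finrank ⟨_, _, h2, rfl⟩]

theorem HL.perp_pt [FiniteDimensional F V] {L : Submodule F V} (h : HL P L) {y z : V} (hy : y ∈ L) (h0 : y ≠ 0)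
    (hz : z ∈ L) (hB : P.B z y = 0) : ∃ c : F, z = c • y := by
  obtain ⟨f, h1, rfl⟩ := h.rebase hy h0
  exact ⟨P.B z f, by rw [eq_of_mem_pair h1 hz, hB]; simp [h1.pair]⟩

theorem HL.normal [FiniteDimensional F V] {L M : Submodule F V} (h : HL P L) (h' : HL P M) (hne : L ≠ M) {y : V}
    (hy : y ∈ L) (hy' : y ∈ M) (h0 : y ≠ 0) : ∃ f w, P.Hyp y f ∧ w ≠ 0 ∧ P.B w y = 0 ∧ P.B w f = 0 ∧
      L = Submodule.span F {y, f} ∧ M = Submodule.span F {y, f + w} := by
  obtain ⟨f, h1, rfl⟩ := h.rebase hy h0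
  obtain ⟨g, h2, rfl⟩ := h'.rebase hy' h0
  have h3 := mem_perp_pair.1 (h1.hproj_mem g)
  have h4 : Submodule.span F {y, g} = Submodule.span F {y, f + P.hproj y f g} :=
    span_pair_eq (r := P.B g f) one_ne_zero (by rw [hproj_apply, hyp_rev h2, spFP_eps]; module)
  exact ⟨f, _, h1, fun e => hne (by rw [h4, e, add_zero]), h3.1, h3.2, rfl, h4⟩

theorem exists_perp_two [FiniteDimensional F V] {M : Submodule F V} (h : finrank F M = 2) (a : V) :
    ∃ z ∈ M, z ≠ 0 ∧ P.B z a = 0 := by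
  obtain ⟨z, h0, hz⟩ := exists_ne_zero_ker₁ (V := M) ((P.B.flip a).domRestrict M) (by omega)
  exact ⟨z, z.2, fun e => h0 (Subtype.ext e), hz⟩

theorem Fx.conj' {g : P.Iso} {L : Submodule F V} (h : Fx g L) (k : P.Iso) :
    Fx (k * g * k⁻¹) (k • L : Submodule F V) := fun x hx => by
  rw [← smul_perp, mem_act] at hx
  rw [mul_smul, mul_smul, h _ hx, smul_inv_smul]

theorem Fx.sub' [FiniteDimensional F V] (hP : P.ND) {g : P.Iso} {L : Submodule F V} (h : Fx g L) (x : V) :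
    g • x - x ∈ L := sub_mem_of_fix hP h x

variable (H : Subgroup P.Iso)

/-- the reflection in `L` lies in `H` -/
def Rf (L : Submodule F V) : Prop := ∃ i ∈ H, Fx i L ∧ ∀ z ∈ L, i • z = -z

/-- no common eigenvector -/
def NE (L : Submodule F V) : Prop := ∀ y ∈ L, y ≠ 0 → ∃ s ∈ H, Fx s L ∧ P.B (s • y) y ≠ 0

/-- transvections in the same coset -/
def Sim (v : V) (c : F) (w : V) (d : F) : Prop := (tv P v c)⁻¹ * tv P w d ∈ H

variable {H}

theorem Rf.smul {L : Submodule F V} (h : Rf H L) {k : P.Iso} (hk : k ∈ H) : Rf H (k • L) := by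
  obtain ⟨i, hi, h1, h2⟩ := h
  exact ⟨_, mul_mem (mul_mem hk hi) (inv_mem hk), h1.conj' k, fun z hz => by
    rw [mul_smul, mul_smul, h2 _ (mem_act.1 hz), act_neg, smul_inv_smul]⟩

theorem NE.smul {L : Submodule F V} (h : NE H L) {k : P.Iso} (hk : k ∈ H) : NE H (k • L) := fun y hy h0 => by
  obtain ⟨s, hs, h1, h2⟩ := h _ (mem_act.1 hy) (act_ne_zero _ h0)
  exact ⟨_, mul_mem (mul_mem hk hs) (inv_mem hk), h1.conj' k, by rwa [mul_smul, mul_smul, B_act_left]⟩

theorem Sim.symm {v w : V} {c d : F} (h : Sim H v c w d) : Sim H w d v c := by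
  simpa [Sim] using inv_mem h

theorem Sim.trans {v w u : V} {c d e : F} (h : Sim H v c w d) (h' : Sim H w d u e) : Sim H v c u e := by
  simpa [Sim, mul_assoc] using mul_mem h h'

theorem Sim.smul {v w : V} {c d : F} (h : Sim H v c w d) {k : P.Iso} (hk : k ∈ H) : Sim H (k • v) c (k • w) d := by
  have := mul_mem (mul_mem hk h) (inv_mem hk)
  rw [Sim, ← conj_tv, ← conj_tv]
  convert this using 1; group

theorem fx_sim {L : Submodule F V} {v w : V} (hv : v ∈ L) (hw : w ∈ L) (c d : F) :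
    Fx ((tv P v c)⁻¹ * tv P w d) L := (FxG P _).mul_mem ((FxG P _).inv_mem (fx_tv hv c)) (fx_tv hw d)

theorem sim_B {v w : V} (c d : F) : P.B (((tv P v c)⁻¹ * tv P w d) • w) w = c * P.B v w ^ 2 := by
  rw [mul_smul, tv_self, tv_inv, tv_smul]
  simp [sp_B_self, sp_swap v w, sq, mul_assoc]

theorem sim_ne {v w : V} {c : F} (d : F) (hc : c ≠ 0) (h : P.B v w ≠ 0) : (tv P v c)⁻¹ * tv P w d ≠ 1 := fun e => by
  have := sim_B (P := P) (v := v) (w := w) c d
  rw [e, one_smul, sp_B_self] at this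
  exact mul_ne_zero hc (pow_ne_zero 2 h) this.symm

section
variable [FiniteDimensional F V] (hP : P.ND) (hH : NoTv H)
include hP hH

theorem HL.fpf {L : Submodule F V} (h : HL P L) {g : P.Iso} (hg : g ∈ H) (h1 : g ≠ 1) (hf : Fx g L) {z : V}
    (hz : g • z = z) : z ∈ P.perp L := by
  obtain ⟨e, f, h, rfl⟩ := h
  rw [perp_span]
  exact SR.fpf hP hH h hg h1 (fx_span.1 hf) hz

theorem hh0' (h2 : (2 : F) ≠ 0) {L M : Submodule F V} (h : HL P L) (h' : HL P M) (hne : L ≠ M) {y : V}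
    (hy : y ∈ L) (hy' : y ∈ M) (h0 : y ≠ 0) (hi : Rf H L) {s s' : P.Iso} (hs : s ∈ H) (fs : Fx s L) (hs' : s' ∈ H)
    (h1 : s' ≠ 1) (fs' : Fx s' M) : P.B (s • y) y = 0 := by
  obtain ⟨f, w, a1, a2, a3, a4, rfl, rfl⟩ := h.normal h' hne hy hy' h0
  obtain ⟨i, hi, i1, i2⟩ := hi
  exact hh0 hP hH h2 a1 a2 a3 a4 hi (fx_span.1 i1) (i2 _ hy) (i2 _ (right_mem_span_pair _ _)) hs (fx_span.1 fs)
    hs' h1 (fx_span.1 fs')

variable [Finite F] (h2 : (2 : F) ≠ 0)
include h2

theorem rf_of_meet {v w : V} {c d : F} (hB : P.B v w ≠ 0) (hs : Sim H v c w d) (hn : ¬ IsSquare (c * d))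
    {M : Submodule F V} (h' : HL P M) (hne : Submodule.span F {v, w} ≠ M) {y : V}
    (hy : y ∈ Submodule.span F {v, w}) (hy' : y ∈ M) (h0 : y ≠ 0) {s' : P.Iso} (hs' : s' ∈ H)
    (h1 : s' ≠ 1) (fs' : Fx s' M) : Rf H (Submodule.span F {v, w}) := by
  have h := hl_of_ne hB
  have fs := fx_sim (P := P) (left_mem_span_pair (F := F) v w) (right_mem_span_pair v w) c d
  obtain ⟨f, u, a1, a2, a3, a4, e, rfl⟩ := h.normal h' hne hy hy' h0
  obtain ⟨x, hx, x0, hx'⟩ := hh1 hP hH h2 a1 a2 a3 a4 hs (sim_ne d (by rintro rfl; simp at hn) hB)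
    (fx_span.1 (e ▸ fs)) hs' h1 (fx_span.1 fs')
  obtain ⟨β, hβ⟩ := h.perp_pt (e ▸ hx) x0 (by
    have := add_mem (fs.sub' hP x) (show x ∈ Submodule.span F {v, w} from e ▸ hx)
    rwa [sub_add_cancel] at this) hx'
  rw [e, Rf]
  simp only [fx_span]
  refine neg_of_eig hP hH h2 a1 hs (fx_span.1 (e ▸ fs)) hx x0 ?_ hβ
  rintro ⟨r, rfl⟩
  have r0 : r ≠ 0 := by
    rintro rfl
    exact act_ne_zero _ x0 (by rw [hβ]; simp)
  obtain ⟨m, n, rfl⟩ := Submodule.mem_span_pair.1 (e ▸ hx)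
  rw [mul_smul, inv_smul_eq_iff, tv_smul, tv_smul] at hβ
  have e1 := congrArg (P.B · v) hβ
  have e2 := congrArg (P.B · w) hβ
  simp only [map_add, map_smul, LinearMap.add_apply, LinearMap.smul_apply, smul_eq_mul, sp_B_self,
    sp_swap v w] at e1 e2
  have e3 : ∀ t : F, t = m ∨ t = n → t * ((1 - r * r) ^ 2 - c * d * (r * P.B v w) ^ 2) = 0 := by
    rintro t (rfl | rfl) <;> refine mul_left_cancel₀ hB ?_
    · linear_combination (1 - r * r) * e2 + r * r * c * P.B v w * e1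
    · linear_combination -(1 - r * r) * e1 - d * P.B v w * e2
  refine hn ⟨(1 - r * r) / (r * P.B v w), ?_⟩
  have e4 : (1 - r * r) ^ 2 - c * d * (r * P.B v w) ^ 2 = 0 := by
    by_contra e4
    exact x0 (by simp [(mul_eq_zero.1 (e3 m (Or.inl rfl))).resolve_right e4,
      (mul_eq_zero.1 (e3 n (Or.inr rfl))).resolve_right e4])
  field_simp
  linear_combination -e4

theorem meet {v w u : V} {c d e : F} (hB : P.B v w ≠ 0) (hs : Sim H w d v c) (hd : d ≠ 0)
    (hn : ¬ IsSquare (c * d) ∨ Rf H (Submodule.span F {v, w})) (hs' : Sim H u e v c) (he : e ≠ 0)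
    (hu : P.B v u ≠ 0) : u ∈ Submodule.span F {v, w} := by
  by_contra hm
  have hne : Submodule.span F {v, w} ≠ Submodule.span F {v, u} := fun e => hm (e ▸ right_mem_span_pair v u)
  have v0 : v ≠ 0 := by rintro rfl; simp at hB
  have f' := fx_sim (P := P) (right_mem_span_pair (F := F) v u) (left_mem_span_pair v u) e c
  have n' := sim_ne c he (B_swap_ne hu)
  have := hh0' hP hH h2 (hl_of_ne hB) (hl_of_ne hu) hne (left_mem_span_pair _ _) (left_mem_span_pair _ _) v0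
    (hn.elim (fun hn => rf_of_meet hP hH h2 hB hs.symm hn (hl_of_ne hu) hne (left_mem_span_pair _ _)
      (left_mem_span_pair _ _) v0 hs' n' f') id) hs
    (fx_sim (right_mem_span_pair _ _) (left_mem_span_pair _ _) d c) hs' n' f'
  rw [sim_B] at this
  exact mul_ne_zero hd (pow_ne_zero 2 (B_swap_ne hB)) this

theorem meet' {v w u : V} {c d e : F} (hB : P.B v w ≠ 0) (hs : Sim H w d v c) (hc : c ≠ 0) (hd : d ≠ 0)
    (hn : ¬ IsSquare (c * d) ∨ Rf H (Submodule.span F {v, w})) (hs' : Sim H u e v c) (he : e ≠ 0) :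
    u ∈ Submodule.span F {v, w} ∨ (P.B u v = 0 ∧ P.B u w = 0) := by
  by_cases h1 : P.B u v = 0
  · by_cases h3 : P.B u w = 0
    · exact Or.inr ⟨h1, h3⟩
    · rw [Set.pair_comm, mul_comm] at hn
      exact Or.inl (Set.pair_comm v w ▸ meet hP hH h2 (B_swap_ne hB) hs.symm hc hn (hs'.trans hs.symm) he
        (B_swap_ne h3))
  · exact Or.inl (meet hP hH h2 hB hs hd hn hs' he (B_swap_ne h1))

theorem rf_of_perp {v w u : V} {c d e : F} (hB : P.B v w ≠ 0) (hc : c ≠ 0) (hd : d ≠ 0) (hs : Sim H u e v c)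
    (hs' : Sim H u e w d) (u0 : u ≠ 0) (h1 : P.B u v = 0) (h3 : P.B u w = 0) : Rf H (Submodule.span F {v, w}) := by
  have a1 := B_swap_zero h1
  have a3 := B_swap_zero h3
  have m : ∀ {x : V}, x ∈ ({v, w, u} : Set V) → x ∈ Submodule.span F {v, w, u} := fun h => Submodule.subset_span h
  obtain ⟨i, hi, i1, i2⟩ := exists_neg h2 (H ⊓ FxG P (Submodule.span F {v, w, u} : Set V)) ⊥ (by simp) (e := v) (f := w)
    ⟨hs, fx_sim (m (by simp)) (m (by simp)) e c⟩ ⟨hs', fx_sim (m (by simp)) (m (by simp)) e d⟩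
    (mul_ne_zero hc (B_swap_ne hB)) (mul_ne_zero hd hB)
    (by simp [mul_smul, tv_self, tv_inv, tv_fix _ a1])
    (by rw [mul_smul, tv_inv, tv_fix _ (by simp [tv_smul, a1, a3]), tv_smul]; simp)
    (by simp [mul_smul, tv_self, tv_inv, tv_fix _ a3])
    (by rw [mul_smul, tv_inv, tv_fix _ (by simp [tv_smul, a1, a3]), tv_smul]; simp)
  rw [Submodule.mem_bot, add_eq_zero_iff_eq_neg] at i1 i2
  have i3 : ∀ z ∈ Submodule.span F {v, w}, i • z = -z := fun z hz => by
    obtain ⟨a, b, rfl⟩ := Submodule.mem_span_pair.1 hz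
    rw [smul_add, act_smul, act_smul, i1, i2]; module
  have iu : i • u = u := hi.2 u (by rw [perp_span]; simp [mem_perp, h1, h3, sp_B_self])
  have i4 : i * i = 1 := hH.eq_one hP u0 (mul_mem hi.1 hi.1) fun x hx => by
    obtain ⟨e', f', h', e⟩ := hl_of_ne hB
    have k1 : P.hproj e' f' x ∈ P.perp (Submodule.span F {v, w} : Set V) := by
      rw [e, perp_span]; exact h'.hproj_mem x
    have k2 : x - P.hproj e' f' x ∈ Submodule.span F {v, w} :=
      e ▸ Submodule.mem_span_pair.2 ⟨_, _, by rw [hproj_apply]; abel⟩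
    have k3 : P.B (x - P.hproj e' f' x) u = 0 := by
      obtain ⟨a, b, k⟩ := Submodule.mem_span_pair.1 k2
      simp [← k, a1, a3]
    have k4 := hi.2 (P.hproj e' f' x) (by
      rw [perp_span] at k1 ⊢
      simpa [mem_perp, mem_perp_pair.1 k1, hx] using k3)
    have k5 := i3 _ k2
    rw [act_sub, k4, sub_eq_iff_eq_add] at k5
    rw [mul_smul, k5, smul_add, act_neg, i3 _ k2, k4]; abel
  have i5 : ∀ z, i • z - z ∈ Submodule.span F {v, w} := fun z => by
    obtain ⟨a, b, c, k⟩ := Submodule.mem_span_triple.1 (Fx.sub' hP hi.2 z)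
    have k1 := congrArg (i • ·) k
    simp only [smul_add, act_smul, act_sub, i1, i2, iu, ← mul_smul i i, i4, one_smul] at k1
    have k2 : (2 * c) • u = 0 := by linear_combination (norm := (simp only [smul_def]; module)) k + k1
    rw [((mul_eq_zero.1 ((smul_eq_zero.1 k2).resolve_right u0)).resolve_left h2), zero_smul, add_zero] at k
    exact Submodule.mem_span_pair.2 ⟨a, b, k⟩
  refine ⟨i, hi.1, fun z hz => hP.eq_of_forall fun x => ?_, i3⟩
  have := hz _ (i5 x)
  rwa [map_sub, sub_eq_zero, ← B_smul_smul i z, ← mul_smul, i4, one_smul] at this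

omit hP hH [Finite F] [FiniteDimensional F V] in
theorem ne_of_perp {v w u : V} {c d e : F} (hB : P.B v w ≠ 0) (hc : c ≠ 0) (hd : d ≠ 0) (hs : Sim H u e v c)
    (hs' : Sim H u e w d) (h1 : P.B u v = 0) (h3 : P.B u w = 0) : NE H (Submodule.span F {v, w}) := by
  intro y hy y0
  by_contra hn
  push Not at hn
  have k1 := hn _ (hs'.symm.trans hs) (fx_sim (right_mem_span_pair _ _) (left_mem_span_pair _ _) d c)
  have k2 := hn (tv P v c * (tv P w d)⁻¹) (by
    have := mul_mem hs (inv_mem hs')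
    rwa [mul_inv_rev, inv_inv, tv_inv u, tv_comm h1, tv_inv w, ← tv_comm h3, mul_assoc, ← mul_assoc (tv P u _),
      tv_mul, neg_add_cancel, tv_zero, one_mul, ← tv_inv] at this)
    ((FxG P _).mul_mem (fx_tv (left_mem_span_pair _ _) c) ((FxG P _).inv_mem (fx_tv (right_mem_span_pair _ _) d)))
  simp only [mul_smul, tv_inv, tv_smul, map_add, map_smul, LinearMap.add_apply, LinearMap.smul_apply, smul_eq_mul,
    sp_B_self, sp_swap y v, sp_swap y w, sp_swap v w] at k1 k2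
  have k3 : c * P.B y v ^ 2 = d * P.B y w ^ 2 := mul_left_cancel₀ h2 (by linear_combination -k1 - k2)
  have k4 : P.B y v * P.B y w = 0 :=
    mul_left_cancel₀ (mul_ne_zero (mul_ne_zero hc hd) hB) (by linear_combination k1 + k3)
  refine y0 ((hl_of_ne hB).eq_zero hy ?_)
  rw [perp_span, mem_perp_pair]
  rcases mul_eq_zero.1 k4 with k | k
  · exact ⟨k, by simpa [k, hd] using k3⟩
  · exact ⟨by simpa [k, hc] using k3, k⟩

end

end Cfsg.Agent.SR
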