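import Cfsg.Agent.SR.Dick

/-! Elements supported on hyperbolic lines in a group without transvections. -/

set_option autoImplicit false

namespace Cfsg.Agent.SR

open Module Cfsg.Agent.Polar Cfsg.Agent.Polar.PQ

variable {F : Type*} [Field F] {V : Type*} [AddCommGroup V] [Module F V] {P : PQ (spFP F) V}

/-- `g` fixes the orthogonal complement of `S` pointwise -/
def Fx (g : P.Iso) (S : Set V) : Prop := ∀ x ∈ P.perp S, g • x = x

variable (P) in
/-- the group of isometries fixing the orthogonal complement of `S` pointwise -/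
def FxG (S : Set V) : Subgroup P.Iso where
  carrier := {g | Fx g S}
  one_mem' _ _ := one_smul _ _
  mul_mem' ha hb x hx := by rw [mul_smul, hb x hx, ha x hx]
  inv_mem' ha x hx := by rw [inv_smul_eq_iff, ha x hx]

theorem Fx.mono {g : P.Iso} {S T : Set V} (h : Fx g S) (hle : P.perp T ≤ P.perp S) : Fx g T :=
  fun x hx => h x (hle hx)

theorem Fx.sub [FiniteDimensional F V] (hP : P.ND) {g : P.Iso} {S : Set V} (h : Fx g S) (x : V) :
    g • x - x ∈ Submodule.span F S :=
  sub_mem_of_fix hP (by rwa [perp_span]) x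

theorem Fx.mem [FiniteDimensional F V] (hP : P.ND) {g : P.Iso} {S : Set V} (h : Fx g S) {x : V}
    (hx : x ∈ Submodule.span F S) : g • x ∈ Submodule.span F S := by
  simpa using add_mem (h.sub hP x) hx

theorem fx_tv {S : Set V} {v : V} (hv : v ∈ S) (c : F) : Fx (tv P v c) S := fun _ hx => tv_fix c (hx v hv)

theorem Fx.conj {g : P.Iso} {e f : V} (h : Fx g {e, f}) (k : P.Iso) : Fx (k * g * k⁻¹) {k • e, k • f} :=
  fun x hx => by
  rw [mem_perp_pair, B_act_right, B_act_right, ← mem_perp_pair] at hx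
  rw [mul_smul, mul_smul, h _ hx, smul_inv_smul]

theorem Fx.apply {g : P.Iso} {e f : V} (h : P.Hyp e f) (hg : Fx g {e, f}) (x : V) :
    g • x = x + P.B x f • (g • e - e) - P.B x e • (g • f - f) := by
  have := hg _ (h.hproj_mem x)
  rw [hproj_apply, act_sub, act_sub, act_smul, act_smul, spFP_eps] at this
  generalize g • x = a, g • e = b, g • f = c at this ⊢
  linear_combination (norm := module) this

theorem hyp_rev {e f : V} (h : P.Hyp e f) : P.B f e = -1 := h.pair'

theorem eq_of_mem_pair {e f z : V} (h : P.Hyp e f) (hz : z ∈ Submodule.span F {e, f}) :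
    z = P.B z f • e - P.B z e • f := by
  obtain ⟨a, b, rfl⟩ := Submodule.mem_span_pair.1 hz
  simp [sp_B_self, h.pair, hyp_rev h]

theorem Fx.mat [FiniteDimensional F V] (hP : P.ND) {g : P.Iso} {e f : V} (h : P.Hyp e f) (hg : Fx g {e, f}) :
    ∃ α β γ δ : F, g • e = α • e + β • f ∧ g • f = γ • e + δ • f ∧ α * δ - β * γ = 1 := by
  obtain ⟨α, β, h1⟩ := Submodule.mem_span_pair.1 (hg.mem hP (left_mem_span_pair e f))
  obtain ⟨γ, δ, h2⟩ := Submodule.mem_span_pair.1 (hg.mem hP (right_mem_span_pair e f))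
  refine ⟨α, β, γ, δ, h1.symm, h2.symm, ?_⟩
  have := B_smul_smul g e f
  rw [← h1, ← h2] at this
  simp [sp_B_self, h.pair, hyp_rev h] at this
  linear_combination this

variable {H : Subgroup P.Iso}

section
variable [FiniteDimensional F V] (hP : P.ND) (hH : NoTv H)
include hP hH

theorem fpf {g : P.Iso} {e f : V} (h : P.Hyp e f) (hg : g ∈ H) (h1 : g ≠ 1) (hf : Fx g {e, f}) {z : V}
    (hz : g • z = z) : z ∈ P.perp {e, f} := by
  by_contra hn
  have h2 := hf.apply h z
  rw [hz, add_sub_assoc, left_eq_add] at h2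
  refine h1 (hH.eq_one hP (w := P.B z f • e - P.B z e • f) (fun h0 => hn ?_) hg fun x hx => ?_)
  · have e1 := congrArg (P.B · e) h0
    have e2 := congrArg (P.B · f) h0
    simp [sp_B_self, h.pair, hyp_rev h] at e1 e2
    exact mem_perp_pair.2 ⟨e1, e2⟩
  · simp only [map_sub, map_smul, smul_eq_mul] at hx
    rw [hf.apply h x, add_sub_assoc, add_eq_left]
    rw [mem_perp_pair, not_and_or] at hn
    rcases hn with hn | hn
    · refine (smul_eq_zero.1 ?_).resolve_left hn
      linear_combination (norm := (simp only [smul_def]; module)) P.B x e • h2 - hx • (g • e - e)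
    · refine (smul_eq_zero.1 ?_).resolve_left hn
      linear_combination (norm := (simp only [smul_def]; module)) P.B x f • h2 - hx • (g • f - f)

theorem fpf' {g : P.Iso} {e f : V} (h : P.Hyp e f) (hg : g ∈ H) (h1 : g ≠ 1) (hf : Fx g {e, f}) {z : V}
    (hm : z ∈ Submodule.span F {e, f}) (hz : g • z = z) : z = 0 := by
  have := mem_perp_pair.1 (fpf hP hH h hg h1 hf hz)
  rw [eq_of_mem_pair h hm, this.1, this.2]; simp

theorem tr_ne {g : P.Iso} {e f : V} (h : P.Hyp e f) (hg : g ∈ H) (h1 : g ≠ 1) (hf : Fx g {e, f})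
    {α β γ δ : F} (e1 : g • e = α • e + β • f) (e2 : g • f = γ • e + δ • f) (e3 : α * δ - β * γ = 1) :
    α + δ ≠ 2 := fun ht => by
  have h2 := mem_perp_pair.1 (fpf hP hH h hg h1 hf (z := (δ - 1) • e - β • f) (by
    rw [act_sub, act_smul, act_smul, e1, e2]
    linear_combination (norm := module) (e3 - ht) • e))
  simp [sp_B_self, h.pair, hyp_rev h] at h2
  have h3 := mem_perp_pair.1 (fpf hP hH h hg h1 hf (z := e) (by
    rw [e1, h2.1, show α = 1 by linear_combination ht - h2.2]; simp))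
  simp [h.pair] at h3

omit hH in
theorem mem_vecs_of {w a : V} (hw : w ≠ 0) (ha : P.B a w = 0) {g : P.Iso} (hg : g ∈ H)
    (h : ∀ x, P.B x w = 0 → g • x = x + P.B x a • w) : a ∈ P.vecs H (sp_sing w) := by
  obtain ⟨c, hc⟩ := exists_tv_of_fix hP hw (g := (P.eich w a 0)⁻¹ * g) fun x hx => by
    rw [mul_smul, inv_smul_eq_iff, h x hx, (sp_eOk ha 0).eich_smul_of_perp hx]; simp
  rw [inv_mul_eq_iff_eq_mul, tv, (sp_eOk ha 0).eich_mul (sp_eOk (by simp) c), add_zero] at hc
  exact ⟨_, sp_eOk ha _, hc ▸ hg⟩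

omit hP [FiniteDimensional F V] in
theorem vecs_perp (h2 : (2 : F) ≠ 0) {w a b : V} (hw : w ≠ 0) (ha : a ∈ P.vecs H (sp_sing w))
    (hb : b ∈ P.vecs H (sp_sing w)) : P.B a b = 0 := by
  have := (hH w _ (comm_mem_Dv (sp_sing w) hb ha).2).resolve_left hw
  rw [sp_swap a b] at this
  exact mul_left_cancel₀ h2 (by linear_combination this)

/-- two lines meeting in a point, one of them carrying a reflection -/
theorem hh0 (h2 : (2 : F) ≠ 0) {y f w : V} (h : P.Hyp y f) (hw : w ≠ 0) (hwy : P.B w y = 0) (hwf : P.B w f = 0)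
    {i s s' : P.Iso} (hi : i ∈ H) (fi : Fx i {y, f}) (iy : i • y = -y) (if' : i • f = -f)
    (hs : s ∈ H) (fs : Fx s {y, f}) (hs' : s' ∈ H) (h1 : s' ≠ 1) (fs' : Fx s' {y, f + w}) :
    P.B (s • y) y = 0 := by
  have hyw := B_swap_zero hwy
  have hfw := B_swap_zero hwf
  have h' : P.Hyp y (f + w) := sp_hyp (by simp [h.pair, hyw])
  obtain ⟨α, β, γ, δ, e1, e2, e3⟩ := fs'.mat hP h'
  have e4 : s' • w = w := fs' w (mem_perp_pair.2 ⟨hwy, by simp [hwf, sp_B_self]⟩)
  have e5 : s' • f = γ • y + δ • (f + w) - w := by rw [← e2, smul_add, e4]; abel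
  have ei : ∀ x, i • x = x - (2 * P.B x f) • y + (2 * P.B x y) • f := fun x => by
    rw [fi.apply h, iy, if']; module
  have iw : i • w = w := fi w (mem_perp_pair.2 ⟨hwy, hwf⟩)
  have ha := mem_vecs_of hP hw (a := (-2 : F) • (s' • y - y)) (by simp [e1, hyw, hfw, sp_B_self])
    (mul_mem (inv_mem hi) (mul_mem (mul_mem hs' hi) (inv_mem hs'))) fun x hx => by
      rw [mul_smul, inv_smul_eq_iff, smul_add, act_smul, iw, mul_smul, mul_smul, ei, ei, smul_add, act_sub,
        act_smul, act_smul, smul_inv_smul, ← B_act_right, ← B_act_right, e1, e5]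
      simp only [map_add, map_sub, map_smul, smul_eq_mul, hx]
      linear_combination (norm := module) (-2 * P.B x f) • e3 • y + (2 * P.B x y) • e3 • (f + w)
  have h3 := vecs_perp hH h2 hw ha (vecs_act_fix _ hs' e4 ha)
  have h4 := vecs_perp hH h2 hw (vecs_act_fix _ hs (fs w (mem_perp_pair.2 ⟨hwy, hwf⟩)) ha) ha
  have h5 := tr_ne hP hH h' hs' h1 fs' e1 e2 e3
  have h6 : β = 0 := by
    rw [act_smul, act_sub, e1, smul_add s', act_smul, act_smul, e1, e2] at h3
    generalize f + w = f' at h3 h'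
    simp only [map_add, map_sub, map_smul, LinearMap.add_apply, LinearMap.sub_apply, LinearMap.smul_apply,
      smul_eq_mul, sp_B_self, h'.pair, hyp_rev h'] at h3
    refine mul_left_cancel₀ (mul_ne_zero (mul_ne_zero h2 h2) (sub_ne_zero.2 h5)) ?_
    linear_combination -h3 + 4 * β * e3
  rw [h6, zero_smul, add_zero] at e1
  have h7 : α - 1 ≠ 0 := fun e => h.left_ne_zero (fpf' hP hH h' hs' h1 fs' (left_mem_span_pair _ _)
    (by rw [e1, sub_eq_zero.1 e, one_smul]))
  rw [e1, show (-2 : F) • (α • y - y) = (-2 * (α - 1)) • y by module, act_smul] at h4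
  simpa [h2, h7] using h4

theorem hh1 [Finite F] (h2 : (2 : F) ≠ 0) {y f w : V} (h : P.Hyp y f) (hw : w ≠ 0) (hwy : P.B w y = 0)
    (hwf : P.B w f = 0) {s s' : P.Iso} (hs : s ∈ H) (h1 : s ≠ 1) (fs : Fx s {y, f}) (hs' : s' ∈ H)
    (h1' : s' ≠ 1) (fs' : Fx s' {y, f + w}) :
    ∃ x ∈ Submodule.span F {y, f}, x ≠ 0 ∧ P.B (s • x) x = 0 := by
  classical
  have : Finite V := Module.finite_of_finite F
  by_contra hne
  push Not at hne
  have hyw := B_swap_zero hwy
  have hfw := B_swap_zero hwf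
  have h' : P.Hyp y (f + w) := sp_hyp (by simp [h.pair, hyw])
  have mp : ∀ x, x ∈ P.perp {y, f, w} ↔ P.B x y = 0 ∧ P.B x f = 0 ∧ P.B x w = 0 := fun x => by simp [mem_perp]
  let J := H ⊓ FxG P {y, f, w}
  have sJ : s ∈ J := ⟨hs, fs.mono fun x hx => mem_perp_pair.2 ⟨((mp x).1 hx).1, ((mp x).1 hx).2.1⟩⟩
  have sJ' : s' ∈ J := ⟨hs', fs'.mono fun x hx => mem_perp_pair.2 ⟨((mp x).1 hx).1, by
    simp [((mp x).1 hx).2.1, ((mp x).1 hx).2.2]⟩⟩
  have Jw : ∀ g ∈ J, g • w = w := fun g hg => hg.2 w ((mp w).2 ⟨hwy, hwf, sp_B_self w⟩)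
  have JR : ∀ g ∈ J, ∀ r ∈ F ∙ w, g • r = r := fun g hg r hr => by
    obtain ⟨c, rfl⟩ := Submodule.mem_span_singleton.1 hr
    rw [act_smul, Jw g hg]
  let Pi := Submodule.span F ({y, f, w} : Set V)
  have mw : ∀ z ∈ Pi, P.B z y = 0 → P.B z f = 0 → z ∈ F ∙ w := fun z hz e1 e2 => by
    obtain ⟨a, b, c, rfl⟩ := Submodule.mem_span_triple.1 hz
    simp [sp_B_self, h.pair, hyp_rev h, hwy, hwf] at e1 e2
    simp [e1, e2, Submodule.smul_mem]
  have yP : y ∈ Pi := Submodule.subset_span (by simp)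
  have fP : f ∈ Pi := Submodule.subset_span (by simp)
  have Pw : ∀ z ∈ Pi, ∀ r ∈ F ∙ w, P.B z r = 0 := fun z hz r hr => by
    obtain ⟨a, b, c, rfl⟩ := Submodule.mem_span_triple.1 hz
    obtain ⟨c, rfl⟩ := Submodule.mem_span_singleton.1 hr
    simp [sp_B_self, hyw, hfw]
  -- the kernel on the quotient is trivial
  have N1 : ∀ g ∈ J, (∀ z ∈ Pi, g • z - z ∈ F ∙ w) → g = 1 := fun g hg hz => by
    obtain ⟨l, hl⟩ := Submodule.mem_span_singleton.1 (hz y yP)
    obtain ⟨m, hm⟩ := Submodule.mem_span_singleton.1 (hz f fP)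
    have e : ∀ x, P.B x w = 0 → g • x = x + P.B x (l • f - m • y) • w := fun x hx => by
      have h3 := mem_perp_pair.1 (h.hproj_mem x)
      have := hg.2 _ ((mp (P.hproj y f x)).2 ⟨h3.1, h3.2, by simp [hproj_apply, hx, hyw, hfw]⟩)
      rw [hproj_apply, act_sub, act_sub, act_smul, act_smul, spFP_eps] at this
      simp only [map_sub, map_smul, smul_eq_mul]
      linear_combination (norm := (simp only [smul_def]; module)) this - P.B x f • hl + P.B x y • hm
    have ha := mem_vecs_of hP hw (by simp [hyw, hfw]) hg.1 e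
    have h0 : l • f - m • y = 0 := by
      by_contra h0
      exact hne _ (Submodule.mem_span_pair.2 ⟨-m, l, by module⟩) h0
        (vecs_perp hH h2 hw (vecs_act_fix _ hs (Jw s sJ) ha) ha)
    exact hH.eq_one hP hw hg.1 fun x hx => by rw [e x hx, h0]; simp
  -- no common fixed point in the affine plane
  have key : ∀ u, P.B u w ≠ 0 → (∀ g ∈ J, g • u - u ∈ F ∙ w) → False := fun u hu hg => by
    have k : ∀ {t : P.Iso} {f' : V}, P.Hyp y f' → P.B w f' = 0 → t ∈ J → t ≠ 1 → Fx t {y, f'} →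
        P.B u f' = 0 := fun {t f'} k1 k2 k3 k4 k5 => by
      obtain ⟨c, hc⟩ := Submodule.mem_span_singleton.1 (hg t k3)
      have k6 := eq_of_mem_pair k1 (k5.sub hP u)
      rw [← hc] at k6
      simp only [map_smul, LinearMap.smul_apply, hwy, k2, smul_zero, zero_smul, sub_zero] at k6
      exact (mem_perp_pair.1 (fpf hP hH k1 k3.1 k4 k5 (sub_eq_zero.1 (hc.symm.trans k6)))).2
    have k1 := k h hwf sJ h1 fs
    have k2 := k h' (by simp [hwf, sp_B_self]) sJ' h1' fs'
    exact hu (by simpa [k1] using k2)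
  obtain ⟨u, hu⟩ := hP.exists_eq' hw 1
  obtain ⟨p, hp⟩ := CharP.exists F
  have : Fact p.Prime := ⟨CharP.char_is_prime F p⟩
  by_cases hd : p ∣ Nat.card J
  swap
  · have := Fintype.ofFinite J
    refine key (∑ g : J, g.1 • u) ?_ fun g hg => ?_
    · have e : ∀ g : J, P.B (g.1 • u) w = 1 := fun g => by
        rw [← hu, ← B_smul_smul g.1 u w, Jw g g.2]
      simpa [e, CharP.cast_eq_zero_iff F p] using hd
    · rw [Finset.smul_sum, ← Equiv.sum_comp (Equiv.mulLeft (⟨g, hg⟩ : J)) fun g : J => g.1 • u]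
      simp [mul_smul]
  obtain ⟨⟨g, hg⟩, hgp⟩ := exists_prime_orderOf_dvd_card' p hd
  have g1 : g ≠ 1 := fun e => by
    rw [show (⟨g, hg⟩ : J) = 1 from Subtype.ext e, orderOf_one] at hgp
    exact (Fact.out : p.Prime).one_lt.ne hgp
  have gp : g ^ p = 1 := by rw [← hgp]; exact congrArg Subtype.val (pow_orderOf_eq_one (⟨g, hg⟩ : J))
  obtain ⟨e, eP, e0, e1⟩ : ∃ e ∈ Pi, e ∉ F ∙ w ∧ g • e - e ∈ F ∙ w := by
    let φ : Module.End F V := ((g : V ≃ₗ[F] V) : V →ₗ[F] V) - 1
    have : CharP (Module.End F V) p := by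
      have : Nontrivial V := ⟨⟨w, 0, hw⟩⟩
      exact charP_of_injective_algebraMap (algebraMap F (Module.End F V)).injective p
    have hφ : φ ^ p = 0 := by
      rw [sub_pow_char_of_commute _ (Commute.one_right _), one_pow, sub_eq_zero]
      ext x
      rw [Module.End.pow_apply, Module.End.one_apply]
      exact (smul_iterate_apply g p x).trans (by rw [gp, one_smul])
    obtain ⟨n, n1, n2⟩ := Nat.exists_not_and_succ_of_not_zero_of_exists (p := fun n => (φ ^ n) y ∈ F ∙ w)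
      (fun e => by simpa [h.pair'] using Pw f fP y e) ⟨p, by simp [hφ]⟩
    refine ⟨_, ?_, n1, by rwa [pow_succ'] at n2⟩
    cases n with
    | zero => exact yP
    | succ n => rw [pow_succ']; exact Fx.sub hP hg.2 _
  have JP : ∀ g ∈ J, ∀ z ∈ Pi, g • z ∈ Pi := fun g hg z hz => Fx.mem hP hg.2 hz
  have mw2 : ∀ a ∈ Pi, ∀ b ∈ Pi, P.B a b ≠ 0 → ∀ z ∈ Pi, P.B z a = 0 → P.B z b = 0 → z ∈ F ∙ w := by
    intro a ha b hb hab z hz e1 e2
    obtain ⟨a1, a2, a3, rfl⟩ := Submodule.mem_span_triple.1 ha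
    obtain ⟨b1, b2, b3, rfl⟩ := Submodule.mem_span_triple.1 hb
    have e3 := Pw z hz w (Submodule.mem_span_singleton_self w)
    simp only [map_add, map_smul, LinearMap.add_apply, LinearMap.smul_apply, smul_eq_mul, sp_B_self, h.pair,
      hyp_rev h, hwy, hwf, hyw, hfw, e3] at hab e1 e2
    exact mw z hz (mul_left_cancel₀ hab (by linear_combination b2 * e1 - a2 * e2))
      (mul_left_cancel₀ hab (by linear_combination a1 * e2 - b1 * e1))
  have triv : ∀ t ∈ J, ∀ (c : F), ∀ a ∈ Pi, ∀ b ∈ Pi, P.B a b ≠ 0 → t • a - c • a ∈ F ∙ w → t • b - c • b ∈ F ∙ w →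
      ∀ z ∈ Pi, t • z - c • z ∈ F ∙ w := fun t ht c a ha b hb hab e1 e2 z hz => by
    have e3 := mw2 a ha b hb hab (z - (P.B z b / P.B a b) • a + (P.B z a / P.B a b) • b)
      (add_mem (sub_mem hz (Pi.smul_mem _ ha)) (Pi.smul_mem _ hb))
      (by simp [sp_B_self, sp_swap a b, hab]) (by simp [sp_B_self, hab])
    have e4 := JR t ht _ e3
    rw [smul_add, act_sub, act_smul, act_smul] at e4
    convert add_mem (sub_mem (Submodule.smul_mem _ (P.B z b / P.B a b) e1)
      (Submodule.smul_mem _ (P.B z a / P.B a b) e2)) (Submodule.smul_mem _ (1 - c) e3) using 1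
    linear_combination (norm := (simp only [smul_def]; module)) e4
  have shear : ∀ t ∈ J, t ≠ 1 → ∀ a ∈ Pi, ∀ b ∈ Pi, P.B a b ≠ 0 → t • a - a ∈ F ∙ w →
      ∃ c : F, c ≠ 0 ∧ t • b - (b + c • a) ∈ F ∙ w := fun t ht t1 a ha b hb hab e1 => by
    have e2 := Pw _ (JP t ht b hb) _ e1
    rw [map_sub, B_smul_smul, sub_eq_zero] at e2
    have e3 := mw2 a ha b hb hab (t • b - (b + (P.B (t • b) b / P.B a b) • a))
      (sub_mem (JP t ht b hb) (add_mem hb (Pi.smul_mem _ ha))) (by simp [sp_B_self, e2])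
      (by simp [sp_B_self, hab])
    refine ⟨_, fun h0 => t1 (N1 t ht fun z hz => ?_), e3⟩
    rw [h0, zero_smul, add_zero] at e3
    simpa using triv t ht 1 a ha b hb hab (by simpa using e1) (by simpa using e3) z hz
  let a := P.B e f • y - P.B e y • f
  have aL : a ∈ Submodule.span F {y, f} := Submodule.mem_span_pair.2 ⟨_, -P.B e y, by module⟩
  have aP : a ∈ Pi := sub_mem (Pi.smul_mem _ yP) (Pi.smul_mem _ fP)
  have ea : e - a ∈ F ∙ w := mw _ (sub_mem eP aP) (by simp [a, sp_B_self, hyp_rev h])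
    (by simp [a, sp_B_self, h.pair])
  have a0 : a ≠ 0 := fun h0 => e0 (by simpa [h0] using ea)
  have a1 : g • a - a ∈ F ∙ w := by
    have := JR g hg _ ea
    rw [act_sub] at this
    convert e1 using 1
    linear_combination (norm := (simp only [smul_def]; module)) -this
  have hba := hne a aL a0
  have bP := JP s sJ a aP
  have g'J : s * g * s⁻¹ ∈ J := mul_mem (mul_mem sJ hg) (inv_mem sJ)
  have b1 : (s * g * s⁻¹) • s • a - s • a ∈ F ∙ w := by
    rw [mul_smul, inv_smul_smul, mul_smul, ← act_sub, JR s sJ _ a1]; exact a1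
  obtain ⟨c, c0, hc⟩ := shear g hg g1 a aP _ bP (B_swap_ne hba) a1
  obtain ⟨d, d0, hd⟩ := shear _ g'J (by simpa using g1) _ bP a aP hba b1
  obtain ⟨i, hi, i1, i2⟩ := exists_neg h2 J (F ∙ w) (fun g hg r hr => by rwa [JR g hg r hr]) hg g'J c0 d0
    a1 hc b1 hd
  have i3 : ∀ z ∈ Pi, i • z + z ∈ F ∙ w := fun z hz => by
    simpa using triv i hi (-1) a aP _ bP (B_swap_ne hba) (by simpa using i1) (by simpa using i2) z hz
  have i4 : ∀ g ∈ J, i * g * i * g⁻¹ = 1 := fun g hg =>
    N1 _ (mul_mem (mul_mem (mul_mem hi hg) hi) (inv_mem hg)) fun z hz => by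
      have k1 := i3 _ (JP _ (inv_mem hg) z hz)
      have k2 := JR _ (mul_mem hi hg) _ k1
      rw [smul_add, mul_smul i g (g⁻¹ • z), smul_inv_smul] at k2
      convert sub_mem k1 (i3 z hz) using 1
      rw [mul_smul, mul_smul, ← k2]; abel
  have i5 : i • (u + i • u) = u + i • u := by
    rw [smul_add, ← mul_smul, show i * i = 1 by simpa using i4 1 (one_mem _), one_smul, add_comm]
  refine key (u + i • u) ?_ fun g hg => ?_
  · have : P.B (i • u) w = 1 := by rw [← hu, ← B_smul_smul i u w, Jw i hi]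
    rw [map_add, LinearMap.add_apply, this, hu, one_add_one_eq_two]; exact h2
  · have k1 := i3 _ (Fx.sub hP hg.2 (u + i • u))
    have k2 : i • g • (u + i • u) = g • (u + i • u) := by
      conv_lhs => rw [← i5, ← mul_smul, ← mul_smul, mul_inv_eq_one.1 (i4 g hg)]
    rw [act_sub, k2, i5, ← two_smul F] at k1
    exact (Submodule.smul_mem_iff _ h2).1 k1

theorem neg_of_invol (h2 : (2 : F) ≠ 0) {e f x : V} (h : P.Hyp e f) {i : P.Iso} (hi : i ∈ H) (fi : Fx i {e, f})
    (hx : x ∈ Submodule.span F {e, f}) (x0 : x ≠ 0) (ix : i • x = -x) :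
    ∀ z ∈ Submodule.span F {e, f}, i • z = -z := fun z hz => by
  have h1 : i * i = 1 := by
    by_contra h1
    exact x0 (fpf' hP hH h (mul_mem hi hi) h1 ((FxG P _).mul_mem fi fi) hx (by
      rw [mul_smul, ix, act_neg, ix, neg_neg]))
  refine eq_neg_of_add_eq_zero_left (fpf' hP hH h hi (fun e => x0 ?_) fi (add_mem (fi.mem hP hz) hz) ?_)
  · rw [e, one_smul, eq_neg_iff_add_eq_zero, ← two_smul F] at ix
    exact (smul_eq_zero.1 ix).resolve_left h2
  · rw [smul_add, ← mul_smul, h1, one_smul, add_comm]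

theorem neg_of_eig [Finite F] (h2 : (2 : F) ≠ 0) {e f x : V} (h : P.Hyp e f) {s : P.Iso} (hs : s ∈ H)
    (fs : Fx s {e, f}) (hx : x ∈ Submodule.span F {e, f}) (x0 : x ≠ 0) {β : F} (hβ : ¬ IsSquare β)
    (sx : s • x = β • x) : ∃ i ∈ H, Fx i {e, f} ∧ ∀ z ∈ Submodule.span F {e, f}, i • z = -z := by
  have := Fintype.ofFinite F
  have hc : ringChar F ≠ 2 := fun e => h2 (by have := ringChar.of_eq e; exact CharTwo.two_eq_zero)
  have b0 : β ≠ 0 := by rintro rfl; exact hβ IsSquare.zero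
  have h1 := (FiniteField.pow_dichotomy hc b0).resolve_left fun e => hβ ((FiniteField.isSquare_iff hc b0).2 e)
  have h3 : ∀ n : ℕ, s ^ n • x = β ^ n • x := fun n => by
    induction n with
    | zero => simp
    | succ n ih => rw [pow_succ, mul_smul, sx, act_smul, ih, smul_smul, pow_succ']
  have h4 := (FxG P _).pow_mem fs (Fintype.card F / 2)
  exact ⟨_, pow_mem hs _, h4, neg_of_invol hP hH h2 h (pow_mem hs _) h4 hx x0 (by rw [h3, h1, neg_one_smul])⟩

end

end Cfsg.Agent.SR
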